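import Mathlib
import Cfsg.Prelude.Def_Characters
import Cfsg.Agent.Lib.Helper32.D8Stmt
import Cfsg.Agent.Lib.CT.FrobRec

/-!
# S3716 piece CSD1 (second seat, helper46)

`main (hCS1 : CS1) (hBB : BBINV) (hDUAL : DUAL) : CSD1`: the class-pair table of the
`x*y`-side when there is no fusion, from `CS1` applied to the dual configuration.
-/

set_option autoImplicit false

namespace Cfsg.Agent.Lib.Helper46.D8CSD1

open Cfsg
open Cfsg.Agent.Lib.Helper32.D8Stmt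

universe u

/-- Conjugate elements have centralizers of the same order. -/
theorem cz_conj {G : Type u} [Group G] (k u : G) : cz (k * u * k⁻¹) = cz u := by
  unfold cz
  congr 1
  refine Nat.card_congr ⟨fun g => ⟨k⁻¹ * g.1 * k, ?_⟩, fun g => ⟨k * g.1 * k⁻¹, ?_⟩, ?_, ?_⟩
  · have hg := g.2
    rw [Subgroup.mem_centralizer_iff] at hg ⊢
    intro z hz
    rw [Set.mem_singleton_iff] at hz
    rw [hz]
    have h1 := hg (k * u * k⁻¹) rfl
    have h2 : u * (k⁻¹ * g.1 * k) = k⁻¹ * ((k * u * k⁻¹) * g.1) * k := by group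
    have h3 : k⁻¹ * g.1 * k * u = k⁻¹ * (g.1 * (k * u * k⁻¹)) * k := by group
    rw [h2, h3, h1]
  · have hg := g.2
    rw [Subgroup.mem_centralizer_iff] at hg ⊢
    intro z hz
    rw [Set.mem_singleton_iff] at hz
    rw [hz]
    have h1 := hg u rfl
    have h2 : k * u * k⁻¹ * (k * g.1 * k⁻¹) = k * (u * g.1) * k⁻¹ := by group
    have h3 : k * g.1 * k⁻¹ * (k * u * k⁻¹) = k * (g.1 * u) * k⁻¹ := by group
    rw [h2, h3, h1]
  · intro g
    apply Subtype.ext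
    show k * (k⁻¹ * g.1 * k) * k⁻¹ = g.1
    group
  · intro g
    apply Subtype.ext
    show k⁻¹ * (k * g.1 * k⁻¹) * k = g.1
    group

theorem isConj_conj_left {G : Type u} [Group G] (k u v : G) :
    IsConj (k * u * k⁻¹) v ↔ IsConj u v := by
  have h : IsConj u (k * u * k⁻¹) := isConj_iff.mpr ⟨k, rfl⟩
  exact ⟨fun h' => h.trans h', fun h' => h.symm.trans h'⟩

theorem isConj_conj_right {G : Type u} [Group G] (k u v : G) :
    IsConj u (k * v * k⁻¹) ↔ IsConj u v := by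
  have h : IsConj v (k * v * k⁻¹) := isConj_iff.mpr ⟨k, rfl⟩
  exact ⟨fun h' => h'.trans h.symm, fun h' => h'.trans h⟩

/-- Transport of a `Tab` from the dual pair `(a w a⁻¹, w a w⁻¹)` to `(a, w)`. -/
theorem tab_dual (hBB : BBINV.{u}) {G : Type u} [Group G] [Fintype G] (Θ : G → ℂ)
    (hΘ : IsClassFunction G Θ) (a w : G) (α β γ : ℂ)
    (h : Tab Θ (a * w * a⁻¹) (w * a * w⁻¹) α β γ) : Tab Θ a w γ β α := by
  obtain ⟨h1, h2, h3⟩ := h
  have e1 : bb Θ (a * w * a⁻¹) (a * w * a⁻¹) = bb Θ w w := by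
    rw [(hBB Θ hΘ w (a * w * a⁻¹) a).2.1, (hBB Θ hΘ w w a).2.2]
  have e2 : bb Θ (a * w * a⁻¹) (w * a * w⁻¹) = bb Θ a w := by
    rw [(hBB Θ hΘ w (w * a * w⁻¹) a).2.1, (hBB Θ hΘ w a w).2.2, (hBB Θ hΘ w a 1).1]
  have e3 : bb Θ (w * a * w⁻¹) (w * a * w⁻¹) = bb Θ a a := by
    rw [(hBB Θ hΘ a (w * a * w⁻¹) w).2.1, (hBB Θ hΘ a a w).2.2]
  exact ⟨by rw [← e3]; exact h3, by rw [← e2]; exact h2, by rw [← e1]; exact h1⟩

theorem main (hCS1 : CS1.{u}) (hBB : BBINV.{u}) (hDUAL : DUAL.{u}) : CSD1.{u} := by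
  intro G _ _ T N x y a b w hC f' g' hO h1 h2 h3
  obtain ⟨hC', e1, e2, e3, -, -⟩ := hDUAL hC
  have k1 : ¬ IsConj (w * a * b) b := by
    rw [e1]
    intro hc
    rw [isConj_conj_left] at hc
    have e3' := e3
    rw [e3'] at hc
    rw [isConj_conj_right] at hc
    exact h1 hc.symm
  have k2 : ¬ IsConj (w * a * b) (w * a * b * w) := by
    rw [e2, e1]
    intro hc
    rw [isConj_conj_left] at hc
    exact h3 hc
  have k3 : ¬ IsConj b (w * a * b * w) := by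
    rw [e2]
    intro hc
    have hc' : IsConj (w * a * w⁻¹) (a * b) := by rw [← e3]; exact hc
    rw [isConj_conj_left] at hc'
    exact h2 hc'
  obtain ⟨t1, t2⟩ := hCS1 hC' f' g' hO k1 k2 k3
  have c1 : cz (w * a * b) = cz w := by rw [e1]; exact cz_conj a w
  have c2 : cz b = cz a := by
    have : cz (w * a * w⁻¹) = cz a := cz_conj w a
    rw [← e3] at this
    exact this
  rw [c1, c2] at t1 t2
  have hcf1 : IsClassFunction G (th1 (x * y) f') :=
    Cfsg.Agent.Lib.CT.FrobRec.indFun_isClassFunction _ _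
  have hcf2 : IsClassFunction G (th2 (x * y) f' g') :=
    Cfsg.Agent.Lib.CT.FrobRec.indFun_isClassFunction _ _
  have t1' : Tab (th1 (x * y) f') (a * w * a⁻¹) (w * a * w⁻¹)
      (cz w ^ 2 / (2 * (Nat.card G : ℂ))) 0 (cz a ^ 2 / (Nat.card G : ℂ)) := by
    rw [← e1, ← e3]; exact t1
  have t2' : Tab (th2 (x * y) f' g') (a * w * a⁻¹) (w * a * w⁻¹)
      (cz w ^ 2 / (2 * (Nat.card G : ℂ))) 0 (cz a ^ 2 / (Nat.card G : ℂ)) := by
    rw [← e1, ← e3]; exact t2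
  exact ⟨tab_dual hBB _ hcf1 a w _ _ _ t1', tab_dual hBB _ hcf2 a w _ _ _ t2'⟩

end Cfsg.Agent.Lib.Helper46.D8CSD1
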