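import Mathlib

set_option autoImplicit false

/-!
# Semilinearity from a norm-type identity (Hua's identity in characteristic two)

`F` a finite field of characteristic two, `θ` a ring endomorphism with `N a = a * θ a` injective
and `{θ t + t}` of index two.  If `A`, `B` are additive injective maps of `F` with
`B (N a) = N (A a)`, then `A = l * ρ` and `B = N l * ρ` for a field endomorphism `ρ`.
-/

namespace Cfsg.Agent.Lib.Helper46.HuaSemi

variable {F : Type*} [Field F] [Finite F]

theorem sq_surj (h2 : (2 : F) = 0) (x : F) : ∃ a, a * a = x := by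
  have hinj : Function.Injective (fun a : F => a * a) := by
    intro a b h
    have h'' : a * a = b * b := h
    have h' : (a + b) * (a + b) = 0 := by
      linear_combination h'' + (a * b + b * b) * h2
    have := mul_self_eq_zero.mp h'
    linear_combination this - b * h2
  exact Finite.surjective_of_injective hinj x

/-- Hua's theorem in characteristic two, for a pair of additive maps intertwined by inversion. -/
theorem hua (h2 : (2 : F) = 0) (f g : F → F) (hf : ∀ x y, f (x + y) = f x + f y)
    (hg : ∀ x y, g (x + y) = g x + g y) (hf1 : f 1 = 1)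
    (hfg : ∀ x, x ≠ 0 → f x⁻¹ * g x = 1) : ∀ x y, f (x * y) = f x * f y := by
  have hf0 : f 0 = 0 := by
    have := hf 0 0
    rw [add_zero] at this
    linear_combination -this
  have hgf : ∀ x, x ≠ 0 → f x * g x⁻¹ = 1 := by
    intro x hx
    have := hfg x⁻¹ (inv_ne_zero hx)
    rwa [inv_inv] at this
  have hfne : ∀ x, x ≠ 0 → f x ≠ 0 := fun x hx h => by
    have := hgf x hx
    rw [h, zero_mul] at this
    exact zero_ne_one this
  have hgne : ∀ x, x ≠ 0 → g x ≠ 0 := fun x hx h => by
    have := hfg x hx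
    rw [h, mul_zero] at this
    exact zero_ne_one this
  have hg1 : g 1 = 1 := by
    have := hfg 1 one_ne_zero
    rwa [inv_one, hf1, one_mul] at this
  have hginv : ∀ x, x ≠ 0 → g x⁻¹ = (f x)⁻¹ := fun x hx =>
    eq_inv_of_mul_eq_one_right (hgf x hx)
  have hfinv : ∀ x, x ≠ 0 → f x⁻¹ = (g x)⁻¹ := fun x hx =>
    eq_inv_of_mul_eq_one_left (hfg x hx)
  have key : ∀ a b, a ≠ 0 → b ≠ 0 → f (a * a * b) = f a * f a * g b := by
    intro a b ha hb
    by_cases hab : a * b = 1
    · have hb' : b = a⁻¹ := eq_inv_of_mul_eq_one_right hab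
      rw [hb', mul_assoc, mul_inv_cancel₀ ha, mul_one, mul_assoc, hgf a ha, mul_one]
    · have hs : b⁻¹ + a ≠ 0 := by
        intro h
        apply hab
        have : a = b⁻¹ := by linear_combination h - b⁻¹ * h2
        rw [this, inv_mul_cancel₀ hb]
      have hu : a⁻¹ + (b⁻¹ + a)⁻¹ ≠ 0 := by
        intro h
        have h1 : a⁻¹ = (b⁻¹ + a)⁻¹ := by linear_combination h - (b⁻¹ + a)⁻¹ * h2
        have h3 := inv_injective h1
        have : b⁻¹ = 0 := by linear_combination -h3
        exact inv_ne_zero hb this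
      have hab1 : 1 + a * b ≠ 0 := by
        intro h
        apply hab
        linear_combination h - h2
      have e1 : a * a * b = a + (a⁻¹ + (b⁻¹ + a)⁻¹)⁻¹ := by
        have e2 : a⁻¹ + (b⁻¹ + a)⁻¹ = (a * (1 + a * b))⁻¹ := by
          field_simp
          linear_combination (a * b) * h2
        rw [e2, inv_inv]
        linear_combination (-a) * h2
      rw [e1, hf, hfinv _ hu, hg, hginv a ha, hginv _ hs, hf, hfinv b hb]
      have hA := hfne a ha
      have hB := hgne b hb
      have hS : (g b)⁻¹ + f a ≠ 0 := by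
        have := hfne _ hs
        rwa [hf, hfinv b hb] at this
      have hAB1 : 1 + f a * g b ≠ 0 := by
        intro h
        apply hS
        have : (g b)⁻¹ + f a = (g b)⁻¹ * (1 + f a * g b) := by field_simp
        rw [this, h, mul_zero]
      have e2 : (f a)⁻¹ + ((g b)⁻¹ + f a)⁻¹ = (f a * (1 + f a * g b))⁻¹ := by
        field_simp
        linear_combination (f a * g b) * h2
      rw [e2, inv_inv]
      linear_combination (f a) * h2
  have hsq : ∀ a, f (a * a) = f a * f a := by
    intro a
    by_cases ha : a = 0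
    · rw [ha, mul_zero, hf0, mul_zero]
    · have := key a 1 ha one_ne_zero
      rwa [mul_one, hg1, mul_one] at this
  have hfg_eq : ∀ b, b ≠ 0 → f b = g b := by
    intro b hb
    have := key 1 b one_ne_zero hb
    rwa [one_mul, one_mul, hf1, one_mul, one_mul] at this
  intro x y
  by_cases hx : x = 0
  · rw [hx, zero_mul, hf0, zero_mul]
  by_cases hy : y = 0
  · rw [hy, mul_zero, hf0, mul_zero]
  obtain ⟨a, rfl⟩ := sq_surj h2 x
  have ha : a ≠ 0 := by
    rintro rfl
    exact hx (mul_zero 0)
  rw [key a y ha hy, hsq, hfg_eq y hy]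

theorem semilinear (h2 : (2 : F) = 0) (θ : F →+* F)
    (hN : ∀ a b : F, a * θ a = b * θ b → a = b)
    (hP2 : ∃ e : F, ¬ ∃ t, e = θ t + t)
    (hP3 : ∀ a b : F, (¬ ∃ t, a = θ t + t) → (¬ ∃ t, b = θ t + t) → ∃ t, a + b = θ t + t)
    (A B : F → F) (hA : ∀ x y, A (x + y) = A x + A y) (hB : ∀ x y, B (x + y) = B x + B y)
    (hAinj : Function.Injective A) (hBinj : Function.Injective B)
    (hAB : ∀ a, B (a * θ a) = A a * θ (A a)) :
    ∃ (c : F) (ρ : F →+* F), c ≠ 0 ∧ ∀ x, B x = c * ρ x := by
  classical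
  let P : F → Prop := fun s => ∃ t, s = θ t + t
  have hA0 : A 0 = 0 := by
    have := hA 0 0
    rw [add_zero] at this
    linear_combination -this
  have hB0 : B 0 = 0 := by
    have := hB 0 0
    rw [add_zero] at this
    linear_combination -this
  have hAne : ∀ x, x ≠ 0 → A x ≠ 0 := fun x hx h => hx (hAinj (h.trans hA0.symm))
  have hBne : ∀ x, x ≠ 0 → B x ≠ 0 := fun x hx h => hx (hBinj (h.trans hB0.symm))
  have hBsurj : Function.Surjective B := Finite.surjective_of_injective hBinj
  have hNsurj : ∀ u : F, ∃ a, a * θ a = u :=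
    Finite.surjective_of_injective (f := fun a => a * θ a) (fun a b h => hN a b h)
  have hθinj : Function.Injective θ := θ.injective
  have hPadd : ∀ a b, P a → P b → P (a + b) := by
    rintro a b ⟨t, rfl⟩ ⟨t', rfl⟩
    exact ⟨t + t', by rw [map_add]; ring⟩
  have hPiff : ∀ a b, P (a + b) ↔ (P a ↔ P b) := by
    intro a b
    constructor
    · intro hab
      constructor
      · intro ha
        have := hPadd _ _ hab ha
        have e : a + b + a = b := by linear_combination a * h2
        rwa [e] at this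
      · intro hb
        have := hPadd _ _ hab hb
        have e : a + b + b = a := by linear_combination b * h2
        rwa [e] at this
    · intro h
      by_cases ha : P a
      · exact hPadd _ _ ha (h.mp ha)
      · exact hP3 a b ha (fun hb => ha (h.mpr hb))
  have hpol : ∀ a c, B (a * θ c + c * θ a) = A a * θ (A c) + A c * θ (A a) := by
    intro a c
    have h1 := hAB (a + c)
    rw [hA, map_add, map_add] at h1
    have e : (a + c) * (θ a + θ c) = a * θ a + c * θ c + (a * θ c + c * θ a) := by ring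
    rw [e, hB, hB, hAB, hAB] at h1
    linear_combination h1
  have hstep : ∀ u s, u ≠ 0 → P s → P (B (u * s) / B u) := by
    rintro u s hu ⟨t, rfl⟩
    obtain ⟨a, rfl⟩ := hNsurj u
    have ha : a ≠ 0 := by
      rintro rfl
      exact hu (by rw [zero_mul])
    have hAa := hAne a ha
    have hθAa : θ (A a) ≠ 0 := fun h => hAa (hθinj (h.trans (map_zero θ).symm))
    have e : a * θ a * (θ t + t) = a * θ (t * a) + (t * a) * θ a := by
      rw [map_mul]
      ring
    rw [e, hpol, hAB]
    refine ⟨A (t * a) / A a, ?_⟩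
    rw [map_div₀]
    field_simp
  have hconv : ∀ u s, u ≠ 0 → P (B (u * s) / B u) → P s := by
    intro u s hu hs
    let L : {s // P s} → {s // P s} := fun s => ⟨B (u * s.1) / B u, hstep u s.1 hu s.2⟩
    have hLinj : Function.Injective L := by
      intro s1 s2 h
      have h1 : B (u * s1.1) / B u = B (u * s2.1) / B u := congrArg Subtype.val h
      have h3 := hBinj ((div_left_inj' (hBne u hu)).mp h1)
      exact Subtype.ext (mul_left_cancel₀ hu h3)
    obtain ⟨s', hs'⟩ := Finite.surjective_of_injective hLinj ⟨_, hs⟩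
    have h1 : B (u * s'.1) / B u = B (u * s) / B u := congrArg Subtype.val hs'
    have h3 := hBinj ((div_left_inj' (hBne u hu)).mp h1)
    have h4 : s'.1 = s := mul_left_cancel₀ hu h3
    rw [← h4]
    exact s'.2
  let D : F → F := fun y => (B y⁻¹)⁻¹
  have hD0 : D 0 = 0 := by
    show (B (0 : F)⁻¹)⁻¹ = 0
    rw [inv_zero, hB0, inv_zero]
  have hPD : ∀ x y, P (x * y) ↔ P (B x * D y) := by
    intro x y
    by_cases hy : y = 0
    · rw [hy, mul_zero, hD0, mul_zero]
    · have hy' : y⁻¹ ≠ 0 := inv_ne_zero hy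
      have e : B x * D y = B (y⁻¹ * (x * y)) / B y⁻¹ := by
        show B x * (B y⁻¹)⁻¹ = _
        rw [mul_comm x y, inv_mul_cancel_left₀ hy, div_eq_mul_inv]
      rw [e]
      exact ⟨hstep _ _ hy', hconv _ _ hy'⟩
  have hDadd : ∀ y₁ y₂, D (y₁ + y₂) = D y₁ + D y₂ := by
    intro y₁ y₂
    by_contra hne
    have hw : D (y₁ + y₂) + (D y₁ + D y₂) ≠ 0 := by
      intro h
      apply hne
      linear_combination h - (D y₁ + D y₂) * h2
    obtain ⟨e, he⟩ := hP2
    apply he
    obtain ⟨x, hx⟩ := hBsurj (e / (D (y₁ + y₂) + (D y₁ + D y₂)))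
    have h1 : P (B x * D (y₁ + y₂) + (B x * D y₁ + B x * D y₂)) := by
      rw [hPiff, ← hPD, hPiff, ← hPD, ← hPD, mul_add, hPiff]
    have e2 : B x * D (y₁ + y₂) + (B x * D y₁ + B x * D y₂) = e := by
      rw [hx]
      field_simp
    rwa [e2] at h1
  have hc : B 1 ≠ 0 := hBne 1 one_ne_zero
  have hmul := hua h2 (fun x => B x / B 1) (fun x => B 1 * D x)
    (fun x y => by simp only [hB]; ring) (fun x y => by simp only [hDadd]; ring)
    (div_self hc)
    (fun x hx => by
      show B x⁻¹ / B 1 * (B 1 * (B x⁻¹)⁻¹) = 1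
      have := hBne x⁻¹ (inv_ne_zero hx)
      rw [div_mul_eq_mul_div, mul_left_comm, mul_inv_cancel₀ this, mul_one, div_self hc])
  let ρ : F →+* F :=
    { toFun := fun x => B x / B 1
      map_one' := div_self hc
      map_mul' := hmul
      map_zero' := by rw [hB0, zero_div]
      map_add' := fun x y => by rw [hB, add_div] }
  refine ⟨B 1, ρ, hc, fun x => ?_⟩
  show B x = B 1 * (B x / B 1)
  field_simp

theorem semilinear' (h2 : (2 : F) = 0) (θ : F →+* F) (e : ℕ) (hθ : ∀ x, θ x = x ^ e)
    (hN : ∀ a b : F, a * θ a = b * θ b → a = b)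
    (hP2 : ∃ e : F, ¬ ∃ t, e = θ t + t)
    (hP3 : ∀ a b : F, (¬ ∃ t, a = θ t + t) → (¬ ∃ t, b = θ t + t) → ∃ t, a + b = θ t + t)
    (A B : F → F) (hA : ∀ x y, A (x + y) = A x + A y) (hB : ∀ x y, B (x + y) = B x + B y)
    (hAinj : Function.Injective A) (hBinj : Function.Injective B)
    (hAB : ∀ a, B (a * θ a) = A a * θ (A a)) :
    ∃ (l : F) (ρ : F →+* F), l ≠ 0 ∧ (∀ x, A x = l * ρ x) ∧ ∀ x, B x = l * θ l * ρ x := by
  obtain ⟨c, ρ, hc, hρ⟩ := semilinear h2 θ hN hP2 hP3 A B hA hB hAinj hBinj hAB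
  obtain ⟨l, hl⟩ := (Finite.surjective_of_injective (f := fun a : F => a * θ a)
    (fun a b h => hN a b h)) c
  have hl' : l * θ l = c := hl
  have hl0 : l ≠ 0 := by
    rintro rfl
    apply hc
    rw [← hl', zero_mul]
  refine ⟨l, ρ, hl0, fun x => ?_, fun x => by rw [hρ, ← hl']⟩
  apply hN
  rw [← hAB, hρ, ← hl', map_mul, map_mul, hθ (ρ x), hθ x, map_pow]
  ring

end Cfsg.Agent.Lib.Helper46.HuaSemi
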