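import Mathlib
import Cfsg.Agent.Lib.Helper40.HermAdj

set_option autoImplicit false
set_option linter.unusedSectionVars false
set_option linter.unusedVariables false

/-!
# Rank one unitary groups in antidiagonal coordinates

`JModel G φ`: a group `G` realised as the group of all `3 × 3` matrices of determinant one
preserving the antidiagonal Hermitian form (with respect to the involution `φ`), together
with the fact that it is generated by its transvections.  Main results: `exists_conj`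
(conjugacy of upper and lower unitriangular elements) and `closure_top` (a subgroup containing
an upper and a lower regular unipotent element and a suitable Borel element is everything).
-/

namespace Cfsg.Agent.Lib.Helper46.SU3J

open Matrix
open Cfsg.Agent.Lib.Helper40.HermAdj

section Mat

variable {F : Type*} [Field F] (φ : F →+* F)

/-- The antidiagonal Gram matrix. -/
def Jm (F : Type*) [Field F] : Matrix (Fin 3) (Fin 3) F := !![0, 0, 1; 0, 1, 0; 1, 0, 0]

/-- Upper unitriangular elements. -/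
def uM (a b : F) : Matrix (Fin 3) (Fin 3) F := !![1, a, b; 0, 1, -φ a; 0, 0, 1]

/-- Lower unitriangular elements. -/
def vM (c d : F) : Matrix (Fin 3) (Fin 3) F := !![1, 0, 0; c, 1, 0; d, -φ c, 1]

/-- The transvection `x ↦ x + c h(x, w) w` for the antidiagonal form. -/
def trv (w : Fin 3 → F) (c : F) : Matrix (Fin 3) (Fin 3) F :=
  1 + c • Matrix.vecMulVec w ![φ (w 2), φ (w 1), φ (w 0)]

theorem uM_mul (a b a' b' : F) :
    uM φ a b * uM φ a' b' = uM φ (a + a') (b + b' - a * φ a') := by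
  ext i j
  fin_cases i <;> fin_cases j <;> simp [uM, Matrix.mul_apply, Fin.sum_univ_three] <;> ring

theorem vM_mul (c d c' d' : F) :
    vM φ c d * vM φ c' d' = vM φ (c + c') (d + d' - φ c * c') := by
  ext i j
  fin_cases i <;> fin_cases j <;> simp [vM, Matrix.mul_apply, Fin.sum_univ_three] <;> ring

theorem uM_zero : uM φ 0 0 = 1 := by
  ext i j
  fin_cases i <;> fin_cases j <;> simp [uM]

theorem vM_zero : vM φ 0 0 = 1 := by
  ext i j
  fin_cases i <;> fin_cases j <;> simp [vM]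

theorem det_uM (a b : F) : (uM φ a b).det = 1 := by
  simp [uM, Matrix.det_fin_three]

theorem det_vM (c d : F) : (vM φ c d).det = 1 := by
  simp [vM, Matrix.det_fin_three]

theorem uM_inj {a b a' b' : F} (h : uM φ a b = uM φ a' b') : a = a' ∧ b = b' := by
  have h1 := congrFun (congrFun h 0) 1
  have h2 := congrFun (congrFun h 0) 2
  simp [uM] at h1 h2
  exact ⟨h1, h2⟩

theorem vM_inj {c d c' d' : F} (h : vM φ c d = vM φ c' d') : c = c' ∧ d = d' := by
  have h1 := congrFun (congrFun h 1) 0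
  have h2 := congrFun (congrFun h 2) 0
  simp [vM] at h1 h2
  exact ⟨h1, h2⟩

/-- Entries of `adj M * J * M`. -/
theorem unit_apply (M : Matrix (Fin 3) (Fin 3) F) (i j : Fin 3) :
    (adj φ M * Jm F * M) i j = φ (M 0 i) * M 2 j + φ (M 1 i) * M 1 j + φ (M 2 i) * M 0 j := by
  simp [Matrix.mul_apply, Fin.sum_univ_three, adj_apply, Jm]
  ring

theorem unit_iff (M : Matrix (Fin 3) (Fin 3) F) :
    adj φ M * Jm F * M = Jm F ↔
      ∀ i j, φ (M 0 i) * M 2 j + φ (M 1 i) * M 1 j + φ (M 2 i) * M 0 j = Jm F i j := by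
  constructor
  · intro h i j
    rw [← unit_apply, h]
  · intro h
    ext i j
    rw [unit_apply, h]

theorem uM_unitary (hinv : ∀ x, φ (φ x) = x) {a b : F} (h : b + φ b + a * φ a = 0) :
    adj φ (uM φ a b) * Jm F * uM φ a b = Jm F := by
  rw [unit_iff]
  intro i j
  fin_cases i <;> fin_cases j <;> simp [uM, Jm, hinv]
  linear_combination h

theorem vM_unitary (hinv : ∀ x, φ (φ x) = x) {c d : F} (h : d + φ d + c * φ c = 0) :
    adj φ (vM φ c d) * Jm F * vM φ c d = Jm F := by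
  rw [unit_iff]
  intro i j
  fin_cases i <;> fin_cases j <;> simp [vM, Jm, hinv]
  linear_combination h

theorem uM_mulVec (a b x y z : F) :
    uM φ a b *ᵥ ![x, y, z] = ![x + a * y + b * z, y - φ a * z, z] := by
  ext i
  fin_cases i <;> simp [uM, Matrix.mulVec, dotProduct, Fin.sum_univ_three] <;> ring

theorem vM_mulVec (c d x y z : F) :
    vM φ c d *ᵥ ![x, y, z] = ![x, c * x + y, d * x - φ c * y + z] := by
  ext i
  fin_cases i <;> simp [vM, Matrix.mulVec, dotProduct, Fin.sum_univ_three] <;> ring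

theorem col_zero (A : Matrix (Fin 3) (Fin 3) F) (i : Fin 3) : A i 0 = (A *ᵥ ![1, 0, 0]) i := by
  simp [Matrix.mulVec, dotProduct, Fin.sum_univ_three]

theorem vec3_ext {x y z x' y' z' : F} (h1 : x = x') (h2 : y = y') (h3 : z = z') :
    (![x, y, z] : Fin 3 → F) = ![x', y', z'] := by
  rw [h1, h2, h3]

/-- An element of the unitary group fixing the first basis vector is upper unitriangular. -/
theorem eq_uM (hinv : ∀ x, φ (φ x) = x) (M : Matrix (Fin 3) (Fin 3) F)
    (hM : adj φ M * Jm F * M = Jm F) (hdet : M.det = 1)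
    (h00 : M 0 0 = 1) (h10 : M 1 0 = 0) (h20 : M 2 0 = 0) :
    ∃ a b, b + φ b + a * φ a = 0 ∧ M = uM φ a b := by
  rw [unit_iff] at hM
  have e01 := hM 0 1
  have e02 := hM 0 2
  have e12 := hM 1 2
  have e22 := hM 2 2
  simp [Jm, h00, h10, h20] at e01 e02 e12 e22
  have h21 : M 2 1 = 0 := e01
  have h22 : M 2 2 = 1 := e02
  have h11 : M 1 1 = 1 := by
    rw [Matrix.det_fin_three] at hdet
    simp [h00, h10, h20, h21, h22] at hdet
    exact hdet
  rw [h21, h22, h11] at e12
  simp at e12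
  have h12 : M 1 2 = -φ (M 0 1) := by linear_combination e12
  rw [h22, h12] at e22
  simp [hinv] at e22
  refine ⟨M 0 1, M 0 2, by linear_combination e22, ?_⟩
  ext i j
  fin_cases i <;> fin_cases j <;> simp [uM, h00, h10, h20, h21, h22, h11, h12]

theorem Jφ_eq (w : Fin 3 → F) :
    Jm F *ᵥ (φ ∘ w) = ![φ (w 2), φ (w 1), φ (w 0)] := by
  ext i
  fin_cases i <;> simp [Jm, Matrix.mulVec, dotProduct, Fin.sum_univ_three]

theorem Jm_transpose : (Jm F)ᵀ = Jm F := by
  ext i j
  fin_cases i <;> fin_cases j <;> simp [Jm]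

/-- Conjugating a transvection by a unitary matrix. -/
theorem trv_conj (M : Matrix (Fin 3) (Fin 3) F) (hM : adj φ M * Jm F * M = Jm F)
    (w : Fin 3 → F) (c : F) : M * trv φ w c = trv φ (M *ᵥ w) c * M := by
  have key : (Jm F *ᵥ (φ ∘ (M *ᵥ w))) ᵥ* M = Jm F *ᵥ (φ ∘ w) := by
    rw [phi_mulVec, Matrix.mulVec_mulVec, ← Matrix.vecMul_transpose, Matrix.vecMul_vecMul,
      Matrix.transpose_mul, Jm_transpose]
    have : (M.map φ)ᵀ * Jm F * M = Jm F := hM
    rw [this, ← Matrix.mulVec_transpose, Jm_transpose]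
  unfold trv
  rw [← Jφ_eq, ← Jφ_eq, Matrix.mul_add, Matrix.add_mul, Matrix.mul_one, Matrix.one_mul,
    Matrix.mul_smul, Matrix.smul_mul, Matrix.mul_vecMulVec, Matrix.vecMulVec_mul, key]

theorem trv_e0 (b : F) : trv φ ![1, 0, 0] b = uM φ 0 b := by
  ext i j
  fin_cases i <;> fin_cases j <;> simp [trv, uM, Matrix.vecMulVec_apply]

theorem trv_e2 (t c : F) : trv φ ![0, 0, t] c = vM φ 0 (c * (t * φ t)) := by
  ext i j
  fin_cases i <;> fin_cases j <;> simp [trv, vM, Matrix.vecMulVec_apply]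

theorem trv_w0 (x c : F) : trv φ ![x, 0, 0] c = uM φ 0 (c * (x * φ x)) := by
  ext i j
  fin_cases i <;> fin_cases j <;> simp [trv, uM, Matrix.vecMulVec_apply]

end Mat

/-- A group realised as the full special unitary group of the antidiagonal Hermitian form in
dimension three, generated by its transvections. -/
structure JModel (G : Type*) [Group G] {F : Type*} [Field F] (φ : F →+* F) where
  mat : G →* Matrix (Fin 3) (Fin 3) F
  inj : Function.Injective mat
  det : ∀ g, (mat g).det = 1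
  unitary : ∀ g, adj φ (mat g) * Jm F * mat g = Jm F
  surj : ∀ A : Matrix (Fin 3) (Fin 3) F, A.det = 1 → adj φ A * Jm F * A = Jm F → ∃ g, mat g = A
  gen : ∀ L : Subgroup G, (∀ g, (∃ (w : Fin 3 → F) (c : F),
      w 0 * φ (w 2) + w 1 * φ (w 1) + w 2 * φ (w 0) = 0 ∧ mat g = trv φ w c) → g ∈ L) → L = ⊤

namespace JModel

variable {G : Type*} [Group G] {F : Type*} [Field F] {φ : F →+* F} (M : JModel G φ)

theorem mat_inv_mul (g : G) : M.mat g⁻¹ * M.mat g = 1 := by
  rw [← map_mul, inv_mul_cancel, map_one]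

theorem mat_mul_inv (g : G) : M.mat g * M.mat g⁻¹ = 1 := by
  rw [← map_mul, mul_inv_cancel, map_one]

theorem cancel_right {A B : Matrix (Fin 3) (Fin 3) F} (g : G) (h : A * M.mat g = B * M.mat g) :
    A = B := by
  have := congrArg (· * M.mat g⁻¹) h
  simpa [Matrix.mul_assoc, M.mat_mul_inv] using this

theorem cancel_left {A B : Matrix (Fin 3) (Fin 3) F} (g : G) (h : M.mat g * A = M.mat g * B) :
    A = B := by
  have := congrArg (M.mat g⁻¹ * ·) h
  simpa [← Matrix.mul_assoc, M.mat_inv_mul] using this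

/-- The upper unitriangular element with given coordinates. -/
theorem exists_u (hinv : ∀ x, φ (φ x) = x) {a b : F} (h : b + φ b + a * φ a = 0) :
    ∃ g, M.mat g = uM φ a b :=
  M.surj _ (det_uM φ a b) (uM_unitary φ hinv h)

theorem exists_v (hinv : ∀ x, φ (φ x) = x) {c d : F} (h : d + φ d + c * φ c = 0) :
    ∃ g, M.mat g = vM φ c d :=
  M.surj _ (det_vM φ c d) (vM_unitary φ hinv h)

theorem rel_of_u (hinv : ∀ x, φ (φ x) = x) {g : G} {a b : F} (h : M.mat g = uM φ a b) :
    b + φ b + a * φ a = 0 := by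
  have := M.unitary g
  rw [h, unit_iff] at this
  have e := this 2 2
  simp [uM, Jm, hinv] at e
  linear_combination e

theorem rel_of_v (hinv : ∀ x, φ (φ x) = x) {g : G} {c d : F} (h : M.mat g = vM φ c d) :
    d + φ d + c * φ c = 0 := by
  have := M.unitary g
  rw [h, unit_iff] at this
  have e := this 0 0
  simp [vM, Jm, hinv] at e
  linear_combination e

theorem mat_inv_u (hinv : ∀ x, φ (φ x) = x) {g : G} {a b : F} (h : M.mat g = uM φ a b) :
    M.mat g⁻¹ = uM φ (-a) (φ b) := by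
  have hrel := M.rel_of_u hinv h
  apply M.cancel_right g
  rw [M.mat_inv_mul, h, uM_mul]
  have e1 : -a + a = 0 := by ring
  have e2 : φ b + b - -a * φ a = 0 := by linear_combination hrel
  rw [e1, e2, uM_zero]

theorem mat_inv_v (hinv : ∀ x, φ (φ x) = x) {g : G} {c d : F} (h : M.mat g = vM φ c d) :
    M.mat g⁻¹ = vM φ (-c) (φ d) := by
  have hrel := M.rel_of_v hinv h
  apply M.cancel_right g
  rw [M.mat_inv_mul, h, vM_mul]
  have e1 : -c + c = 0 := by ring
  have e2 : φ d + d - φ (-c) * c = 0 := by rw [map_neg]; linear_combination hrel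
  rw [e1, e2, vM_zero]

/-- Upper and lower regular unipotent elements with matching first coordinates are conjugate. -/
theorem exists_conj (hinv : ∀ x, φ (φ x) = x) (htr : ∀ c, φ c = c → ∃ b, b + φ b = c)
    {a b c d t : F} (ht : t ≠ 0) (hc : c * t ^ 2 = φ t * φ a) (hc0 : c ≠ 0)
    {u v : G} (hu : M.mat u = uM φ a b) (hv : M.mat v = vM φ c d) : ∃ g, g * u * g⁻¹ = v := by
  have hφt : φ t ≠ 0 := (map_ne_zero φ).mpr ht
  have hφc : φ c ≠ 0 := (map_ne_zero φ).mpr hc0
  have hrel := M.rel_of_u hinv hu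
  have hrel' := M.rel_of_v hinv hv
  have hc' : φ c * φ t ^ 2 = t * a := by
    have := congrArg φ hc
    rw [map_mul, map_pow, map_mul, hinv, hinv] at this
    exact this
  obtain ⟨W, hW⟩ : ∃ W : Matrix (Fin 3) (Fin 3) F,
      W = !![0, 0, t; 0, -(φ t / t), 0; (φ t)⁻¹, 0, 0] := ⟨_, rfl⟩
  have hWdet : W.det = 1 := by
    rw [hW, Matrix.det_fin_three]
    simp
    field_simp
  have hWu : adj φ W * Jm F * W = Jm F := by
    rw [unit_iff]
    intro i j
    fin_cases i <;> fin_cases j <;> simp [hW, Jm, hinv] <;> field_simp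
  obtain ⟨w, hw⟩ := M.surj W hWdet hWu
  obtain ⟨d', hd'⟩ : ∃ d' : F, d' = b / (t * φ t) := ⟨_, rfl⟩
  have hcomm : W * uM φ a b = vM φ c d' * W := by
    rw [hW, hd']
    ext i j
    fin_cases i <;> fin_cases j <;>
      simp [uM, vM, Matrix.mul_apply, Fin.sum_univ_three, hinv]
    · field_simp
      linear_combination -hc
    · field_simp
      linear_combination -hc'
    · field_simp
  have hv' : M.mat (w * u * w⁻¹) = vM φ c d' := by
    apply M.cancel_right w
    rw [← map_mul, inv_mul_cancel_right, map_mul, hw, hu, hcomm]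
  have hrel'' := M.rel_of_v hinv hv'
  obtain ⟨ζ, hζ⟩ : ∃ ζ : F, ζ = d - d' := ⟨_, rfl⟩
  have hζφ : φ ζ = -ζ := by
    rw [hζ, map_sub]
    linear_combination hrel' - hrel''
  obtain ⟨ε, hε⟩ := htr 1 (map_one φ)
  obtain ⟨c₁, hc₁⟩ : ∃ c₁ : F, c₁ = ε * ζ / φ c := ⟨_, rfl⟩
  have hφc₁ : φ c₁ = -(φ ε * ζ) / c := by
    rw [hc₁, map_div₀, map_mul, hζφ, hinv]
    ring
  obtain ⟨d₁, hd₁⟩ := htr (-(c₁ * φ c₁)) (by rw [map_neg, map_mul, hinv]; ring)
  obtain ⟨x, hx⟩ := M.exists_v hinv (c := c₁) (d := d₁) (by linear_combination hd₁)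
  refine ⟨x * w, ?_⟩
  apply M.inj
  have e : x * w * u * (x * w)⁻¹ = x * (w * u * w⁻¹) * x⁻¹ := by group
  rw [e, hv]
  apply M.cancel_right x
  rw [← map_mul, inv_mul_cancel_right, map_mul, hx, hv', vM_mul, vM_mul]
  have e1 : c₁ + c = c + c₁ := add_comm _ _
  have e2 : d₁ + d' - φ c₁ * c = d + d₁ - φ c * c₁ := by
    rw [hφc₁, hc₁]
    field_simp
    linear_combination ζ * hε + hζ
  rw [e1, e2]

/-- A subgroup containing an upper unitriangular element, a lower unitriangular element off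
the Borel subgroup, and a Borel element `k` whose torus part acts on the first coordinates by a
scalar `σ` generating the field, is the whole group. -/
theorem closure_top (hinv : ∀ x, φ (φ x) = x) (htr : ∀ c, φ c = c → ∃ b, b + φ b = c)
    (L : Subgroup G) {u₀ v₀ k : G} (hu : u₀ ∈ L) (hv : v₀ ∈ L) (hk : k ∈ L)
    {a₀ b₀ c₀ d₀ σ : F} (hu' : M.mat u₀ = uM φ a₀ b₀)
    (hv' : M.mat v₀ = vM φ c₀ d₀) (hd₀ : d₀ ≠ 0)
    (hk1 : M.mat k 1 0 = 0) (hk2 : M.mat k 2 0 = 0)
    (hσ : σ * φ (M.mat k 0 0) = M.mat k 0 0 * M.mat k 0 0)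
    (hfield : ∀ A : AddSubgroup F, a₀ ∈ A → (∀ a ∈ A, σ * a ∈ A) → ∀ y, y ∈ A) : L = ⊤ := by
  have hmem : ∀ (g g' : G), g' ∈ L → M.mat g = M.mat g' → g ∈ L := by
    intro g g' hg' h
    rw [M.inj h]
    exact hg'
  let A : AddSubgroup F :=
    { carrier := {a | ∃ b, ∃ g ∈ L, M.mat g = uM φ a b}
      zero_mem' := ⟨0, 1, L.one_mem, by rw [map_one, uM_zero]⟩
      add_mem' := by
        rintro a a' ⟨b, g, hg, hgm⟩ ⟨b', g', hg', hgm'⟩
        exact ⟨_, g * g', L.mul_mem hg hg', by rw [map_mul, hgm, hgm', uM_mul]⟩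
      neg_mem' := by
        rintro a ⟨b, g, hg, hgm⟩
        exact ⟨_, g⁻¹, L.inv_mem hg, M.mat_inv_u hinv hgm⟩ }
  have hA0 : a₀ ∈ A := ⟨b₀, u₀, hu, hu'⟩
  obtain ⟨K, hK⟩ : ∃ K, K = M.mat k := ⟨_, rfl⟩
  obtain ⟨s, hs⟩ : ∃ s, s = K 0 0 := ⟨_, rfl⟩
  rw [← hK] at hk1 hk2 hσ
  rw [← hs] at hσ
  have hKu := M.unitary k
  rw [← hK, unit_iff] at hKu
  have e02 : φ s * K 2 2 = 1 := by
    have := hKu 0 2
    rw [hk1, hk2, ← hs] at this
    simpa [Jm] using this
  have e01 : φ s * K 2 1 = 0 := by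
    have := hKu 0 1
    rw [hk1, hk2, ← hs] at this
    simpa [Jm] using this
  have hφs : φ s ≠ 0 := by
    intro h
    rw [h, zero_mul] at e02
    exact zero_ne_one e02
  have hs0 : s ≠ 0 := fun h => hφs (by rw [h, map_zero])
  have hK21 : K 2 1 = 0 := by
    rcases mul_eq_zero.mp e01 with h | h
    · exact absurd h hφs
    · exact h
  have hdetK : s * K 1 1 * K 2 2 = 1 := by
    have := M.det k
    rw [← hK, Matrix.det_fin_three, hk1, hk2, hK21, ← hs] at this
    linear_combination this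
  have hAσ : ∀ a ∈ A, σ * a ∈ A := by
    rintro a ⟨b, g, hg, hgm⟩
    obtain ⟨M', hM'⟩ : ∃ M', M' = M.mat (k * g * k⁻¹) := ⟨_, rfl⟩
    have hcomm : M' * K = K * uM φ a b := by
      rw [hM', hK, ← map_mul, inv_mul_cancel_right, map_mul, hgm]
    have c00 : M' 0 0 * s = s := by
      have := congrFun (congrFun hcomm 0) 0
      simpa [Matrix.mul_apply, Fin.sum_univ_three, uM, hk1, hk2, ← hs] using this
    have c10 : M' 1 0 * s = 0 := by
      have := congrFun (congrFun hcomm 1) 0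
      simpa [Matrix.mul_apply, Fin.sum_univ_three, uM, hk1, hk2, ← hs] using this
    have c20 : M' 2 0 * s = 0 := by
      have := congrFun (congrFun hcomm 2) 0
      simpa [Matrix.mul_apply, Fin.sum_univ_three, uM, hk1, hk2, ← hs] using this
    have c01 : M' 0 0 * K 0 1 + M' 0 1 * K 1 1 = s * a + K 0 1 := by
      have := congrFun (congrFun hcomm 0) 1
      simpa [Matrix.mul_apply, Fin.sum_univ_three, uM, hK21, ← hs] using this
    have h00 : M' 0 0 = 1 := mul_right_cancel₀ hs0 (by rw [c00, one_mul])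
    have h10 : M' 1 0 = 0 := by
      rcases mul_eq_zero.mp c10 with h | h
      · exact h
      · exact absurd h hs0
    have h20 : M' 2 0 = 0 := by
      rcases mul_eq_zero.mp c20 with h | h
      · exact h
      · exact absurd h hs0
    obtain ⟨a', b', hrel, hM'eq⟩ := eq_uM φ hinv M' (by rw [hM']; exact M.unitary _)
      (by rw [hM']; exact M.det _) h00 h10 h20
    have h01 : M' 0 1 = a' := by rw [hM'eq]; simp [uM]
    rw [h00, h01] at c01
    have h1 : a' * K 1 1 = s * a := by linear_combination c01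
    have h2 : a' * φ s = s * s * a := by
      linear_combination (-(a' * φ s)) * hdetK + (s * φ s * K 2 2) * h1 + (s * s * a) * e02
    have ha' : a' = σ * a := by
      apply mul_right_cancel₀ hφs
      linear_combination h2 - a * hσ
    exact ⟨b', k * g * k⁻¹, L.mul_mem (L.mul_mem hk hg) (L.inv_mem hk), by rw [← ha', ← hM'eq, hM']⟩
  have hall := hfield A hA0 hAσ
  obtain ⟨ε, hε⟩ := htr 1 (map_one φ)
  -- the centre of the upper unipotent group
  have hZ : ∀ b, b + φ b = 0 → ∃ g ∈ L, M.mat g = uM φ 0 b := by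
    intro b hb
    obtain ⟨b₁, g₁, hg₁, hm₁⟩ := hall 1
    obtain ⟨b₂, g₂, hg₂, hm₂⟩ := hall (ε * b)
    refine ⟨g₁ * g₂ * (g₂ * g₁)⁻¹,
      L.mul_mem (L.mul_mem hg₁ hg₂) (L.inv_mem (L.mul_mem hg₂ hg₁)), ?_⟩
    apply M.cancel_right (g₂ * g₁)
    rw [← map_mul, inv_mul_cancel_right, map_mul, map_mul, hm₁, hm₂, uM_mul, uM_mul, uM_mul]
    have e1 : (1 : F) + ε * b = 0 + (ε * b + 1) := by ring
    have e2 : b₁ + b₂ - 1 * φ (ε * b) = b + (b₂ + b₁ - ε * b * φ 1) - 0 * φ (ε * b + 1) := by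
      rw [map_mul, map_one]
      linear_combination b * hε - φ ε * hb
    rw [e1, e2]
  -- the whole upper unipotent group
  have hU : ∀ a b, b + φ b + a * φ a = 0 → ∃ g ∈ L, M.mat g = uM φ a b := by
    intro a b hab
    obtain ⟨b', g, hg, hm⟩ := hall a
    have hrel := M.rel_of_u hinv hm
    obtain ⟨z, hz, hzm⟩ := hZ (b - b') (by rw [map_sub]; linear_combination hab - hrel)
    refine ⟨z * g, L.mul_mem hz hg, ?_⟩
    rw [map_mul, hzm, hm, uM_mul]
    have e1 : (0 : F) + a = a := by ring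
    have e2 : b - b' + b' - 0 * φ a = b := by ring
    rw [e1, e2]
  -- the centre of the lower unipotent group
  have hrelv := M.rel_of_v hinv hv'
  have hφd₀ : φ d₀ ≠ 0 := (map_ne_zero φ).mpr hd₀
  have hV : ∀ d, d + φ d = 0 → ∃ g ∈ L, M.mat g = vM φ 0 d := by
    intro d hd
    obtain ⟨a₁, ha₁⟩ : ∃ a₁ : F, a₁ = -(φ c₀ / φ d₀) := ⟨_, rfl⟩
    obtain ⟨b₁, hb₁⟩ : ∃ b₁ : F, b₁ = d₀⁻¹ := ⟨_, rfl⟩
    have hφa₁ : φ a₁ = -(c₀ / d₀) := by rw [ha₁, map_neg, map_div₀, hinv, hinv]
    have hφb₁ : φ b₁ = (φ d₀)⁻¹ := by rw [hb₁, map_inv₀]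
    obtain ⟨g₁, hg₁, hm₁⟩ := hU a₁ b₁ (by
      rw [hφa₁, hφb₁, hb₁, ha₁]
      field_simp
      linear_combination hrelv)
    obtain ⟨b, hb⟩ : ∃ b : F, b = d / (d₀ * φ d₀) := ⟨_, rfl⟩
    obtain ⟨z, hz, hzm⟩ := hZ b (by
      rw [hb, map_div₀, map_mul, hinv]
      field_simp
      linear_combination hd)
    have hnL : g₁⁻¹ * v₀ ∈ L := L.mul_mem (L.inv_mem hg₁) hv
    have hN : M.mat (g₁⁻¹ * v₀) *ᵥ ![1, 0, 0] = ![0, 0, d₀] := by
      rw [map_mul, M.mat_inv_u hinv hm₁, hv', ← Matrix.mulVec_mulVec, vM_mulVec, uM_mulVec]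
      apply vec3_ext
      · rw [hφb₁, ha₁]
        field_simp
        linear_combination hrelv
      · rw [map_neg, hφa₁]
        field_simp
        ring
      · ring
    refine ⟨g₁⁻¹ * v₀ * z * (g₁⁻¹ * v₀)⁻¹, L.mul_mem (L.mul_mem hnL hz) (L.inv_mem hnL), ?_⟩
    apply M.cancel_right (g₁⁻¹ * v₀)
    rw [← map_mul, inv_mul_cancel_right, map_mul, hzm, ← trv_e0, trv_conj φ _ (M.unitary _), hN,
      trv_e2]
    have e : b * (d₀ * φ d₀) = d := by
      rw [hb]
      field_simp
    rw [e]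
  -- all transvections
  apply M.gen
  rintro g ⟨w, c, hiso, hgm⟩
  by_cases hw2 : w 2 = 0
  · have hw1 : w 1 = 0 := by
      rw [hw2, map_zero, mul_zero, zero_mul, zero_add, add_zero] at hiso
      rcases mul_eq_zero.mp hiso with h | h
      · exact h
      · exact (map_eq_zero φ).mp h
    have hw : w = ![w 0, 0, 0] := by
      ext i
      fin_cases i <;> simp [hw1, hw2]
    rw [hw, trv_w0] at hgm
    have hrel := M.rel_of_u hinv hgm
    rw [map_zero, mul_zero, add_zero] at hrel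
    obtain ⟨z, hz, hzm⟩ := hZ _ hrel
    exact hmem g z hz (by rw [hgm, hzm])
  · obtain ⟨t, ht⟩ : ∃ t, t = w 2 := ⟨_, rfl⟩
    rw [← ht] at hw2 hiso
    have hφt : φ t ≠ 0 := (map_ne_zero φ).mpr hw2
    obtain ⟨a, ha⟩ : ∃ a : F, a = -(φ (w 1) / φ t) := ⟨_, rfl⟩
    obtain ⟨b, hb⟩ : ∃ b : F, b = w 0 / t := ⟨_, rfl⟩
    have hφa : φ a = -(w 1 / t) := by rw [ha, map_neg, map_div₀, hinv, hinv]
    obtain ⟨g₁, hg₁, hm₁⟩ := hU a b (by
      rw [hφa, hb, ha, map_div₀]
      field_simp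
      linear_combination hiso)
    have hw : uM φ a b *ᵥ ![0, 0, t] = w := by
      rw [uM_mulVec]
      ext i
      fin_cases i
      · simp [hb]
        field_simp
      · simp [hφa]
        field_simp
      · simp [ht]
    have hm₂ : M.mat (g₁⁻¹ * g * g₁) = vM φ 0 (c * (t * φ t)) := by
      apply M.cancel_left g₁
      have e : g₁ * (g₁⁻¹ * g * g₁) = g * g₁ := by group
      rw [← map_mul, e, map_mul, hgm, hm₁, ← trv_e2,
        trv_conj φ _ (uM_unitary φ hinv (M.rel_of_u hinv hm₁)), hw]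
    have hrel₂ := M.rel_of_v hinv hm₂
    rw [map_zero, mul_zero, add_zero] at hrel₂
    obtain ⟨y, hy, hym⟩ := hV _ hrel₂
    have hg₂L : g₁⁻¹ * g * g₁ ∈ L := hmem _ y hy (by rw [hm₂, hym])
    have e : g = g₁ * (g₁⁻¹ * g * g₁) * g₁⁻¹ := by group
    rw [e]
    exact L.mul_mem (L.mul_mem hg₁ hg₂L) (L.inv_mem hg₁)

end JModel

end Cfsg.Agent.Lib.Helper46.SU3J
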