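import Mathlib
import Cfsg.Agent.Lib.Lead.MaxStmt

/-!
# Common tools for the pieces SNU and ANU of S2245

`commSub ι`: the permutations commuting with `ι`; `partSub A`: the permutations preserving the
partition `{A, Aᶜ}`; the double transposition `dbl a b a' b' = (a b)(a' b')`.
-/

set_option autoImplicit false
set_option linter.unusedVariables false
set_option linter.unusedSectionVars false

namespace Cfsg.Agent.Lib.Helper46.MaxAux

open Equiv MulAction Cfsg.Agent.Lib.Lead.MaxStmt Cfsg.Agent.Lib.Lead.SylTwoSym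
open scoped Pointwise

variable {Ω : Type} [DecidableEq Ω]

/-- the permutations commuting with `ι` -/
def commSub (ι : Ω → Ω) : Subgroup (Perm Ω) where
  carrier := {g | ∀ x, g (ι x) = ι (g x)}
  one_mem' := fun x => rfl
  mul_mem' := by
    intro g h hg hh x
    show g (h (ι x)) = ι (g (h x))
    rw [hh, hg]
  inv_mem' := by
    intro g hg x
    show g⁻¹ (ι x) = ι (g⁻¹ x)
    have h := hg (g⁻¹ x)
    have e1 : g (g⁻¹ x) = x := g.apply_symm_apply x
    rw [e1] at h
    rw [← h]
    exact g.symm_apply_apply _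

theorem mem_commSub {ι : Ω → Ω} {g : Perm Ω} : g ∈ commSub ι ↔ ∀ x, g (ι x) = ι (g x) :=
  Iff.rfl

/-- the permutations preserving the partition `{A, Aᶜ}` -/
def partSub (A : Set Ω) : Subgroup (Perm Ω) where
  carrier := {g | g • A = A ∨ g • A = Aᶜ}
  one_mem' := Or.inl (one_smul _ _)
  mul_mem' := by
    rintro g h (hg | hg) (hh | hh)
    · left; rw [mul_smul, hh, hg]
    · right; rw [mul_smul, hh, Set.smul_set_compl, hg]
    · right; rw [mul_smul, hh, hg]
    · left; rw [mul_smul, hh, Set.smul_set_compl, hg, compl_compl]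
  inv_mem' := by
    rintro g (hg | hg)
    · left; rw [inv_smul_eq_iff, hg]
    · right; rw [inv_smul_eq_iff, Set.smul_set_compl, hg, compl_compl]

theorem mem_partSub {A : Set Ω} {g : Perm Ω} : g ∈ partSub A ↔ g • A = A ∨ g • A = Aᶜ :=
  Iff.rfl

theorem mem_smul_iff {A : Set Ω} {g : Perm Ω} {y : Ω} : y ∈ g • A ↔ g⁻¹ y ∈ A := by
  rw [Set.mem_smul_set_iff_inv_smul_mem, Perm.smul_def]

theorem apply_mem_smul {A : Set Ω} {g : Perm Ω} {y : Ω} (hy : y ∈ A) : g y ∈ g • A := by
  rw [mem_smul_iff]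
  have e1 : g⁻¹ (g y) = y := g.symm_apply_apply y
  rw [e1]; exact hy

theorem swap_smul_eq {A : Set Ω} {u v : Ω} (h : u ∈ A ↔ v ∈ A) : swap u v • A = A := by
  ext y
  rw [mem_smul_iff, swap_inv]
  by_cases h1 : y = u
  · subst h1; rw [swap_apply_left]; exact h.symm
  · by_cases h2 : y = v
    · subst h2; rw [swap_apply_right]; exact h
    · rw [swap_apply_of_ne_of_ne h1 h2]

theorem swap_mem_partSub {A : Set Ω} {u v : Ω} (h : u ∈ A ↔ v ∈ A) : swap u v ∈ partSub A :=
  Or.inl (swap_smul_eq h)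

/-- the double transposition `(a b)(a' b')` -/
def dbl (a b a' b' : Ω) : Perm Ω := swap a b * swap a' b'

section dbl

variable {a b a' b' : Ω} (hab : a ≠ b) (haa : a ≠ a') (hab' : a ≠ b') (hba : b ≠ a')
  (hbb : b ≠ b') (hab'' : a' ≠ b')

include haa hab' in
theorem dbl_a : dbl a b a' b' a = b := by
  show swap a b (swap a' b' a) = b
  rw [swap_apply_of_ne_of_ne haa hab', swap_apply_left]

include hba hbb in
theorem dbl_b : dbl a b a' b' b = a := by
  show swap a b (swap a' b' b) = a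
  rw [swap_apply_of_ne_of_ne hba hbb, swap_apply_right]

include hab' hbb in
theorem dbl_a' : dbl a b a' b' a' = b' := by
  show swap a b (swap a' b' a') = b'
  rw [swap_apply_left, swap_apply_of_ne_of_ne hab'.symm hbb.symm]

include haa hba in
theorem dbl_b' : dbl a b a' b' b' = a' := by
  show swap a b (swap a' b' b') = a'
  rw [swap_apply_right, swap_apply_of_ne_of_ne haa.symm hba.symm]

theorem dbl_other {y : Ω} (h1 : y ≠ a) (h2 : y ≠ b) (h3 : y ≠ a') (h4 : y ≠ b') :
    dbl a b a' b' y = y := by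
  show swap a b (swap a' b' y) = y
  rw [swap_apply_of_ne_of_ne h3 h4, swap_apply_of_ne_of_ne h1 h2]

theorem dbl_inv : (dbl a b a' b')⁻¹ = dbl a' b' a b := by
  unfold dbl
  rw [mul_inv_rev, swap_inv, swap_inv]

end dbl

/-- `(a b)(ι a, ι b)` commutes with `ι`. -/
theorem dbl_mem_commSub {ι : Ω → Ω} (hι : ∀ x, ι (ι x) = x) {a b : Ω} (hab : a ≠ b)
    (haa : a ≠ ι a) (hab' : a ≠ ι b) (hba : b ≠ ι a) (hbb : b ≠ ι b) (hab'' : ι a ≠ ι b) :
    dbl a b (ι a) (ι b) ∈ commSub ι := by
  intro y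
  by_cases h1 : y = a
  · subst h1
    rw [dbl_a' hab' hbb, dbl_a haa hab']
  by_cases h2 : y = b
  · subst h2
    rw [dbl_b' haa hba, dbl_b hba hbb]
  by_cases h3 : y = ι a
  · subst h3
    rw [hι, dbl_a haa hab', dbl_a' hab' hbb, hι]
  by_cases h4 : y = ι b
  · subst h4
    rw [hι, dbl_b hba hbb, dbl_b' haa hba, hι]
  rw [dbl_other h1 h2 h3 h4]
  apply dbl_other
  · intro h; apply h3; rw [← h, hι]
  · intro h; apply h4; rw [← h, hι]
  · intro h; apply h1; rw [← hι y, h, hι]
  · intro h; apply h2; rw [← hι y, h, hι]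

end Cfsg.Agent.Lib.Helper46.MaxAux
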