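import Mathlib
import Cfsg.Agent.Lib.Lead.MaxStmt
import Cfsg.Agent.Lib.Helper46.MaxAux

/-!
# S2245, piece [ANU]: in case I the even part of a maximal 2-subgroup is not in a unique
coatom of the alternating group
-/

set_option autoImplicit false
set_option linter.unusedVariables false

namespace Cfsg.Agent.Lib.Helper46.MaxANU

open Equiv MulAction Cfsg.Agent.Lib.Lead.MaxStmt Cfsg.Agent.Lib.Lead.SylTwoSym
  Cfsg.Agent.Lib.Helper46.MaxAux
open scoped Pointwise

theorem not_block {Ω : Type} [DecidableEq Ω] [Fintype Ω] (M : Subgroup ↥(alternatingGroup Ω))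
    (B : Set Ω) (x : Perm Ω) (hxA : x ∈ alternatingGroup Ω)
    (hxM : (⟨x, hxA⟩ : ↥(alternatingGroup Ω)) ∈ M) (s t d : Ω) (hs : s ∈ B) (hxs : x s = t)
    (ht : t ∉ B) (hd : d ∈ B) (hxd : x d = d) : ¬ IsBlock ↥M B := by
  intro hB
  have e : (⟨⟨x, hxA⟩, hxM⟩ : ↥M) • B = x • B := rfl
  rcases isBlock_iff_smul_eq_or_disjoint.1 hB ⟨⟨x, hxA⟩, hxM⟩ with h | h
  · rw [e] at h
    have h1 : t ∈ x • B := by
      rw [← hxs]; exact apply_mem_smul hs
    rw [h] at h1; exact ht h1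
  · rw [e] at h
    have h1 : d ∈ x • B := by
      have h2 := apply_mem_smul (g := x) hd
      rwa [hxd] at h2
    exact Set.disjoint_left.1 h h1 hd

theorem main : Cfsg.Agent.Lib.Lead.MaxStmt.AltNotUnique := by
  intro hAltMax Ω _ _ Q hQ R hR
  obtain ⟨ι, A, a, b, c, hP, hQA, haA, hιaA, hιa, hbA, hιbA, hιb, hca, hcιa, hcb, hcιb⟩ := hQ
  rintro ⟨M, ⟨hMco, hRM⟩, hMuniq⟩
  have hab : a ≠ b := by rintro rfl; exact hbA haA
  have haιb : a ≠ ι b := fun h => hιbA (h ▸ haA)
  have hbιa : b ≠ ι a := fun h => hbA (h ▸ hιaA)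
  have hιaιb : ι a ≠ ι b := fun h => hιbA (h ▸ hιaA)
  have haιa : a ≠ ι a := fun h => hιa h.symm
  have hbιb : b ≠ ι b := fun h => hιb h.symm
  obtain ⟨H1, hH1⟩ : ∃ H1 : Subgroup ↥(alternatingGroup Ω),
      ∀ g : ↥(alternatingGroup Ω), g ∈ H1 ↔ (g : Perm Ω) ∈ commSub ι :=
    ⟨(commSub ι).comap (alternatingGroup Ω).subtype, fun g => Iff.rfl⟩
  obtain ⟨H2, hH2⟩ : ∃ H2 : Subgroup ↥(alternatingGroup Ω),
      ∀ g : ↥(alternatingGroup Ω), g ∈ H2 ↔ (g : Perm Ω) ∈ partSub A :=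
    ⟨(partSub A).comap (alternatingGroup Ω).subtype, fun g => Iff.rfl⟩
  have hR1 : R ≤ H1 := fun r hr => (hH1 r).2 (fun x => hP.comm _ (hR r hr) x)
  have hR2 : R ≤ H2 := fun r hr => (hH2 r).2 (hQA _ (hR r hr))
  have hxA : dbl a b (ι a) (ι b) ∈ alternatingGroup Ω := by
    rw [Perm.mem_alternatingGroup]
    unfold dbl
    rw [Perm.sign_mul, Perm.sign_swap hab, Perm.sign_swap hιaιb]
    rfl
  have hyA : dbl (ι a) c b (ι b) ∈ alternatingGroup Ω := by
    rw [Perm.mem_alternatingGroup]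
    unfold dbl
    rw [Perm.sign_mul, Perm.sign_swap hcιa.symm, Perm.sign_swap hbιb]
    rfl
  have hxc : dbl a b (ι a) (ι b) c = c := dbl_other hca hcb hcιa hcιb
  have h1top : H1 ≠ ⊤ := by
    intro h
    have hm : (⟨_, hyA⟩ : ↥(alternatingGroup Ω)) ∈ H1 := by rw [h]; exact Subgroup.mem_top _
    have h2 : dbl (ι a) c b (ι b) ∈ commSub ι := (hH1 _).1 hm
    have h3 := h2 a
    rw [dbl_a hbιa.symm hιaιb, dbl_other haιa hca.symm hab haιb] at h3
    exact hcιa h3
  have hxnot : dbl a b (ι a) (ι b) ∉ partSub A := by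
    rintro (hm | hm)
    · have h3 : b ∈ dbl a b (ι a) (ι b) • A := by
        have h4 := apply_mem_smul (g := dbl a b (ι a) (ι b)) haA
        rwa [dbl_a haιa haιb] at h4
      rw [hm] at h3; exact hbA h3
    · by_cases hcA : c ∈ A
      · have h3 : c ∈ dbl a b (ι a) (ι b) • A := by
          have h4 := apply_mem_smul (g := dbl a b (ι a) (ι b)) hcA
          rwa [hxc] at h4
        rw [hm] at h3; exact h3 hcA
      · have h3 : c ∈ dbl a b (ι a) (ι b) • A := by rw [hm]; exact hcA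
        rw [mem_smul_iff] at h3
        have e : (dbl a b (ι a) (ι b))⁻¹ c = c := by
          rw [dbl_inv]; exact dbl_other hcιa hcιb hca hcb
        rw [e] at h3; exact hcA h3
  have h2top : H2 ≠ ⊤ := by
    intro h
    have hm : (⟨_, hxA⟩ : ↥(alternatingGroup Ω)) ∈ H2 := by rw [h]; exact Subgroup.mem_top _
    exact hxnot ((hH2 _).1 hm)
  have hM1 : H1 ≤ M := by
    rcases eq_top_or_exists_le_coatom H1 with h | ⟨M1, hM1, hle⟩
    · exact absurd h h1top
    · have h3 := hMuniq M1 ⟨hM1, hR1.trans hle⟩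
      rw [← h3]; exact hle
  have hM2 : H2 ≤ M := by
    rcases eq_top_or_exists_le_coatom H2 with h | ⟨M1, hM1, hle⟩
    · exact absurd h h2top
    · have h3 := hMuniq M1 ⟨hM1, hR2.trans hle⟩
      rw [← h3]; exact hle
  have hxM : (⟨_, hxA⟩ : ↥(alternatingGroup Ω)) ∈ M :=
    hM1 ((hH1 _).2 (dbl_mem_commSub hP.invol hab haιa haιb hbιa hbιb hιaιb))
  have hstab : stabilizer ↥(alternatingGroup Ω) A ≤ M := by
    intro g hg
    apply hM2
    rw [hH2]
    left
    exact mem_stabilizer_iff.1 hg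
  have hxstab : (⟨_, hxA⟩ : ↥(alternatingGroup Ω)) ∉ stabilizer ↥(alternatingGroup Ω) A := by
    intro hg
    apply hxnot
    left
    exact mem_stabilizer_iff.1 hg
  have hlt : stabilizer ↥(alternatingGroup Ω) A < M :=
    lt_of_le_of_ne hstab (fun h => hxstab (by rw [h]; exact hxM))
  have hcard : 4 < Nat.card Ω := by
    rw [Nat.card_eq_fintype_card]
    have h5 : ({a, ι a, b, ι b, c} : Finset Ω).card = 5 := by
      rw [Finset.card_insert_of_notMem, Finset.card_insert_of_notMem,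
        Finset.card_insert_of_notMem, Finset.card_insert_of_notMem, Finset.card_singleton]
      · simp [hcιb.symm]
      · simp [hbιb, hcb.symm]
      · simp [hbιa.symm, hιaιb, hcιa.symm]
      · simp [hab, haιa, haιb, hca.symm]
    have h6 := Finset.card_le_univ ({a, ι a, b, ι b, c} : Finset Ω)
    omega
  have hsum := Set.ncard_add_ncard_compl A
  apply hMco.1
  by_cases hle : A.ncard ≤ Aᶜ.ncard
  · apply hAltMax Ω A M ⟨a, haA, ι a, hιaA, haιa⟩ hle hcard hlt
    have h3 : ({b, ι b} : Set Ω).ncard < Aᶜ.ncard := by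
      have h4 : ({b, ι b} : Set Ω).ncard ≤ 2 :=
        (Set.ncard_insert_le b {ι b}).trans (by rw [Set.ncard_singleton])
      omega
    obtain ⟨d, hd, hd'⟩ := Set.exists_mem_notMem_of_ncard_lt_ncard h3 (Set.toFinite _)
    have hdb : d ≠ b := fun h => hd' (by rw [h]; simp)
    have hdιb : d ≠ ι b := fun h => hd' (by rw [h]; simp)
    have hda : d ≠ a := by rintro rfl; exact hd haA
    have hdιa : d ≠ ι a := by rintro rfl; exact hd hιaA
    exact not_block M Aᶜ _ hxA hxM b a d hbA (dbl_b hbιa hbιb) (fun h => h haA) hd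
      (dbl_other hda hdb hdιa hdιb)
  · have hlt' : stabilizer ↥(alternatingGroup Ω) Aᶜ < M := by rwa [stabilizer_compl]
    have hle' : Aᶜ.ncard ≤ Aᶜᶜ.ncard := by rw [compl_compl]; omega
    apply hAltMax Ω Aᶜ M ⟨b, hbA, ι b, hιbA, hbιb⟩ hle' hcard hlt'
    rw [compl_compl]
    have h3 : ({a, ι a} : Set Ω).ncard < A.ncard := by
      have h4 : ({a, ι a} : Set Ω).ncard ≤ 2 :=
        (Set.ncard_insert_le a {ι a}).trans (by rw [Set.ncard_singleton])
      omega
    obtain ⟨d, hd, hd'⟩ := Set.exists_mem_notMem_of_ncard_lt_ncard h3 (Set.toFinite _)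
    have hda : d ≠ a := fun h => hd' (by rw [h]; simp)
    have hdιa : d ≠ ι a := fun h => hd' (by rw [h]; simp)
    have hdb : d ≠ b := by rintro rfl; exact hbA hd
    have hdιb : d ≠ ι b := by rintro rfl; exact hιbA hd
    exact not_block M A _ hxA hxM a b d haA (dbl_a haιa haιb) hbA hd
      (dbl_other hda hdb hdιa hdιb)

end Cfsg.Agent.Lib.Helper46.MaxANU
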