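import Mathlib
import Cfsg.Agent.Lib.Lead.MaxStmt
import Cfsg.Agent.Lib.Helper46.MaxAux

/-!
# S2245, piece [SNU]: in case I a maximal 2-subgroup of `Perm Ω` is not in a unique coatom
-/

set_option autoImplicit false
set_option linter.unusedVariables false

namespace Cfsg.Agent.Lib.Helper46.MaxSNU

open Equiv MulAction Cfsg.Agent.Lib.Lead.MaxStmt Cfsg.Agent.Lib.Lead.SylTwoSym
  Cfsg.Agent.Lib.Helper46.MaxAux
open scoped Pointwise

theorem main : Cfsg.Agent.Lib.Lead.MaxStmt.SymNotUnique := by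
  intro Ω _ _ Q hQ
  obtain ⟨ι, A, a, b, c, hP, hQA, haA, hιaA, hιa, hbA, hιbA, hιb, hca, hcιa, hcb, hcιb⟩ := hQ
  rintro ⟨M, ⟨hMco, hQM⟩, hMuniq⟩
  have hab : a ≠ b := by rintro rfl; exact hbA haA
  have haιb : a ≠ ι b := fun h => hιbA (h ▸ haA)
  have hbιa : b ≠ ι a := fun h => hbA (h ▸ hιaA)
  have hιaιb : ι a ≠ ι b := fun h => hιbA (h ▸ hιaA)
  have haιa : a ≠ ι a := fun h => hιa h.symm
  have hbιb : b ≠ ι b := fun h => hιb h.symm
  have hQ1 : Q ≤ commSub ι := fun g hg => hP.comm g hg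
  have hQ2 : Q ≤ partSub A := fun g hg => hQA g hg
  have h1top : commSub ι ≠ ⊤ := by
    intro h
    have hm : swap (ι a) c ∈ commSub ι := by rw [h]; exact Subgroup.mem_top _
    have h2 := hm a
    rw [swap_apply_left, swap_apply_of_ne_of_ne haιa hca.symm] at h2
    exact hcιa h2
  have h2top : partSub A ≠ ⊤ := by
    intro h
    have hm : swap a b ∈ partSub A := by rw [h]; exact Subgroup.mem_top _
    rcases hm with hm | hm
    · have h3 : b ∈ swap a b • A := by
        have h4 := apply_mem_smul (g := swap a b) haA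
        rwa [swap_apply_left] at h4
      rw [hm] at h3
      exact hbA h3
    · have h3 : ι a ∈ swap a b • A := by
        have h4 := apply_mem_smul (g := swap a b) hιaA
        rwa [swap_apply_of_ne_of_ne haιa.symm hbιa.symm] at h4
      rw [hm] at h3
      exact h3 hιaA
  have hM1 : commSub ι ≤ M := by
    rcases eq_top_or_exists_le_coatom (commSub ι) with h | ⟨M1, hM1, hle⟩
    · exact absurd h h1top
    · have h3 := hMuniq M1 ⟨hM1, hQ1.trans hle⟩
      rw [← h3]; exact hle
  have hM2 : partSub A ≤ M := by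
    rcases eq_top_or_exists_le_coatom (partSub A) with h | ⟨M1, hM1, hle⟩
    · exact absurd h h2top
    · have h3 := hMuniq M1 ⟨hM1, hQ2.trans hle⟩
      rw [← h3]; exact hle
  have hx : dbl a b (ι a) (ι b) ∈ M :=
    hM1 (dbl_mem_commSub hP.invol hab haιa haιb hbιa hbιb hιaιb)
  have hxc : dbl a b (ι a) (ι b) c = c := dbl_other hca hcb hcιa hcιb
  have hcross : ∃ p q, p ∈ A ∧ q ∉ A ∧ swap p q ∈ M := by
    by_cases hcA : c ∈ A
    · refine ⟨c, b, hcA, hbA, ?_⟩
      have h1 : swap a c ∈ M := hM2 (swap_mem_partSub (by simp [haA, hcA]))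
      have h2 := M.mul_mem (M.mul_mem hx h1) (M.inv_mem hx)
      rw [← swap_apply_apply, dbl_a haιa haιb, hxc] at h2
      rw [swap_comm]; exact h2
    · refine ⟨a, c, haA, hcA, ?_⟩
      have h1 : swap b c ∈ M := hM2 (swap_mem_partSub (by simp [hbA, hcA]))
      have h2 := M.mul_mem (M.mul_mem hx h1) (M.inv_mem hx)
      rw [← swap_apply_apply, dbl_b hbιa hbιb, hxc] at h2
      exact h2
  obtain ⟨p, q, hpA, hqA, hpq⟩ := hcross
  have key : ∀ u v : Ω, u ∈ A → v ∉ A → swap u v ∈ M := by
    intro u v hu hv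
    have hσ : swap p u * swap q v ∈ M :=
      M.mul_mem (hM2 (swap_mem_partSub (by simp [hpA, hu])))
        (hM2 (swap_mem_partSub (by simp [hqA, hv])))
    have h2 := M.mul_mem (M.mul_mem hσ hpq) (M.inv_mem hσ)
    rw [← swap_apply_apply] at h2
    have n1 : p ≠ q := by rintro rfl; exact hqA hpA
    have n2 : p ≠ v := by rintro rfl; exact hv hpA
    have n3 : v ≠ u := by rintro rfl; exact hv hu
    have e1 : (swap p u * swap q v) p = u := by
      show swap p u (swap q v p) = u
      rw [swap_apply_of_ne_of_ne n1 n2, swap_apply_left]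
    have e2 : (swap p u * swap q v) q = v := by
      show swap p u (swap q v q) = v
      rw [swap_apply_left, swap_apply_of_ne_of_ne n2.symm n3]
    rwa [e1, e2] at h2
  have hall : ∀ u v : Ω, u ≠ v → swap u v ∈ M := by
    intro u v huv
    by_cases hu : u ∈ A <;> by_cases hv : v ∈ A
    · exact hM2 (swap_mem_partSub (by simp [hu, hv]))
    · exact key u v hu hv
    · rw [swap_comm]; exact key v u hv hu
    · exact hM2 (swap_mem_partSub (by simp [hu, hv]))
  apply hMco.1
  rw [eq_top_iff, ← Perm.closure_isSwap, Subgroup.closure_le]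
  rintro σ ⟨u, v, huv, rfl⟩
  exact hall u v huv

end Cfsg.Agent.Lib.Helper46.MaxSNU
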