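import Mathlib
import Cfsg.Agent.Lib.Helper5.SLGen

set_option autoImplicit false
set_option linter.unusedSectionVars false
set_option linter.unusedSimpArgs false

/-!
# Transvections `1 + t • v ψ` and a generation criterion for `SL_n(F)`

`tv v ψ t = 1 + t • vecMulVec v ψ`.  For a subgroup `H` of `SL` the predicate `Hm H M` says that
the matrix `M` is (the coercion of) an element of `H`.

`thmC`: if `H` contains an element `j`, the transvection `tv p φ 1` and a suitable element `u₁`,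
where `φ (j^z p) = 0` for `0 ≤ z < L`, `φ (j^L p) = 1`, `φ (j⁻¹ p) = ±1`, then `H` contains all
`tv (j^(i+k) p) (φ j^(-i)) t`, `0 ≤ k < L`.

`gen`: if moreover `p, j p, …, j^L p` is a basis, then `H = ⊤`.
-/

namespace Cfsg.Agent.Lib.Helper46.SLnTv

open Matrix

variable {F : Type*} [Field F] {ι : Type*} [Fintype ι] [DecidableEq ι]

/-- the transvection matrix `1 + t • v ψ` -/
def tv (v ψ : ι → F) (t : F) : Matrix ι ι F := 1 + t • vecMulVec v ψ

theorem tv_zero (v ψ : ι → F) : tv v ψ 0 = 1 := by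
  simp [tv]

theorem vmv_mul (a α b β : ι → F) :
    vecMulVec a α * vecMulVec b β = (α ⬝ᵥ b) • vecMulVec a β := by
  rw [vecMulVec_mul_vecMulVec, vecMulVec_smul]

theorem tv_mul (a α b β : ι → F) (s t : F) :
    tv a α s * tv b β t =
      1 + s • vecMulVec a α + t • vecMulVec b β + (s * t * (α ⬝ᵥ b)) • vecMulVec a β := by
  unfold tv
  rw [add_mul, mul_add, mul_add, smul_mul_smul_comm, vmv_mul, smul_smul]
  simp only [one_mul, mul_one]
  abel

theorem tv_add {v ψ : ι → F} (h : ψ ⬝ᵥ v = 0) (s t : F) :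
    tv v ψ s * tv v ψ t = tv v ψ (s + t) := by
  rw [tv_mul, h, mul_zero, zero_smul, add_zero]
  unfold tv
  rw [add_smul, add_assoc]

theorem tv_mul_neg {v ψ : ι → F} (h : ψ ⬝ᵥ v = 0) (t : F) :
    tv v ψ t * tv v ψ (-t) = 1 := by
  rw [tv_add h, add_neg_cancel, tv_zero]

theorem tv_add_vec {v w ψ : ι → F} (h : ψ ⬝ᵥ w = 0) (t : F) :
    tv (v + w) ψ t = tv v ψ t * tv w ψ t := by
  rw [tv_mul, h, mul_zero, zero_smul, add_zero]
  unfold tv
  rw [add_vecMulVec, smul_add, add_assoc]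

theorem tv_smul_vec (v ψ : ι → F) (c t : F) : tv (c • v) ψ t = tv v ψ (t * c) := by
  unfold tv
  rw [smul_vecMulVec, smul_smul]

theorem tv_add_covec {v ψ₁ ψ₂ : ι → F} (h : ψ₁ ⬝ᵥ v = 0) (t : F) :
    tv v (ψ₁ + ψ₂) t = tv v ψ₁ t * tv v ψ₂ t := by
  rw [tv_mul, h, mul_zero, zero_smul, add_zero]
  unfold tv
  rw [vecMulVec_add, smul_add, add_assoc]

theorem tv_smul_covec (v ψ : ι → F) (c t : F) : tv v (c • ψ) t = tv v ψ (t * c) := by
  unfold tv
  rw [vecMulVec_smul, smul_smul]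

theorem tv_zero_covec (v : ι → F) (t : F) : tv v 0 t = 1 := by
  simp [tv]

theorem tv_conj (G G' : Matrix ι ι F) (h : G * G' = 1) (v ψ : ι → F) (t : F) :
    G * tv v ψ t * G' = tv (G *ᵥ v) (ψ ᵥ* G') t := by
  unfold tv
  rw [mul_add, add_mul, mul_one, h, Matrix.mul_smul, Matrix.smul_mul, mul_vecMulVec,
    vecMulVec_mul]

theorem comm_aux {R : Type*} [Ring R] (X Y : R) (hXX : X * X = 0) (hYY : Y * Y = 0)
    (hXY : X * Y = 0) : (1 + X) * (1 + Y) * (1 - X) * (1 - Y) = 1 - Y * X := by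
  have hXX' : ∀ r, X * (X * r) = 0 := fun r => by rw [← mul_assoc, hXX, zero_mul]
  have hYY' : ∀ r, Y * (Y * r) = 0 := fun r => by rw [← mul_assoc, hYY, zero_mul]
  have hXY' : ∀ r, X * (Y * r) = 0 := fun r => by rw [← mul_assoc, hXY, zero_mul]
  simp only [mul_add, add_mul, mul_sub, sub_mul, mul_one, one_mul, mul_assoc, hXX, hYY, hXY,
    hXX', hYY', hXY', mul_zero, zero_mul, add_zero, sub_zero, zero_add]
  abel

/-- the commutator rule -/
theorem tv_comm {a α b β : ι → F} (h1 : α ⬝ᵥ a = 0) (h2 : β ⬝ᵥ b = 0) (h3 : α ⬝ᵥ b = 0)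
    (s t : F) :
    tv a α s * tv b β t * tv a α (-s) * tv b β (-t) = tv b α (-(s * t * (β ⬝ᵥ a))) := by
  have e1 : tv a α (-s) = 1 - s • vecMulVec a α := by unfold tv; rw [neg_smul, sub_eq_add_neg]
  have e2 : tv b β (-t) = 1 - t • vecMulVec b β := by unfold tv; rw [neg_smul, sub_eq_add_neg]
  rw [e1, e2]
  unfold tv
  rw [comm_aux]
  · rw [smul_mul_smul_comm, vmv_mul, smul_smul, neg_smul, sub_eq_add_neg]
    have e : t * s * (β ⬝ᵥ a) = s * t * (β ⬝ᵥ a) := by ring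
    rw [e]
  · rw [smul_mul_smul_comm, vmv_mul, h1, zero_smul, smul_zero]
  · rw [smul_mul_smul_comm, vmv_mul, h2, zero_smul, smul_zero]
  · rw [smul_mul_smul_comm, vmv_mul, h3, zero_smul, smul_zero]

/-! ### membership of matrices in a subgroup of `SL` -/

/-- the matrix `M` belongs to the subgroup `H` of `SL` -/
def Hm (H : Subgroup (SpecialLinearGroup ι F)) (M : Matrix ι ι F) : Prop :=
  ∃ g ∈ H, (g : Matrix ι ι F) = M

variable {H : Subgroup (SpecialLinearGroup ι F)}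

theorem Hm_coe {g : SpecialLinearGroup ι F} (hg : g ∈ H) : Hm H (g : Matrix ι ι F) :=
  ⟨g, hg, rfl⟩

theorem Hm_one : Hm H (1 : Matrix ι ι F) := ⟨1, H.one_mem, rfl⟩

theorem Hm_mul {A B : Matrix ι ι F} (hA : Hm H A) (hB : Hm H B) : Hm H (A * B) := by
  obtain ⟨g, hg, rfl⟩ := hA
  obtain ⟨g', hg', rfl⟩ := hB
  exact ⟨g * g', H.mul_mem hg hg', by simp⟩

theorem coe_mul_inv (g : SpecialLinearGroup ι F) :
    (g : Matrix ι ι F) * ((g⁻¹ : SpecialLinearGroup ι F) : Matrix ι ι F) = 1 := by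
  rw [← Matrix.SpecialLinearGroup.coe_mul, mul_inv_cancel, Matrix.SpecialLinearGroup.coe_one]

theorem coe_inv_mul (g : SpecialLinearGroup ι F) :
    ((g⁻¹ : SpecialLinearGroup ι F) : Matrix ι ι F) * (g : Matrix ι ι F) = 1 := by
  rw [← Matrix.SpecialLinearGroup.coe_mul, inv_mul_cancel, Matrix.SpecialLinearGroup.coe_one]

theorem Hm_inv {A B : Matrix ι ι F} (hA : Hm H A) (h : A * B = 1) : Hm H B := by
  obtain ⟨g, hg, rfl⟩ := hA
  refine ⟨g⁻¹, H.inv_mem hg, ?_⟩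
  calc ((g⁻¹ : SpecialLinearGroup ι F) : Matrix ι ι F)
      = ((g⁻¹ : SpecialLinearGroup ι F) : Matrix ι ι F) * ((g : Matrix ι ι F) * B) := by
        rw [h, mul_one]
    _ = B := by rw [← mul_assoc, coe_inv_mul, one_mul]

theorem Hm_conj {g : SpecialLinearGroup ι F} (hg : g ∈ H) {A : Matrix ι ι F} (hA : Hm H A) :
    Hm H ((g : Matrix ι ι F) * A * ((g⁻¹ : SpecialLinearGroup ι F) : Matrix ι ι F)) :=
  Hm_mul (Hm_mul (Hm_coe hg) hA) (Hm_coe (H.inv_mem hg))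

theorem Hm_tv_neg {v ψ : ι → F} (h : ψ ⬝ᵥ v = 0) {t : F} (ht : Hm H (tv v ψ t)) :
    Hm H (tv v ψ (-t)) :=
  Hm_inv ht (tv_mul_neg h t)

theorem Hm_tv_add {v ψ : ι → F} (h : ψ ⬝ᵥ v = 0) {s t : F} (hs : Hm H (tv v ψ s))
    (ht : Hm H (tv v ψ t)) : Hm H (tv v ψ (s + t)) := by
  rw [← tv_add h]; exact Hm_mul hs ht

/-- commutator rule for membership -/
theorem Hm_comm {a α b β : ι → F} (h1 : α ⬝ᵥ a = 0) (h2 : β ⬝ᵥ b = 0) (h3 : α ⬝ᵥ b = 0)
    {s t : F} (hs : Hm H (tv a α s)) (ht : Hm H (tv b β t)) :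
    Hm H (tv b α (s * t * (β ⬝ᵥ a))) := by
  have h := tv_comm h1 h2 h3 s t
  have h4 : Hm H (tv b α (-(s * t * (β ⬝ᵥ a)))) := by
    rw [← h]
    exact Hm_mul (Hm_mul (Hm_mul hs ht) (Hm_tv_neg h1 hs)) (Hm_tv_neg h2 ht)
  have h5 := Hm_tv_neg h3 h4
  rwa [neg_neg] at h5


/-! ### The orbit of `p` and `φ` under the powers of `j` -/

section orbit

variable (j : SpecialLinearGroup ι F) (p φ : ι → F)

/-- `j^z p` -/
def Pz (z : ℤ) : ι → F := ((j ^ z : SpecialLinearGroup ι F) : Matrix ι ι F) *ᵥ p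

/-- `φ j^z` -/
def Φz (z : ℤ) : ι → F := φ ᵥ* ((j ^ z : SpecialLinearGroup ι F) : Matrix ι ι F)

/-- `φ (j^z p)` -/
def βz (z : ℤ) : F := φ ⬝ᵥ Pz j p z

theorem Pz_zero : Pz j p 0 = p := by
  unfold Pz; rw [zpow_zero, Matrix.SpecialLinearGroup.coe_one, one_mulVec]

theorem Φz_zero : Φz j φ 0 = φ := by
  unfold Φz; rw [zpow_zero, Matrix.SpecialLinearGroup.coe_one, vecMul_one]

theorem Φz_dot_Pz (a b : ℤ) : Φz j φ a ⬝ᵥ Pz j p b = βz j p φ (a + b) := by
  unfold βz Φz Pz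
  rw [← dotProduct_mulVec, mulVec_mulVec, ← Matrix.SpecialLinearGroup.coe_mul, ← _root_.zpow_add]

theorem conj_tv (i a b : ℤ) (t : F) :
    ((j ^ i : SpecialLinearGroup ι F) : Matrix ι ι F) * tv (Pz j p a) (Φz j φ b) t *
      (((j ^ i)⁻¹ : SpecialLinearGroup ι F) : Matrix ι ι F) =
      tv (Pz j p (i + a)) (Φz j φ (b - i)) t := by
  rw [tv_conj _ _ (coe_mul_inv _)]
  unfold Pz Φz
  rw [mulVec_mulVec, vecMul_vecMul, ← Matrix.SpecialLinearGroup.coe_mul,
    ← Matrix.SpecialLinearGroup.coe_mul, ← _root_.zpow_neg, ← _root_.zpow_add, ← _root_.zpow_add,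
    sub_eq_add_neg]

variable {j p φ}

theorem thmC {L : ℕ} (hL : 2 ≤ L) {ε θ : F} (hε : ε = 1 ∨ ε = -1)
    (hβ0 : ∀ z : ℤ, 0 ≤ z → z < L → βz j p φ z = 0) (hβ1 : βz j p φ L = 1)
    (hβm : βz j p φ (-1) = ε)
    (hj : j ∈ H) (hz : Hm H (tv p φ 1)) {u₁ : SpecialLinearGroup ι F} (hu : u₁ ∈ H)
    (hu2 : φ ᵥ* (u₁ : Matrix ι ι F) = φ)
    (hu3 : (u₁ : Matrix ι ι F) *ᵥ Pz j p 1 = Pz j p 1 + θ • p)
    (hθ : ∀ S : Subring F, θ ∈ S → S = ⊤) :
    ∀ (i k : ℤ), 0 ≤ k → k < L → ∀ t : F, Hm H (tv (Pz j p (i + k)) (Φz j φ (-i)) t) := by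
  have hji : ∀ i : ℤ, j ^ i ∈ H := fun i => H.zpow_mem hj i
  have hconj : ∀ (i a b : ℤ) (t : F), Hm H (tv (Pz j p a) (Φz j φ b) t) →
      Hm H (tv (Pz j p (i + a)) (Φz j φ (b - i)) t) := by
    intro i a b t h
    rw [← conj_tv]
    exact Hm_conj (hji i) h
  have hφ0 : ∀ k : ℤ, 0 ≤ k → k < L → φ ⬝ᵥ Pz j p k = 0 := fun k h1 h2 => hβ0 k h1 h2
  have hφp0 : φ ⬝ᵥ p = 0 := by
    have := hβ0 0 le_rfl (by omega)
    rwa [βz, Pz_zero] at this
  -- rule 1
  have R1 : ∀ k : ℤ, 0 ≤ k → k + 1 < L → ∀ s t : F, Hm H (tv (Pz j p k) φ s) →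
      Hm H (tv p φ t) → Hm H (tv (Pz j p (k + 1)) φ (s * t)) := by
    intro k hk0 hk1 s t hs ht
    have hY : Hm H (tv (Pz j p (k + 1)) (Φz j φ (-(k + 1))) t) := by
      have := hconj (k + 1) 0 0 t (by rw [Pz_zero, Φz_zero]; exact ht)
      rwa [add_zero, zero_sub] at this
    have h1 : φ ⬝ᵥ Pz j p k = 0 := hφ0 k hk0 (by omega)
    have h2 : Φz j φ (-(k + 1)) ⬝ᵥ Pz j p (k + 1) = 0 := by
      rw [Φz_dot_Pz, neg_add_cancel]; exact hβ0 0 le_rfl (by omega)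
    have h3 : φ ⬝ᵥ Pz j p (k + 1) = 0 := hφ0 (k + 1) (by omega) hk1
    have h4 := Hm_comm h1 h2 h3 hs hY
    rw [Φz_dot_Pz] at h4
    have e : -(k + 1) + k = -1 := by ring
    rw [e, hβm] at h4
    rcases hε with rfl | rfl
    · rwa [mul_one] at h4
    · have h5 := Hm_tv_neg h3 h4
      rwa [mul_neg, mul_one, neg_neg] at h5
  -- rule 2
  have R2 : ∀ s t : F, Hm H (tv (Pz j p ((L : ℤ) - 1)) φ s) → Hm H (tv (Pz j p 1) φ t) →
      Hm H (tv p φ (s * t)) := by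
    intro s t hs ht
    have hX : Hm H (tv (Pz j p L) (Φz j φ (-1)) s) := by
      have := hconj 1 ((L : ℤ) - 1) 0 s (by rw [Φz_zero]; exact hs)
      rwa [show (1 : ℤ) + ((L : ℤ) - 1) = L by ring, zero_sub] at this
    have ht' : Hm H (tv (Pz j p 1) (Φz j φ 0) t) := by rw [Φz_zero]; exact ht
    have h1 : Φz j φ (-1) ⬝ᵥ Pz j p L = 0 := by
      rw [Φz_dot_Pz]; exact hβ0 _ (by omega) (by omega)
    have h2 : Φz j φ 0 ⬝ᵥ Pz j p 1 = 0 := by
      rw [Φz_dot_Pz]; exact hβ0 _ (by omega) (by omega)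
    have h3 : Φz j φ (-1) ⬝ᵥ Pz j p 1 = 0 := by
      rw [Φz_dot_Pz]; exact hβ0 _ (by omega) (by omega)
    have h4 := Hm_comm h1 h2 h3 hX ht'
    rw [Φz_dot_Pz, zero_add, hβ1, mul_one] at h4
    have h5 := hconj (-1) 1 (-1) (s * t) h4
    rwa [show (-1 : ℤ) + 1 = 0 by ring, show (-1 : ℤ) - -1 = 0 by ring, Pz_zero, Φz_zero] at h5
  have one_mem : ∀ k : ℕ, (k : ℤ) < L → Hm H (tv (Pz j p k) φ 1) := by
    intro k
    induction k with
    | zero => intro _; rw [Nat.cast_zero, Pz_zero]; exact hz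
    | succ k ih =>
      intro hk
      have h := R1 k (by positivity) (by push_cast at hk; omega) 1 1
        (ih (by push_cast at hk; omega)) hz
      rw [mul_one] at h
      push_cast
      exact h
  have hθ0 : Hm H (tv p φ θ) := by
    have h1 : Hm H (tv (Pz j p 1) φ 1) := by
      have := one_mem 1 (by omega)
      rwa [Nat.cast_one] at this
    have h2 := Hm_conj hu h1
    have hu2' : φ ᵥ* ((u₁⁻¹ : SpecialLinearGroup ι F) : Matrix ι ι F) = φ := by
      conv_lhs => rw [← hu2]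
      rw [vecMul_vecMul, coe_mul_inv, vecMul_one]
    rw [tv_conj _ _ (coe_mul_inv _), hu3, hu2'] at h2
    have hφp : φ ⬝ᵥ (θ • p) = 0 := by
      rw [dotProduct_smul, hφp0, smul_zero]
    rw [tv_add_vec hφp, tv_smul_vec, one_mul] at h2
    have h10 : φ ⬝ᵥ Pz j p 1 = 0 := hφ0 1 (by omega) (by omega)
    have h3 := Hm_mul (Hm_tv_neg h10 h1) h2
    rwa [← mul_assoc, tv_add h10, neg_add_cancel, tv_zero, one_mul] at h3
  have A0_sub : ∀ k : ℕ, (k : ℤ) < L → ∀ t, Hm H (tv p φ t) → Hm H (tv (Pz j p k) φ t) := by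
    intro k hk t ht
    rcases k with _ | k
    · rw [Nat.cast_zero, Pz_zero]; exact ht
    · have h := R1 k (by positivity) (by push_cast at hk; omega) 1 t
        (one_mem k (by push_cast at hk; omega)) ht
      rw [one_mul] at h
      push_cast
      exact h
  let S : Subring F :=
    { carrier := {t | Hm H (tv p φ t)}
      zero_mem' := by
        show Hm H (tv p φ 0)
        rw [tv_zero]; exact Hm_one
      add_mem' := fun ha hb => Hm_tv_add hφp0 ha hb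
      neg_mem' := fun ha => Hm_tv_neg hφp0 ha
      mul_mem' := by
        intro a b ha hb
        have h1 := A0_sub (L - 1) (by omega) a ha
        have h2 := A0_sub 1 (by omega) b hb
        have e : ((L - 1 : ℕ) : ℤ) = (L : ℤ) - 1 := by omega
        rw [e] at h1
        rw [Nat.cast_one] at h2
        exact R2 a b h1 h2
      one_mem' := hz }
  have hS : S = ⊤ := hθ S hθ0
  have hall : ∀ t : F, Hm H (tv p φ t) := by
    intro t
    have : t ∈ S := by rw [hS]; trivial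
    exact this
  intro i k hk0 hk1 t
  obtain ⟨k', rfl⟩ := Int.eq_ofNat_of_zero_le hk0
  have h1 : Hm H (tv (Pz j p k') φ t) := A0_sub k' hk1 t (hall t)
  have h2 := hconj i k' 0 t (by rw [Φz_zero]; exact h1)
  rwa [zero_sub] at h2

end orbit

/-- generation criterion -/
theorem gen {L : ℕ} {H : Subgroup (SpecialLinearGroup (Fin (L + 1)) F)}
    {j : SpecialLinearGroup (Fin (L + 1)) F} {p φ : Fin (L + 1) → F}
    (hL : 2 ≤ L) {ε θ : F} (hε : ε = 1 ∨ ε = -1)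
    (hβ0 : ∀ z : ℤ, 0 ≤ z → z < L → βz j p φ z = 0) (hβ1 : βz j p φ L = 1)
    (hβm : βz j p φ (-1) = ε)
    (hj : j ∈ H) (hz : Hm H (tv p φ 1)) {u₁ : SpecialLinearGroup (Fin (L + 1)) F} (hu : u₁ ∈ H)
    (hu2 : φ ᵥ* (u₁ : Matrix (Fin (L + 1)) (Fin (L + 1)) F) = φ)
    (hu3 : (u₁ : Matrix (Fin (L + 1)) (Fin (L + 1)) F) *ᵥ Pz j p 1 = Pz j p 1 + θ • p)
    (hθ : ∀ S : Subring F, θ ∈ S → S = ⊤)
    (hQ : IsUnit (Matrix.of fun (i a : Fin (L + 1)) => Pz j p ((a : ℕ) : ℤ) i).det) :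
    H = ⊤ := by
  have hC := thmC hL hε hβ0 hβ1 hβm hj hz hu hu2 hu3 hθ
  set Q : Matrix (Fin (L + 1)) (Fin (L + 1)) F :=
    Matrix.of fun i a => Pz j p ((a : ℕ) : ℤ) i with hQdef
  have hQ1 : Q⁻¹ * Q = 1 := Matrix.nonsing_inv_mul Q hQ
  have hQ2 : Q * Q⁻¹ = 1 := Matrix.mul_nonsing_inv Q hQ
  set Qi := Q⁻¹ with hQi
  have hψP : ∀ b a : Fin (L + 1), Qi b ⬝ᵥ Pz j p ((a : ℕ) : ℤ) = if b = a then 1 else 0 := by
    intro b a
    have := congrFun (congrFun hQ1 b) a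
    rw [Matrix.mul_apply, Matrix.one_apply] at this
    rw [← this]; rfl
  have hexp : ∀ χ : Fin (L + 1) → F,
      χ = ∑ c : Fin (L + 1), (χ ⬝ᵥ Pz j p ((c : ℕ) : ℤ)) • Qi c := by
    intro χ
    have h1 : χ = (χ ᵥ* Q) ᵥ* Qi := by rw [vecMul_vecMul, hQ2, vecMul_one]
    conv_lhs => rw [h1]
    ext k
    simp only [vecMul, dotProduct, Finset.sum_apply, Pi.smul_apply, smul_eq_mul]
    rfl
  let Ψ : Fin (L + 1) → Submodule F (Fin (L + 1) → F) := fun a =>
    { carrier := {χ | χ ⬝ᵥ Pz j p ((a : ℕ) : ℤ) = 0 ∧ ∀ t, Hm H (tv (Pz j p ((a : ℕ) : ℤ)) χ t)}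
      zero_mem' := ⟨zero_dotProduct _, fun t => by rw [tv_zero_covec]; exact Hm_one⟩
      add_mem' := by
        rintro χ₁ χ₂ ⟨h1, h1'⟩ ⟨h2, h2'⟩
        refine ⟨by rw [add_dotProduct, h1, h2, add_zero], fun t => ?_⟩
        rw [tv_add_covec h1]; exact Hm_mul (h1' t) (h2' t)
      smul_mem' := by
        rintro c χ ⟨h1, h1'⟩
        refine ⟨by rw [smul_dotProduct, h1, smul_zero], fun t => ?_⟩
        rw [tv_smul_covec]; exact h1' _ }
  have hΨ : ∀ a χ, χ ∈ Ψ a ↔ (χ ⬝ᵥ Pz j p ((a : ℕ) : ℤ) = 0 ∧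
      ∀ t, Hm H (tv (Pz j p ((a : ℕ) : ℤ)) χ t)) := fun a χ => Iff.rfl
  have step1 : ∀ (a : Fin (L + 1)) (i : ℕ), i ≤ (a : ℕ) → (i ≠ 0 ∨ (a : ℕ) ≠ L) →
      Φz j φ (-(i : ℤ)) ∈ Ψ a := by
    intro a i hia hne
    rw [hΨ]
    have ha : (a : ℕ) ≤ L := by have := a.2; omega
    constructor
    · rw [Φz_dot_Pz]; exact hβ0 _ (by omega) (by omega)
    · intro t
      have := hC i (((a : ℕ) : ℤ) - i) (by omega) (by omega) t
      rwa [show (i : ℤ) + (((a : ℕ) : ℤ) - i) = ((a : ℕ) : ℤ) by ring] at this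
  have hε0 : ε ≠ 0 := by rcases hε with rfl | rfl <;> simp
  have step2 : ∀ (n : ℕ) (b a : Fin (L + 1)), (b : ℕ) = n → b < a → Qi b ∈ Ψ a := by
    intro n
    induction n using Nat.strong_induction_on with
    | _ n ih =>
      intro b a hbn hba
      have hba' : (b : ℕ) < (a : ℕ) := hba
      have hΦ := step1 a (n + 1) (by omega) (Or.inl (Nat.succ_ne_zero n))
      have hexpΦ := hexp (Φz j φ (-((n + 1 : ℕ) : ℤ)))
      rw [← Finset.add_sum_erase Finset.univ _ (Finset.mem_univ b)] at hexpΦ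
      have hcoef : Φz j φ (-((n + 1 : ℕ) : ℤ)) ⬝ᵥ Pz j p ((b : ℕ) : ℤ) = ε := by
        rw [Φz_dot_Pz, hbn]
        push_cast
        rw [show -((n : ℤ) + 1) + n = -1 by ring]; exact hβm
      have hrest : ∑ c ∈ Finset.univ.erase b,
          (Φz j φ (-((n + 1 : ℕ) : ℤ)) ⬝ᵥ Pz j p ((c : ℕ) : ℤ)) • Qi c ∈ Ψ a := by
        apply Submodule.sum_mem
        intro c hc
        rcases lt_or_gt_of_ne (Finset.ne_of_mem_erase hc) with hcb | hcb
        · have hcb' : (c : ℕ) < (b : ℕ) := hcb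
          exact Submodule.smul_mem _ _ (ih c (by omega) c a rfl (lt_trans hcb hba))
        · have hcb' : (b : ℕ) < (c : ℕ) := hcb
          have hc2 : (c : ℕ) ≤ L := by have := c.2; omega
          have : Φz j φ (-((n + 1 : ℕ) : ℤ)) ⬝ᵥ Pz j p ((c : ℕ) : ℤ) = 0 := by
            rw [Φz_dot_Pz]; exact hβ0 _ (by push_cast; omega) (by push_cast; omega)
          rw [this, zero_smul]; exact Submodule.zero_mem _
      have hεb : ε • Qi b ∈ Ψ a := by
        have : ε • Qi b = Φz j φ (-((n + 1 : ℕ) : ℤ)) - ∑ c ∈ Finset.univ.erase b,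
            (Φz j φ (-((n + 1 : ℕ) : ℤ)) ⬝ᵥ Pz j p ((c : ℕ) : ℤ)) • Qi c := by
          rw [eq_sub_iff_add_eq, ← hcoef]; exact hexpΦ.symm
        rw [this]; exact Submodule.sub_mem _ hΦ hrest
      have := Submodule.smul_mem (Ψ a) ε⁻¹ hεb
      rwa [smul_smul, inv_mul_cancel₀ hε0, one_smul] at this
  have hlast : ((Fin.last L : Fin (L + 1)) : ℕ) = L := rfl
  have hφψ : φ = Qi (Fin.last L) := by
    have h := hexp φ
    rw [Finset.sum_eq_single (Fin.last L)] at h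
    · have h1 : φ ⬝ᵥ Pz j p (((Fin.last L : Fin (L + 1)) : ℕ) : ℤ) = 1 := by
        rw [hlast]; exact hβ1
      rw [h1, one_smul] at h
      exact h
    · intro c _ hc
      have hc2 : (c : ℕ) < L := by
        have := c.2
        have : (c : ℕ) ≠ L := fun h => hc (Fin.ext h)
        omega
      have : φ ⬝ᵥ Pz j p ((c : ℕ) : ℤ) = 0 := hβ0 _ (by positivity) (by omega)
      rw [this, zero_smul]
    · intro h; exact absurd (Finset.mem_univ _) h
  have step3 : ∀ a : Fin (L + 1), a ≠ Fin.last L → Qi (Fin.last L) ∈ Ψ a := by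
    intro a ha
    have h := step1 a 0 (Nat.zero_le _) (Or.inr (fun h => ha (Fin.ext h)))
    rw [Nat.cast_zero, neg_zero, Φz_zero] at h
    rwa [hφψ] at h
  have step4 : ∀ a b : Fin (L + 1), a ≠ b → ∀ t : F,
      Hm H (tv (Pz j p ((a : ℕ) : ℤ)) (Qi b) t) := by
    intro a b hab t
    rcases lt_or_gt_of_ne hab with h | h
    · by_cases hb : b = Fin.last L
      · rw [hb]
        exact ((hΨ _ _).mp (step3 a (by rw [← hb]; exact hab))).2 t
      · have hbL : b < Fin.last L := lt_of_le_of_ne (Fin.le_last b) hb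
        have haL : a ≠ Fin.last L := fun h' => by
          rw [h'] at h
          exact absurd h (not_lt.mpr (Fin.le_last b))
        have hs := ((hΨ _ _).mp (step2 b b (Fin.last L) rfl hbL)).2 t
        have ht := ((hΨ _ _).mp (step3 a haL)).2 1
        have h1 : Qi b ⬝ᵥ Pz j p (((Fin.last L : Fin (L + 1)) : ℕ) : ℤ) = 0 := by
          rw [hψP, if_neg hb]
        have h2 : Qi (Fin.last L) ⬝ᵥ Pz j p ((a : ℕ) : ℤ) = 0 := by
          rw [hψP, if_neg (Ne.symm haL)]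
        have h3 : Qi b ⬝ᵥ Pz j p ((a : ℕ) : ℤ) = 0 := by
          rw [hψP, if_neg (Ne.symm hab)]
        have h4 := Hm_comm h1 h2 h3 hs ht
        rwa [hψP, if_pos rfl, mul_one, mul_one] at h4
    · exact ((hΨ _ _).mp (step2 b b a rfl h)).2 t
  have key : ∀ g : SpecialLinearGroup (Fin (L + 1)) F,
      Hm H (Q * (g : Matrix (Fin (L + 1)) (Fin (L + 1)) F) * Qi) := by
    intro g
    have : Nontrivial (Fin (L + 1)) := Fin.nontrivial_iff_two_le.mpr (by omega)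
    refine Cfsg.Agent.Lib.Helper5.SLGen.transvection_induction
      (fun g => Hm H (Q * (g : Matrix (Fin (L + 1)) (Fin (L + 1)) F) * Qi)) ?_ ?_ g
    · intro a b hab c
      show Hm H (Q * (Matrix.SpecialLinearGroup.transvection hab c :
        Matrix (Fin (L + 1)) (Fin (L + 1)) F) * Qi)
      rw [Matrix.SpecialLinearGroup.transvection_coe]
      have e : (1 : Matrix (Fin (L + 1)) (Fin (L + 1)) F) + single a b c =
          tv (Pi.single a 1) (Pi.single b 1) c := by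
        unfold tv
        rw [← single_eq_single_vecMulVec_single, smul_single, smul_eq_mul, mul_one]
      rw [e, tv_conj _ _ hQ2, mulVec_single_one, single_one_vecMul]
      exact step4 a b hab c
    · intro A B hA hB
      have e : Q * ((A * B : SpecialLinearGroup (Fin (L + 1)) F) :
          Matrix (Fin (L + 1)) (Fin (L + 1)) F) * Qi =
          (Q * (A : Matrix (Fin (L + 1)) (Fin (L + 1)) F) * Qi) *
          (Q * (B : Matrix (Fin (L + 1)) (Fin (L + 1)) F) * Qi) := by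
        rw [Matrix.SpecialLinearGroup.coe_mul]
        calc Q * ((A : Matrix (Fin (L + 1)) (Fin (L + 1)) F) * B) * Qi
            = Q * (A : Matrix (Fin (L + 1)) (Fin (L + 1)) F) * (Qi * Q) * B * Qi := by
              rw [hQ1, mul_one]; simp only [Matrix.mul_assoc]
          _ = _ := by simp only [Matrix.mul_assoc]
      show Hm H (Q * ((A * B : SpecialLinearGroup (Fin (L + 1)) F) :
          Matrix (Fin (L + 1)) (Fin (L + 1)) F) * Qi)
      rw [e]; exact Hm_mul hA hB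
  rw [eq_top_iff]
  intro x _
  have hdet : (Qi * (x : Matrix (Fin (L + 1)) (Fin (L + 1)) F) * Q).det = 1 := by
    rw [det_mul, det_mul, x.det_coe, mul_one, ← det_mul, hQ1, det_one]
  obtain ⟨g, hg, hgx⟩ := key ⟨Qi * (x : Matrix (Fin (L + 1)) (Fin (L + 1)) F) * Q, hdet⟩
  have hgx' : g = x := by
    apply Subtype.ext
    rw [hgx]
    show Q * (Qi * (x : Matrix (Fin (L + 1)) (Fin (L + 1)) F) * Q) * Qi = x
    calc Q * (Qi * (x : Matrix (Fin (L + 1)) (Fin (L + 1)) F) * Q) * Qi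
        = (Q * Qi) * (x : Matrix (Fin (L + 1)) (Fin (L + 1)) F) * (Q * Qi) := by
          simp only [Matrix.mul_assoc]
      _ = x := by rw [hQ2, one_mul, mul_one]
  rw [← hgx']; exact hg

end Cfsg.Agent.Lib.Helper46.SLnTv
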