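import Mathlib
import Cfsg.Agent.Lib.Helper46.SLnTv

set_option autoImplicit false
set_option linter.unusedSectionVars false
set_option linter.unusedSimpArgs false

/-!
# The lower Jordan block `1 + Nl` in `SL_{L+1}(F)`

`jl F L` is the regular unipotent element `1 + Nl`, with `Nl e_k = e_{k+1}`.  We verify the
hypotheses of `SLnTv.gen` for `j = jl`, `p = e 0`, `φ = e L`, and obtain the criterion `gen_jl`.
-/

namespace Cfsg.Agent.Lib.Helper46.SLnJ

open Matrix
open Cfsg.Agent.Lib.Helper46.SLnTv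

variable (F : Type*) [Field F] (L : ℕ)

/-- the nilpotent lower shift -/
def Nl : Matrix (Fin (L + 1)) (Fin (L + 1)) F :=
  Matrix.of fun i j => if (i : ℕ) = (j : ℕ) + 1 then 1 else 0

/-- the basis vector `e k` (zero if `k > L`) -/
def e (k : ℕ) : Fin (L + 1) → F := fun i => if (i : ℕ) = k then 1 else 0

theorem det_Jl : (1 + Nl F L).det = 1 := by
  rw [det_of_isLowerTriangular]
  · apply Finset.prod_eq_one
    intro i _
    simp [Nl]
  · intro i j hij
    have h : i < j := hij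
    have h' : (i : ℕ) < (j : ℕ) := h
    simp only [Matrix.add_apply, Matrix.one_apply, Nl, of_apply]
    rw [if_neg (ne_of_lt h), if_neg (by omega), add_zero]

/-- the lower Jordan block as an element of `SL` -/
def jl : SpecialLinearGroup (Fin (L + 1)) F := ⟨1 + Nl F L, det_Jl F L⟩

variable {F L}

theorem jl_coe : ((jl F L : SpecialLinearGroup (Fin (L + 1)) F) :
    Matrix (Fin (L + 1)) (Fin (L + 1)) F) = 1 + Nl F L := rfl

theorem Nl_mulVec_zero (v : Fin (L + 1) → F) (i : Fin (L + 1)) (hi : (i : ℕ) = 0) :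
    (Nl F L *ᵥ v) i = 0 := by
  simp only [mulVec, dotProduct, Nl, of_apply]
  apply Finset.sum_eq_zero
  intro k _
  rw [if_neg (by omega), zero_mul]

theorem Nl_mulVec_succ (v : Fin (L + 1) → F) (i k : Fin (L + 1)) (hik : (i : ℕ) = (k : ℕ) + 1) :
    (Nl F L *ᵥ v) i = v k := by
  simp only [mulVec, dotProduct, Nl, of_apply]
  rw [Finset.sum_eq_single k]
  · rw [if_pos hik, one_mul]
  · intro b _ hb
    rw [if_neg, zero_mul]
    intro h; apply hb; apply Fin.ext; omega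
  · intro h; exact absurd (Finset.mem_univ _) h

theorem vecMul_Nl_last (v : Fin (L + 1) → F) (k : Fin (L + 1)) (hk : (k : ℕ) = L) :
    (v ᵥ* Nl F L) k = 0 := by
  simp only [vecMul, dotProduct, Nl, of_apply]
  apply Finset.sum_eq_zero
  intro i _
  rw [if_neg (by have := i.2; omega), mul_zero]

theorem vecMul_Nl_succ (v : Fin (L + 1) → F) (i k : Fin (L + 1)) (hik : (i : ℕ) = (k : ℕ) + 1) :
    (v ᵥ* Nl F L) k = v i := by
  simp only [vecMul, dotProduct, Nl, of_apply]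
  rw [Finset.sum_eq_single i]
  · rw [if_pos hik, mul_one]
  · intro b _ hb
    rw [if_neg, mul_zero]
    intro h; apply hb; apply Fin.ext; omega
  · intro h; exact absurd (Finset.mem_univ _) h

theorem e_eq_zero {k : ℕ} (hk : L < k) : e F L k = 0 := by
  ext i
  simp only [e, Pi.zero_apply]
  rw [if_neg]; have := i.2; omega

theorem e_eq_single (j : Fin (L + 1)) : e F L (j : ℕ) = Pi.single j 1 := by
  ext i
  simp only [e, Pi.single_apply, Fin.ext_iff]

theorem Nl_mulVec_e (k : ℕ) : Nl F L *ᵥ e F L k = e F L (k + 1) := by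
  ext i
  rcases Nat.eq_zero_or_pos (i : ℕ) with hi | hi
  · rw [Nl_mulVec_zero _ _ hi]
    simp only [e]
    rw [if_neg (by omega)]
  · have hk : (i : ℕ) - 1 < L + 1 := by have := i.2; omega
    rw [Nl_mulVec_succ _ i ⟨(i : ℕ) - 1, hk⟩ (by simp only []; omega)]
    simp only [e]
    by_cases h : (i : ℕ) = k + 1
    · rw [if_pos h, if_pos (by omega)]
    · rw [if_neg h, if_neg (by omega)]

theorem e_vecMul_Nl_zero : e F L 0 ᵥ* Nl F L = 0 := by
  ext c
  by_cases hc : (c : ℕ) = L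
  · rw [vecMul_Nl_last _ _ hc]; rfl
  · have hk : (c : ℕ) + 1 < L + 1 := by have := c.2; omega
    rw [vecMul_Nl_succ _ ⟨(c : ℕ) + 1, hk⟩ c rfl]
    simp only [e, Pi.zero_apply]
    rw [if_neg (by omega)]

theorem e_vecMul_Nl_succ (k : ℕ) (hk : k < L) : e F L (k + 1) ᵥ* Nl F L = e F L k := by
  ext c
  by_cases hc : (c : ℕ) = L
  · rw [vecMul_Nl_last _ _ hc]
    simp only [e]; rw [if_neg (by omega)]
  · have hc' : (c : ℕ) + 1 < L + 1 := by have := c.2; omega
    rw [vecMul_Nl_succ _ ⟨(c : ℕ) + 1, hc'⟩ c rfl]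
    simp only [e]
    by_cases h : (c : ℕ) = k
    · rw [if_pos (by omega), if_pos h]
    · rw [if_neg (by omega), if_neg h]

theorem Jl_mulVec_e (k : ℕ) : (1 + Nl F L) *ᵥ e F L k = e F L k + e F L (k + 1) := by
  rw [add_mulVec, one_mulVec, Nl_mulVec_e]

theorem e_vecMul_Jl_zero : e F L 0 ᵥ* (1 + Nl F L) = e F L 0 := by
  rw [vecMul_add, vecMul_one, e_vecMul_Nl_zero, add_zero]

theorem e_vecMul_Jl_succ (k : ℕ) (hk : k < L) :
    e F L (k + 1) ᵥ* (1 + Nl F L) = e F L (k + 1) + e F L k := by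
  rw [vecMul_add, vecMul_one, e_vecMul_Nl_succ k hk]

theorem Nl_pow_mulVec_e (a k : ℕ) : (Nl F L ^ a) *ᵥ e F L k = e F L (k + a) := by
  induction a generalizing k with
  | zero => rw [pow_zero, one_mulVec, add_zero]
  | succ a ih =>
    rw [pow_succ, ← mulVec_mulVec, Nl_mulVec_e, ih]
    congr 1
    omega

theorem Nl_pow_eq_zero : Nl F L ^ (L + 1) = 0 := by
  ext i k
  have h := congrFun (Nl_pow_mulVec_e (F := F) (L := L) (L + 1) (k : ℕ)) i
  rw [e_eq_zero (k := (k : ℕ) + (L + 1)) (by omega), e_eq_single, mulVec_single_one] at h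
  exact h

theorem Nl_pow_ne_zero : Nl F L ^ L ≠ 0 := by
  intro h
  have h1 := congrFun (Nl_pow_mulVec_e (F := F) (L := L) L 0) (Fin.last L)
  rw [h, zero_mulVec] at h1
  simp [e] at h1

theorem Jl_pow_mulVec_e0 (a : ℕ) (i : Fin (L + 1)) :
    (a < (i : ℕ) → (((1 + Nl F L) ^ a) *ᵥ e F L 0) i = 0) ∧
    ((i : ℕ) = a → (((1 + Nl F L) ^ a) *ᵥ e F L 0) i = 1) := by
  induction a generalizing i with
  | zero =>
    rw [pow_zero, one_mulVec]
    constructor
    · intro h; simp only [e]; rw [if_neg (by omega)]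
    · intro h; simp only [e]; rw [if_pos h]
  | succ a ih =>
    rw [pow_succ', ← mulVec_mulVec, add_mulVec, one_mulVec, Pi.add_apply]
    constructor
    · intro h
      have hk : (i : ℕ) - 1 < L + 1 := by have := i.2; omega
      rw [(ih i).1 (by omega), Nl_mulVec_succ _ i ⟨(i : ℕ) - 1, hk⟩ (by simp only []; omega),
        (ih _).1 (by simp only []; omega), add_zero]
    · intro h
      have hk : (i : ℕ) - 1 < L + 1 := by have := i.2; omega
      rw [(ih i).1 (by omega), Nl_mulVec_succ _ i ⟨(i : ℕ) - 1, hk⟩ (by simp only []; omega),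
        (ih _).2 (by simp only []; omega), zero_add]

/-- the vector `((-1)^i)_i`, equal to `jl⁻¹ e_0` -/
def yv (F : Type*) [Field F] (L : ℕ) : Fin (L + 1) → F := fun i => (-1) ^ (i : ℕ)

theorem Jl_mulVec_yv : (1 + Nl F L) *ᵥ yv F L = e F L 0 := by
  ext i
  rw [add_mulVec, one_mulVec, Pi.add_apply]
  rcases Nat.eq_zero_or_pos (i : ℕ) with hi | hi
  · rw [Nl_mulVec_zero _ _ hi]
    simp only [yv, e]
    rw [hi, if_pos rfl, pow_zero, add_zero]
  · have hk : (i : ℕ) - 1 < L + 1 := by have := i.2; omega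
    rw [Nl_mulVec_succ _ i ⟨(i : ℕ) - 1, hk⟩ (by simp only []; omega)]
    simp only [yv, e]
    rw [if_neg (by omega)]
    obtain ⟨m, hm⟩ : ∃ m, (i : ℕ) = m + 1 := ⟨(i : ℕ) - 1, by omega⟩
    rw [hm, Nat.add_sub_cancel, pow_succ]
    ring

theorem Pz_nat (a : ℕ) :
    Pz (jl F L) (e F L 0) (a : ℤ) = ((1 + Nl F L) ^ a) *ᵥ e F L 0 := by
  unfold Pz
  rw [zpow_natCast, Matrix.SpecialLinearGroup.coe_pow, jl_coe]

theorem dot_eL (v : Fin (L + 1) → F) : e F L L ⬝ᵥ v = v (Fin.last L) := by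
  have h : e F L L = Pi.single (Fin.last L) 1 := e_eq_single (Fin.last L)
  rw [h, single_dotProduct, one_mul]

theorem βz_nat (a : ℕ) : βz (jl F L) (e F L 0) (e F L L) (a : ℤ) =
    (((1 + Nl F L) ^ a) *ᵥ e F L 0) (Fin.last L) := by
  unfold βz
  rw [Pz_nat, dot_eL]

theorem βz_zero (z : ℤ) (h0 : 0 ≤ z) (h1 : z < L) :
    βz (jl F L) (e F L 0) (e F L L) z = 0 := by
  obtain ⟨a, rfl⟩ := Int.eq_ofNat_of_zero_le h0
  rw [βz_nat]
  exact (Jl_pow_mulVec_e0 a (Fin.last L)).1 (by simp only [Fin.val_last]; omega)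

theorem βz_L : βz (jl F L) (e F L 0) (e F L L) (L : ℤ) = 1 := by
  rw [βz_nat]
  exact (Jl_pow_mulVec_e0 L (Fin.last L)).2 rfl

theorem βz_neg_one : βz (jl F L) (e F L 0) (e F L L) (-1) = (-1) ^ L := by
  unfold βz Pz
  rw [_root_.zpow_neg_one]
  have h : (((jl F L)⁻¹ : SpecialLinearGroup (Fin (L + 1)) F) :
      Matrix (Fin (L + 1)) (Fin (L + 1)) F) *ᵥ e F L 0 = yv F L := by
    rw [← Jl_mulVec_yv, ← jl_coe, mulVec_mulVec, coe_inv_mul, one_mulVec]
  rw [h, dot_eL]
  rfl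

theorem Q_det : IsUnit (Matrix.of fun (i a : Fin (L + 1)) =>
    Pz (jl F L) (e F L 0) ((a : ℕ) : ℤ) i).det := by
  rw [det_of_isUpperTriangular]
  · rw [Finset.prod_eq_one]
    · exact isUnit_one
    · intro i _
      simp only [of_apply]
      rw [Pz_nat]
      exact (Jl_pow_mulVec_e0 _ i).2 rfl
  · intro i a hia
    have h : (a : ℕ) < (i : ℕ) := hia
    simp only [of_apply]
    rw [Pz_nat]
    exact (Jl_pow_mulVec_e0 _ i).1 h

theorem Pz_one : Pz (jl F L) (e F L 0) 1 = e F L 0 + e F L 1 := by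
  have h := Pz_nat (F := F) (L := L) 1
  rw [Nat.cast_one] at h
  rw [h, pow_one, Jl_mulVec_e]

theorem jl_nilpotent : IsNilpotent (((jl F L : SpecialLinearGroup (Fin (L + 1)) F) :
    Matrix (Fin (L + 1)) (Fin (L + 1)) F) - 1) :=
  ⟨L + 1, by rw [jl_coe, add_sub_cancel_left]; exact Nl_pow_eq_zero⟩

theorem jl_pow_ne : (((jl F L : SpecialLinearGroup (Fin (L + 1)) F) :
    Matrix (Fin (L + 1)) (Fin (L + 1)) F) - 1) ^ L ≠ 0 := by
  rw [jl_coe, add_sub_cancel_left]; exact Nl_pow_ne_zero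

theorem transvection_coe_tv {a b : Fin (L + 1)} (hab : a ≠ b) (c : F) :
    ((Matrix.SpecialLinearGroup.transvection hab c : SpecialLinearGroup (Fin (L + 1)) F) :
      Matrix (Fin (L + 1)) (Fin (L + 1)) F) = tv (e F L (a : ℕ)) (e F L (b : ℕ)) c := by
  rw [Matrix.SpecialLinearGroup.transvection_coe, e_eq_single, e_eq_single]
  unfold tv
  rw [← single_eq_single_vecMulVec_single, smul_single, smul_eq_mul, mul_one]

/-- Generation criterion: a subgroup of `SL_{L+1}(F)`, `L ≥ 2`, containing the lower Jordan block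
`jl`, the transvection `1 + E_{0,L}` and an element `u₁` fixing `e_0` and the last coordinate
with `u₁ e_1 = e_1 + θ e_0`, where `θ` generates `F` as a ring, is the whole group. -/
theorem gen_jl (hL : 2 ≤ L) {H : Subgroup (SpecialLinearGroup (Fin (L + 1)) F)}
    (hj : jl F L ∈ H) (hz : Hm H (tv (e F L 0) (e F L L) 1))
    {u₁ : SpecialLinearGroup (Fin (L + 1)) F} (hu : u₁ ∈ H)
    (hu1 : (u₁ : Matrix (Fin (L + 1)) (Fin (L + 1)) F) *ᵥ e F L 0 = e F L 0)
    (hu2 : e F L L ᵥ* (u₁ : Matrix (Fin (L + 1)) (Fin (L + 1)) F) = e F L L) {θ : F}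
    (hu3 : (u₁ : Matrix (Fin (L + 1)) (Fin (L + 1)) F) *ᵥ e F L 1 = e F L 1 + θ • e F L 0)
    (hθ : ∀ S : Subring F, θ ∈ S → S = ⊤) : H = ⊤ := by
  refine gen hL (neg_one_pow_eq_or F L) βz_zero βz_L βz_neg_one hj hz hu hu2 ?_ hθ Q_det
  rw [Pz_one, mulVec_add, hu1, hu3]
  abel

end Cfsg.Agent.Lib.Helper46.SLnJ
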