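import Mathlib

set_option autoImplicit false
set_option linter.unusedSectionVars false
set_option linter.unusedVariables false

/-!
# Field lemmas for the generation of `SU₃(q)`

`subfield_dichotomy`: a proper subfield of a field with `q²` elements is fixed by `x ↦ x ^ r`
with `r ^ k = q²`, `k ≥ 2`.  `field_span`: an additive subgroup stable under multiplication by
`σ` and containing a nonzero element is everything once `σ` lies in no proper subfield.
`generic_bad`, `exists_d`: the generic choice of parameters.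
-/

namespace Cfsg.Agent.Lib.Helper46.SU3Field

variable {F : Type*} [Field F] [Fintype F]

theorem subfield_dichotomy {q : ℕ} (hF : Fintype.card F = q ^ 2) (E : Subfield F) (hE : E ≠ ⊤) :
    ∃ r k, 2 ≤ k ∧ r ^ k = q ^ 2 ∧ ∀ x ∈ E, x ^ r = x := by
  classical
  haveI : Fintype E := Fintype.ofFinite E
  have hc : Fintype.card F = Fintype.card E ^ Module.finrank E F :=
    Module.card_eq_pow_finrank (K := E) (V := F)
  refine ⟨Fintype.card E, Module.finrank E F, ?_, ?_, ?_⟩
  · have hpos : 0 < Module.finrank E F := Module.finrank_pos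
    by_contra h
    have h1 : Module.finrank E F = 1 := by omega
    apply hE
    rw [h1, pow_one] at hc
    have hbij : Function.Bijective (E.subtype : E → F) :=
      (Fintype.bijective_iff_injective_and_card _).mpr ⟨Subtype.val_injective, hc.symm⟩
    rw [eq_top_iff]
    intro x _
    obtain ⟨y, hy⟩ := hbij.2 x
    rw [← hy]
    exact y.2
  · rw [← hF, hc]
  · intro x hx
    have := FiniteField.pow_card (⟨x, hx⟩ : E)
    exact congrArg Subtype.val this

theorem field_span {q : ℕ} (hF : Fintype.card F = q ^ 2) (A : AddSubgroup F) {a₀ σ : F}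
    (ha₀ : a₀ ∈ A) (ha₀' : a₀ ≠ 0) (hσ : ∀ a ∈ A, σ * a ∈ A)
    (hbad : ∀ r k, 2 ≤ k → r ^ k = q ^ 2 → σ ^ r ≠ σ) : ∀ y, y ∈ A := by
  have hpow : ∀ (x : F), (∀ a ∈ A, x * a ∈ A) → ∀ n : ℕ, ∀ a ∈ A, x ^ n * a ∈ A := by
    intro x hx n
    induction n with
    | zero => intro a ha; rwa [pow_zero, one_mul]
    | succ n ih => intro a ha; rw [pow_succ, mul_assoc]; exact ih _ (hx a ha)
  let E : Subfield F :=
    { carrier := {x | ∀ a ∈ A, x * a ∈ A}
      mul_mem' := fun {x y} hx hy a ha => by rw [mul_assoc]; exact hx _ (hy a ha)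
      one_mem' := fun a ha => by rwa [one_mul]
      add_mem' := fun {x y} hx hy a ha => by rw [add_mul]; exact A.add_mem (hx a ha) (hy a ha)
      zero_mem' := fun a ha => by rw [zero_mul]; exact A.zero_mem
      neg_mem' := fun {x} hx a ha => by rw [neg_mul]; exact A.neg_mem (hx a ha)
      inv_mem' := fun x hx => by
        by_cases hx0 : x = 0
        · rw [hx0, inv_zero]
          intro a ha
          rw [zero_mul]
          exact A.zero_mem
        · have h1 : x ^ (Fintype.card F - 1) = 1 := FiniteField.pow_card_sub_one_eq_one x hx0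
          have h2 : 2 ≤ Fintype.card F := Fintype.one_lt_card
          have h3 : x⁻¹ = x ^ (Fintype.card F - 2) := by
            apply inv_eq_of_mul_eq_one_right
            rw [← pow_succ', show Fintype.card F - 2 + 1 = Fintype.card F - 1 by omega, h1]
          rw [h3]
          exact hpow x hx _ }
  have hσE : σ ∈ E := hσ
  by_cases hE : E = ⊤
  · intro y
    have h1 : y / a₀ ∈ E := by rw [hE]; trivial
    have h2 := h1 a₀ ha₀
    rwa [div_mul_cancel₀ _ ha₀'] at h2
  · obtain ⟨r, k, hk, hrk, hx⟩ := subfield_dichotomy hF E hE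
    exact absurd (hx σ hσE) (hbad r k hk hrk)

omit [Fintype F] in
theorem generic_bad {q : ℕ} (hq3 : 3 ≤ q) (hq5 : q ≠ 5) (hq8 : q ≠ 8) {τ : F} (hτ0 : τ ≠ 0)
    (hτ : ∀ n, τ ^ n = 1 → (q + 1) ∣ n) :
    ∀ r k, 2 ≤ k → r ^ k = q ^ 2 → (τ ^ 3) ^ r ≠ τ ^ 3 := by
  intro r k hk hrk h
  have hq2 : 9 ≤ q ^ 2 := by nlinarith
  have hr2 : 2 ≤ r := by
    by_contra hr
    have : r = 0 ∨ r = 1 := by omega
    rcases this with rfl | rfl
    · rw [zero_pow (by omega)] at hrk; omega
    · rw [one_pow] at hrk; omega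
  have hdiv : (q + 1) ∣ 3 * (r - 1) := by
    apply hτ
    have e : τ ^ (3 * (r - 1)) * τ ^ 3 = 1 * τ ^ 3 := by
      rw [← pow_add, one_mul, ← h, ← pow_mul]
      congr 1
      have : 3 * (r - 1) + 3 = 3 * r := by omega
      exact this
    exact mul_right_cancel₀ (pow_ne_zero 3 hτ0) e
  rcases Nat.even_or_odd k with ⟨j, hj⟩ | ⟨j, hj⟩
  · -- k even: r ^ j = q
    have hrj : r ^ j = q := by
      have : (r ^ j) ^ 2 = q ^ 2 := by rw [← pow_mul, ← hrk, hj]; congr 1; omega
      exact Nat.pow_left_injective (by norm_num : 2 ≠ 0) this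
    have h1 : r - 1 ∣ q - 1 := by
      have := Nat.sub_dvd_pow_sub_pow r 1 j
      rwa [one_pow, hrj] at this
    have h2 : (q + 1) ∣ 3 * (q - 1) := dvd_trans hdiv (mul_dvd_mul_left 3 h1)
    have h3 : (q + 1) ∣ 3 * (q + 1) - 3 * (q - 1) := Nat.dvd_sub (dvd_mul_left _ _) h2
    have h4 : 3 * (q + 1) - 3 * (q - 1) = 6 := by omega
    rw [h4] at h3
    have h5 : q + 1 ≤ 6 := Nat.le_of_dvd (by norm_num) h3
    have h6 : q = 3 ∨ q = 4 := by omega
    rcases h6 with rfl | rfl
    · norm_num at h3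
    · norm_num at h3
  · -- k odd: r = m ^ 2, q = m ^ k
    have hj1 : 1 ≤ j := by omega
    have hrpos : 0 < r := by omega
    have h1 : r ^ j ∣ q := by
      have : (r ^ j) ^ 2 ∣ q ^ 2 := by
        rw [← hrk, ← pow_mul, hj]
        exact pow_dvd_pow r (by omega)
      exact (Nat.pow_dvd_pow_iff (by norm_num : 2 ≠ 0)).mp this
    obtain ⟨m, hm⟩ := h1
    have hr : r = m ^ 2 := by
      have e : r ^ (2 * j) * r = r ^ (2 * j) * m ^ 2 := by
        calc r ^ (2 * j) * r = r ^ k := by rw [hj, pow_succ]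
          _ = q ^ 2 := hrk
          _ = (r ^ j * m) ^ 2 := by rw [hm]
          _ = r ^ (2 * j) * m ^ 2 := by rw [mul_pow, ← pow_mul, mul_comm j 2]
      exact Nat.eq_of_mul_eq_mul_left (pow_pos hrpos _) e
    have hm2 : 2 ≤ m := by
      by_contra hcon
      have : m = 0 ∨ m = 1 := by omega
      rcases this with rfl | rfl <;> omega
    have hqm : m ^ 3 ≤ q := by
      rw [hm, hr, ← pow_mul]
      calc m ^ 3 = m ^ 2 * m := by ring
        _ ≤ m ^ (2 * j) * m := by
          apply Nat.mul_le_mul_right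
          exact pow_le_pow_right₀ (by omega) (by omega)
    have hle : q + 1 ≤ 3 * (r - 1) := Nat.le_of_dvd (by omega) hdiv
    rw [hr] at hle
    have hm4 : 4 ≤ m ^ 2 := by nlinarith
    have hle' : m ^ 3 + 4 ≤ 3 * m ^ 2 := by omega
    have hm3 : m < 3 := by
      by_contra hcon
      have : 3 ≤ m := by omega
      nlinarith [pow_pos (by omega : 0 < m) 2]
    have hm_eq : m = 2 := by omega
    subst hm_eq
    -- q + 1 ≤ 9, q = 4 ^ j * 2 ≥ 8
    have hq_le : q ≤ 8 := by omega
    have hq_ge : 8 ≤ q := by simpa using hqm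
    exact hq8 (by omega)

theorem exists_d {q : ℕ} (hq3 : 3 ≤ q) (hF : Fintype.card F = q ^ 2) :
    ∃ d : F, d ≠ 0 ∧ d + d ^ q ≠ 0 ∧ ∀ n, (d / d ^ q) ^ n = 1 → (q + 1) ∣ n := by
  classical
  obtain ⟨g, hg⟩ := IsCyclic.exists_ofOrder_eq_natCard (α := Fˣ)
  have hcard : Nat.card Fˣ = q ^ 2 - 1 := by
    rw [Nat.card_units, Nat.card_eq_fintype_card, hF]
  have hord : orderOf (g : F) = q ^ 2 - 1 := by rw [orderOf_units, hg, hcard]
  have hd0 : (g : F) ≠ 0 := g.ne_zero
  have hfac : q ^ 2 - 1 = (q - 1) * (q + 1) := by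
    have : q ^ 2 = (q - 1) * (q + 1) + 1 := by
      obtain ⟨m, rfl⟩ : ∃ m, q = m + 1 := ⟨q - 1, by omega⟩
      simp
      ring
    omega
  refine ⟨g, hd0, ?_, ?_⟩
  · intro h
    have h1 : (g : F) ^ q = -(g : F) := by linear_combination h
    have h2 : (g : F) ^ (2 * (q - 1)) * (g : F) ^ 2 = 1 * (g : F) ^ 2 := by
      rw [← pow_add, show 2 * (q - 1) + 2 = q * 2 by omega, pow_mul, h1]
      ring
    have h3 : (g : F) ^ (2 * (q - 1)) = 1 := mul_right_cancel₀ (pow_ne_zero 2 hd0) h2
    have h4 := orderOf_dvd_of_pow_eq_one h3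
    rw [hord, hfac, mul_comm 2 (q - 1)] at h4
    have h5 : q + 1 ∣ 2 := Nat.dvd_of_mul_dvd_mul_left (by omega) h4
    have := Nat.le_of_dvd (by norm_num) h5
    omega
  · intro n hn
    rw [div_pow, div_eq_one_iff_eq (pow_ne_zero _ (pow_ne_zero _ hd0))] at hn
    have h2 : (g : F) ^ ((q - 1) * n) * (g : F) ^ n = 1 * (g : F) ^ n := by
      rw [← pow_add, one_mul, show (q - 1) * n + n = q * n by
        obtain ⟨m, rfl⟩ : ∃ m, q = m + 1 := ⟨q - 1, by omega⟩
        simp
        ring, pow_mul]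
      exact hn.symm
    have h3 : (g : F) ^ ((q - 1) * n) = 1 := mul_right_cancel₀ (pow_ne_zero n hd0) h2
    have h4 := orderOf_dvd_of_pow_eq_one h3
    rw [hord, hfac] at h4
    exact Nat.dvd_of_mul_dvd_mul_left (by omega) h4

end Cfsg.Agent.Lib.Helper46.SU3Field
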