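import Mathlib
import Cfsg.Agent.Lib.Helper46.JModel
import Cfsg.Agent.Lib.Helper46.SU3Field

set_option autoImplicit false
set_option linter.unusedSectionVars false
set_option linter.unusedVariables false

/-!
# Generation of rank one unitary groups by two conjugate regular unipotent elements

`core`: the abstract criterion (in a `JModel`).  `regular_of`: regular unipotency in the
original coordinates.  `generic_case`: the generic choice of parameters (`q ≠ 5, 8`).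
-/

namespace Cfsg.Agent.Lib.Helper46.SU3Gen

open Matrix Cfsg.Agent.Lib.Helper40.HermAdj Cfsg.Agent.Lib.Helper46.SU3J
open Cfsg.Agent.Lib.Helper46.SU3Field

section Mat

variable {F : Type*} [Field F] (φ : F →+* F)

theorem uM_mulVec' {a a' : F} (h : φ a = a') (b x y z : F) :
    uM φ a b *ᵥ ![x, y, z] = ![x + a * y + b * z, y - a' * z, z] := by
  rw [uM_mulVec, h]

theorem vM_mulVec' {c c' : F} (h : φ c = c') (d x y z : F) :
    vM φ c d *ᵥ ![x, y, z] = ![x, c * x + y, d * x - c' * y + z] := by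
  rw [vM_mulVec, h]

/-- Regular unipotency of the conjugate of an upper unitriangular matrix. -/
theorem regular_of {P Q A : Matrix (Fin 3) (Fin 3) F} (hPQ : P * Q = 1) (hQP : Q * P = 1)
    {a b : F} (ha : a ≠ 0) (hA : A = P * uM φ a b * Q) :
    IsNilpotent (A - 1) ∧ (A - 1) ^ (3 - 1) ≠ 0 := by
  obtain ⟨X, hX⟩ : ∃ X, X = uM φ a b - 1 := ⟨_, rfl⟩
  have hA1 : A - 1 = P * X * Q := by
    rw [hA, hX, Matrix.mul_sub, Matrix.sub_mul, Matrix.mul_one, hPQ]
  have hX3 : X * X * X = 0 := by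
    rw [hX]
    ext i j
    fin_cases i <;> fin_cases j <;> simp [uM, Matrix.mul_apply, Fin.sum_univ_three]
  have hX2 : (X * X) 0 2 = -(a * φ a) := by
    rw [hX]
    simp [uM, Matrix.mul_apply, Fin.sum_univ_three]
  have h2 : (P * X * Q) ^ 2 = P * (X * X) * Q := by
    rw [pow_two]
    calc P * X * Q * (P * X * Q) = P * X * (Q * P) * X * Q := by simp only [Matrix.mul_assoc]
      _ = P * (X * X) * Q := by rw [hQP, Matrix.mul_one]; simp only [Matrix.mul_assoc]
  have h3 : (P * X * Q) ^ 3 = 0 := by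
    rw [pow_succ, h2]
    calc P * (X * X) * Q * (P * X * Q) = P * (X * X) * (Q * P) * X * Q := by
          simp only [Matrix.mul_assoc]
      _ = P * (X * X * X) * Q := by rw [hQP, Matrix.mul_one]; simp only [Matrix.mul_assoc]
      _ = 0 := by rw [hX3, Matrix.mul_zero, Matrix.zero_mul]
  rw [hA1]
  refine ⟨⟨3, h3⟩, ?_⟩
  show (P * X * Q) ^ 2 ≠ 0
  rw [h2]
  intro h
  have h4 : X * X = 0 := by
    calc X * X = (Q * P) * (X * X) * (Q * P) := by rw [hQP, Matrix.one_mul, Matrix.mul_one]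
      _ = Q * (P * (X * X) * Q) * P := by simp only [Matrix.mul_assoc]
      _ = 0 := by rw [h, Matrix.mul_zero, Matrix.zero_mul]
  have h5 : a * φ a = 0 := by
    have h6 : (X * X) 0 2 = 0 := by rw [h4]; rfl
    rw [hX2] at h6
    linear_combination -h6
  rcases mul_eq_zero.mp h5 with h6 | h6
  · exact ha h6
  · exact ha ((map_eq_zero φ).mp h6)

end Mat

section Core

variable {G : Type*} [Group G] {F : Type*} [Field F] {φ : F →+* F}

/-- The abstract generation criterion: parameters for an upper and a conjugate lower regular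
unipotent element, and a word in them lying in the Borel subgroup with a torus part generating
the field. -/
theorem core (M : JModel G φ) (hinv : ∀ x, φ (φ x) = x)
    (htr : ∀ c, φ c = c → ∃ b, b + φ b = c) {a₀ b₀ c₀ d₀ t σ : F}
    (hrelu : b₀ + φ b₀ + a₀ * φ a₀ = 0) (hrelv : d₀ + φ d₀ + c₀ * φ c₀ = 0)
    (ht : t ≠ 0) (hc : c₀ * t ^ 2 = φ t * φ a₀) (hc0 : c₀ ≠ 0) (hd₀ : d₀ ≠ 0)
    (word : G → G → G) (hword : ∀ (L : Subgroup G) (u v : G), u ∈ L → v ∈ L → word u v ∈ L)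
    (hcol : ∀ u v, M.mat u = uM φ a₀ b₀ → M.mat v = vM φ c₀ d₀ →
      M.mat (word u v) 1 0 = 0 ∧ M.mat (word u v) 2 0 = 0 ∧
      σ * φ (M.mat (word u v) 0 0) = M.mat (word u v) 0 0 * M.mat (word u v) 0 0)
    (hfield : ∀ A : AddSubgroup F, a₀ ∈ A → (∀ a ∈ A, σ * a ∈ A) → ∀ y, y ∈ A) :
    ∃ u g : G, M.mat u = uM φ a₀ b₀ ∧ Subgroup.closure ({u, g * u * g⁻¹} : Set G) = ⊤ := by
  obtain ⟨u, hu⟩ := M.exists_u hinv hrelu
  obtain ⟨v, hv⟩ := M.exists_v hinv hrelv
  obtain ⟨g, hg⟩ := M.exists_conj hinv htr ht hc hc0 hu hv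
  refine ⟨u, g, hu, ?_⟩
  rw [hg]
  have huL : u ∈ Subgroup.closure ({u, v} : Set G) := Subgroup.subset_closure (by simp)
  have hvL : v ∈ Subgroup.closure ({u, v} : Set G) := Subgroup.subset_closure (by simp)
  obtain ⟨h1, h2, h3⟩ := hcol u v hu hv
  exact M.closure_top hinv htr _ huL hvL (hword _ u v huL hvL) hu hv hd₀ h1 h2 h3 hfield

end Core

section Generic

variable {G : Type*} [Group G] {F : Type*} [Field F] [Fintype F] {φ : F →+* F} {q : ℕ}

theorem generic_case (hF : Fintype.card F = q ^ 2) (hq3 : 3 ≤ q) (hq5 : q ≠ 5) (hq8 : q ≠ 8)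
    (M : JModel G φ) (hφ : ∀ x, φ x = x ^ q) (hinv : ∀ x, φ (φ x) = x)
    (htr : ∀ c, φ c = c → ∃ b, b + φ b = c)
    (hnorm : ∀ r, r ≠ 0 → φ r = r → ∃ c, c * φ c = r) :
    ∃ a₀ b₀ : F, a₀ ≠ 0 ∧ ∃ u g : G, M.mat u = uM φ a₀ b₀ ∧
      Subgroup.closure ({u, g * u * g⁻¹} : Set G) = ⊤ := by
  obtain ⟨d, hd0, hdtr, hτ⟩ := exists_d hq3 hF
  obtain ⟨e, he⟩ : ∃ e, e = φ d := ⟨_, rfl⟩
  have he0 : e ≠ 0 := by rw [he]; exact (map_ne_zero φ).mpr hd0
  have hφe : φ e = d := by rw [he, hinv]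
  rw [← hφ, ← he] at hdtr hτ
  obtain ⟨c, hc⟩ := hnorm (-(d + e)) (neg_ne_zero.mpr hdtr)
    (by rw [map_neg, map_add, hφe, ← he]; ring)
  have hc0 : c ≠ 0 := by
    rintro rfl
    rw [zero_mul] at hc
    exact hdtr (by linear_combination hc)
  have hφc0 : φ c ≠ 0 := (map_ne_zero φ).mpr hc0
  obtain ⟨a₀, ha₀⟩ : ∃ a₀ : F, a₀ = φ c * (d + e) / (d * e) := ⟨_, rfl⟩
  obtain ⟨b₀, hb₀⟩ : ∃ b₀ : F, b₀ = (2 * d ^ 2 + d * e + e ^ 2) / (d ^ 2 * e) := ⟨_, rfl⟩
  have hφa : φ a₀ = c * (d + e) / (d * e) := by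
    rw [ha₀, map_div₀, map_mul, map_mul, map_add, hinv, hφe, ← he]
    ring
  have hφb : φ b₀ = (2 * e ^ 2 + d * e + d ^ 2) / (e ^ 2 * d) := by
    rw [hb₀]
    simp only [map_div₀, map_add, map_mul, map_pow, map_ofNat, hφe, ← he]
    ring
  have ha₀ne : a₀ ≠ 0 := by
    rw [ha₀]
    exact div_ne_zero (mul_ne_zero hφc0 hdtr) (mul_ne_zero hd0 he0)
  have hrelu : b₀ + φ b₀ + a₀ * φ a₀ = 0 := by
    rw [hφa, hφb, ha₀, hb₀]
    field_simp
    linear_combination (d + e) ^ 2 * hc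
  have hrelv : d + φ d + c * φ c = 0 := by
    rw [← he, hc]
    ring
  obtain ⟨t, ht⟩ : ∃ t : F, t = (d + e) / (d * e) := ⟨_, rfl⟩
  have hφt : φ t = t := by
    rw [ht, map_div₀, map_add, map_mul, hφe, ← he]
    ring
  have ht0 : t ≠ 0 := by
    rw [ht]
    exact div_ne_zero hdtr (mul_ne_zero hd0 he0)
  have hct : c * t ^ 2 = φ t * φ a₀ := by
    rw [hφt, hφa, ht]
    ring
  refine ⟨a₀, b₀, ha₀ne, ?_⟩
  apply core M hinv htr hrelu hrelv ht0 hct hc0 hd0 (fun u v => v * u * v)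
    (fun L u v hu hv => L.mul_mem (L.mul_mem hv hu) hv) (σ := (d / e) ^ 3)
  · intro u v hu hv
    have hvec : M.mat (v * u * v) *ᵥ ![1, 0, 0] = ![d / e, 0, 0] := by
      rw [map_mul, map_mul, hu, hv, ← Matrix.mulVec_mulVec, ← Matrix.mulVec_mulVec, vM_mulVec,
        uM_mulVec, vM_mulVec]
      apply vec3_ext
      · rw [ha₀, hb₀]
        field_simp
        linear_combination d * (d + e) * hc
      · rw [hφa, ha₀, hb₀]
        field_simp
        linear_combination c * d * (d + e) * hc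
      · rw [hφa, ha₀, hb₀]
        field_simp
        linear_combination d * (2 * d + e) * hc
    refine ⟨?_, ?_, ?_⟩
    · exact (col_zero _ 1).trans (by rw [hvec]; rfl)
    · exact (col_zero _ 2).trans (by rw [hvec]; rfl)
    · have h00 : M.mat (v * u * v) 0 0 = d / e :=
        (col_zero _ 0).trans (by rw [hvec]; rfl)
      rw [h00, map_div₀, hφe, ← he]
      field_simp
  · intro A hA0 hAσ
    exact field_span hF A hA0 ha₀ne hAσ (generic_bad hq3 hq5 hq8 (div_ne_zero hd0 he0) hτ)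

end Generic

end Cfsg.Agent.Lib.Helper46.SU3Gen
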