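import Mathlib
import Cfsg.Agent.S0780
import Cfsg.Agent.Lib.Helper40.HermAdj
import Cfsg.Agent.Lib.Helper14.HermLines
import Cfsg.Agent.Lib.Helper46.JModel

set_option autoImplicit false
set_option linter.unusedSectionVars false
set_option linter.unusedVariables false

/-!
# `SU₃(q)` in antidiagonal coordinates

`exists_model`: for `q ≠ 2`, the group `Cfsg.SU 3 F q` (standard Hermitian form) carries a
`JModel` structure: conjugating by an explicit base change matrix `P` identifies it with the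
special unitary group of the antidiagonal form; generation by transvections is `S0780`.
-/

namespace Cfsg.Agent.Lib.Helper46.SU3JM

open Matrix Cfsg.Agent.Lib.Helper40.HermAdj Cfsg.Agent.Lib.Helper46.SU3J

variable {F : Type*} [Field F]

/-- Base change from the antidiagonal to the standard Hermitian form. -/
def Pm (x c : F) : Matrix (Fin 3) (Fin 3) F := !![x, 0, c * x; 0, 1, 0; 1, 0, 1 + c]

/-- Its inverse. -/
def Qm (x c : F) : Matrix (Fin 3) (Fin 3) F := !![(1 + c) / x, 0, -c; 0, 1, 0; -1 / x, 0, 1]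

theorem Pm_mul_Qm {x c : F} (hx : x ≠ 0) : Pm x c * Qm x c = 1 := by
  ext i j
  fin_cases i <;> fin_cases j <;> simp [Pm, Qm, Matrix.mul_apply, Fin.sum_univ_three] <;>
    field_simp <;> ring

theorem Qm_mul_Pm {x c : F} (hx : x ≠ 0) : Qm x c * Pm x c = 1 := by
  ext i j
  fin_cases i <;> fin_cases j <;> simp [Pm, Qm, Matrix.mul_apply, Fin.sum_univ_three] <;>
    field_simp <;> ring

theorem Pm_adj (φ : F →+* F) {x c : F} (hx : x * φ x = -1) (hc : c + φ c = -1) :
    adj φ (Pm x c) * Pm x c = Jm F := by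
  ext i j
  fin_cases i <;> fin_cases j <;>
    simp [Pm, Jm, Matrix.mul_apply, Fin.sum_univ_three, adj_apply]
  · linear_combination hx
  · linear_combination c * hx
  · linear_combination φ c * hx
  · linear_combination (c * φ c) * hx + hc

variable [Fintype F] {q : ℕ}

theorem exists_model (hF : Fintype.card F = q ^ 2) (hq : q ≠ 2) :
    ∃ (φ : F →+* F) (M : JModel ↥(Cfsg.SU 3 F q) φ) (P Q : Matrix (Fin 3) (Fin 3) F),
      (∀ x, φ x = x ^ q) ∧ (∀ x, φ (φ x) = x) ∧ (∀ c, φ c = c → ∃ b, b + φ b = c) ∧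
      P * Q = 1 ∧ Q * P = 1 ∧
      ∀ g : ↥(Cfsg.SU 3 F q),
        ((g : Matrix.SpecialLinearGroup (Fin 3) F) : Matrix (Fin 3) (Fin 3) F) =
          P * M.mat g * Q := by
  classical
  obtain ⟨φ, hφ, hinv, -⟩ := exists_phi hF
  have htr : ∀ c, φ c = c → ∃ b, b + φ b = c := by
    intro c hc
    obtain ⟨b, hb⟩ := Cfsg.Agent.Lib.Helper14.HermLines.exists_trace hF φ hφ hinv c
      (by rw [← hφ]; exact hc)
    exact ⟨b, by rw [hφ]; exact hb⟩
  have hq2 := Cfsg.Agent.Lib.Helper5.HermCount.two_le hF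
  obtain ⟨x, hx⟩ : ∃ x : F, x * φ x = -1 := by
    have hne : (-1 : F) ≠ 0 := by simp
    have h := Cfsg.Agent.Lib.Helper5.HermCount.card_norm_eq hF (-1) hne
      (by rw [← hφ, map_neg, map_one])
    have hne' : Nonempty {x : F // x * x ^ q = -1} := by
      apply (Nat.card_pos_iff.mp _).1
      rw [h]
      omega
    obtain ⟨⟨x, hx⟩⟩ := hne'
    exact ⟨x, by rw [hφ]; exact hx⟩
  obtain ⟨c, hc⟩ := htr (-1) (by rw [map_neg, map_one])
  have hx0 : x ≠ 0 := by
    rintro rfl
    simp at hx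
  obtain ⟨P, hP⟩ : ∃ P, P = Pm x c := ⟨_, rfl⟩
  obtain ⟨Q, hQ⟩ : ∃ Q, Q = Qm x c := ⟨_, rfl⟩
  have hPQ : P * Q = 1 := by rw [hP, hQ]; exact Pm_mul_Qm hx0
  have hQP : Q * P = 1 := by rw [hP, hQ]; exact Qm_mul_Pm hx0
  have hPJ : adj φ P * P = Jm F := by rw [hP]; exact Pm_adj φ hx hc
  have hQJ : adj φ Q * Jm F * Q = 1 := by
    calc adj φ Q * Jm F * Q = adj φ Q * (adj φ P * P) * Q := by rw [hPJ]
      _ = (adj φ Q * adj φ P) * (P * Q) := by simp only [Matrix.mul_assoc]
      _ = 1 := by rw [← adj_mul, hPQ, adj_one, Matrix.one_mul]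
  have hQJ' : adj φ Q * Jm F = P := by
    calc adj φ Q * Jm F = adj φ Q * Jm F * (Q * P) := by rw [hQP, Matrix.mul_one]
      _ = (adj φ Q * Jm F * Q) * P := by simp only [Matrix.mul_assoc]
      _ = P := by rw [hQJ, Matrix.one_mul]
  have hg : ∀ g : ↥(Cfsg.SU 3 F q), adj φ (g.1.1) * g.1.1 = 1 :=
    fun g => (preserves_iff φ hφ _).mp g.2
  have hsand : ∀ A B : Matrix (Fin 3) (Fin 3) F, Q * A * P * (Q * B * P) = Q * (A * B) * P := by
    intro A B
    calc Q * A * P * (Q * B * P) = Q * A * (P * Q) * B * P := by simp only [Matrix.mul_assoc]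
      _ = Q * (A * B) * P := by rw [hPQ, Matrix.mul_one]; simp only [Matrix.mul_assoc]
  let mat : ↥(Cfsg.SU 3 F q) →* Matrix (Fin 3) (Fin 3) F :=
    { toFun := fun g => Q * g.1.1 * P
      map_one' := by
        show Q * ((1 : ↥(Cfsg.SU 3 F q)).1.1) * P = 1
        rw [Subgroup.coe_one, Matrix.SpecialLinearGroup.coe_one, Matrix.mul_one, hQP]
      map_mul' := fun g h => by
        show Q * ((g * h).1.1) * P = (Q * g.1.1 * P) * (Q * h.1.1 * P)
        rw [hsand, Subgroup.coe_mul, Matrix.SpecialLinearGroup.coe_mul] }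
  have hmat : ∀ g : ↥(Cfsg.SU 3 F q), mat g = Q * g.1.1 * P := fun g => rfl
  have hback : ∀ A : Matrix (Fin 3) (Fin 3) F, P * (Q * A * P) * Q = A := by
    intro A
    calc P * (Q * A * P) * Q = (P * Q) * A * (P * Q) := by simp only [Matrix.mul_assoc]
      _ = A := by rw [hPQ, Matrix.one_mul, Matrix.mul_one]
  have hback' : ∀ A : Matrix (Fin 3) (Fin 3) F, Q * (P * A * Q) * P = A := by
    intro A
    calc Q * (P * A * Q) * P = (Q * P) * A * (Q * P) := by simp only [Matrix.mul_assoc]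
      _ = A := by rw [hQP, Matrix.one_mul, Matrix.mul_one]
  refine ⟨φ, ⟨mat, ?_, ?_, ?_, ?_, ?_⟩, P, Q, hφ, hinv, htr, hPQ, hQP, ?_⟩
  · -- injectivity
    intro g h hgh
    rw [hmat, hmat] at hgh
    have := congrArg (fun X => P * X * Q) hgh
    simp only [hback] at this
    exact Subtype.ext (Subtype.ext this)
  · -- determinant
    intro g
    rw [hmat, Matrix.det_mul, Matrix.det_mul, g.1.2, mul_one, ← Matrix.det_mul, hQP, Matrix.det_one]
  · -- unitarity
    intro g
    rw [hmat, adj_mul, adj_mul]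
    calc adj φ P * (adj φ g.1.1 * adj φ Q) * Jm F * (Q * g.1.1 * P)
        = adj φ P * (adj φ g.1.1 * ((adj φ Q * Jm F * Q) * g.1.1)) * P := by
          simp only [Matrix.mul_assoc]
      _ = adj φ P * (adj φ g.1.1 * g.1.1) * P := by rw [hQJ, Matrix.one_mul]
      _ = Jm F := by rw [hg, Matrix.mul_one, hPJ]
  · -- surjectivity
    intro A hdet hA
    have hdet' : (P * A * Q).det = 1 := by
      rw [Matrix.det_mul, Matrix.det_mul, hdet, mul_one, ← Matrix.det_mul, hPQ, Matrix.det_one]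
    have hmem : (⟨P * A * Q, hdet'⟩ : Matrix.SpecialLinearGroup (Fin 3) F) ∈ Cfsg.SU 3 F q := by
      show ∀ u v, Cfsg.hermForm 3 F q ((P * A * Q) *ᵥ u) ((P * A * Q) *ᵥ v) =
        Cfsg.hermForm 3 F q u v
      rw [preserves_iff φ hφ, adj_mul, adj_mul]
      calc adj φ Q * (adj φ A * adj φ P) * (P * A * Q)
          = adj φ Q * (adj φ A * (adj φ P * P) * A) * Q := by simp only [Matrix.mul_assoc]
        _ = adj φ Q * (adj φ A * Jm F * A) * Q := by rw [hPJ]
        _ = 1 := by rw [hA, hQJ]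
    exact ⟨⟨⟨P * A * Q, hdet'⟩, hmem⟩, hback' A⟩
  · -- generation by transvections
    intro L h
    have h780 := Cfsg.Agent.S0780.result hF 3 le_rfl (fun h => hq h.2)
    rw [eq_top_iff, ← h780, Subgroup.closure_le]
    rintro A ⟨v, c', hv0, hA⟩
    apply h
    obtain ⟨w, hw⟩ : ∃ w, w = Q *ᵥ v := ⟨_, rfl⟩
    have hvw : v = P *ᵥ w := by rw [hw, Matrix.mulVec_mulVec, hPQ, Matrix.one_mulVec]
    have hPt : Pᵀ * P.map φ = Jm F := by
      have := congrArg Matrix.transpose hPJ
      rw [Matrix.transpose_mul, Jm_transpose] at this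
      rw [← this]
      rfl
    refine ⟨w, c', ?_, ?_⟩
    · have h1 := herm_mulVec φ hφ P w w
      rw [← hvw, hv0, hPt, Jφ_eq] at h1
      simp [dotProduct, Fin.sum_univ_three] at h1
      linear_combination -h1
    · have hvec : (fun j => v j ^ q) ᵥ* P = Jm F *ᵥ (φ ∘ w) := by
        have e1 : (fun j => v j ^ q) = φ ∘ v := by
          funext j
          simp [hφ]
        rw [e1, hw, phi_mulVec, Matrix.mulVec_mulVec, ← Matrix.vecMul_transpose,
          Matrix.transpose_mul, Jm_transpose]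
        congr 1
        rw [← hQJ']
        rfl
      show mat A = trv φ w c'
      rw [hmat, hA]
      unfold Cfsg.unitaryTransvection trv
      rw [← Jφ_eq, Matrix.mul_add, Matrix.add_mul, Matrix.mul_one, hQP, Matrix.mul_smul,
        Matrix.smul_mul, Matrix.mul_vecMulVec, Matrix.vecMulVec_mul, hvec, ← hw]
  · intro g
    exact (hback _).symm

end Cfsg.Agent.Lib.Helper46.SU3JM
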