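import Mathlib
import Cfsg.Agent.S0780
import Cfsg.Agent.Lib.Helper43.SUBase
import Cfsg.Agent.Lib.Helper43.SUElt
import Cfsg.Agent.Lib.Helper43.SUFrame

set_option autoImplicit false
set_option linter.unusedSimpArgs false
set_option linter.unusedVariables false

/-!
# Generation of `SU_n(q)` by root elements: abstract part

Calculus of the elements `E e d c` (Helper43) and two generation criteria:
`lemG` (two opposite full unipotent radicals generate) and `thmU` (a regular pattern).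
-/

namespace Cfsg.Agent.Lib.Helper46.SUGenA

open Matrix Cfsg.Agent.Lib.Helper43.SUBase Cfsg.Agent.Lib.Helper43.SUElt
  Cfsg.Agent.Lib.Helper43.SUFrame

variable {F : Type*} [Field F] {q n : ℕ} (D : QD F q)

theorem h_swap0 {x y : Fin n → F} (h : D.h x y = 0) : D.h y x = 0 := by
  rw [← D.h_symm, h, map_zero]

theorem h_swap_ne {x y : Fin n → F} (h : D.h x y ≠ 0) : D.h y x ≠ 0 := fun h0 =>
  h (h_swap0 D h0)

theorem phi_ne {a : F} (h : a ≠ 0) : D.φ a ≠ 0 := by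
  intro h0
  apply h
  have := congrArg D.φ h0
  rwa [D.inv, map_zero] at this

theorem E_T {e d : Fin n → F} {c t : F} (H : Ok D e d c) (ht : t + D.φ t = 0) :
    E D e d c * T D e t = E D e d (c + t) := by
  unfold T
  rw [E_mul D H (Ok_T D H.1 ht)]
  simp [D.h_zero_left]

theorem Ok_tz {e d : Fin n → F} {c c' : F} (H : Ok D e d c) (H' : Ok D e d c') :
    (c' - c) + D.φ (c' - c) = 0 := by
  have h1 := H.2.2
  have h2 := H'.2.2
  rw [map_sub]
  linear_combination h2 - h1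

theorem E_change {e d : Fin n → F} {c c' : F} (H : Ok D e d c) (H' : Ok D e d c') :
    E D e d c' = E D e d c * T D e (c' - c) := by
  rw [E_T D H (Ok_tz D H H')]
  congr 1
  ring

theorem mem_change (H : Subgroup ↥(Cfsg.SU n F q)) {e d : Fin n → F} {c c' : F}
    (hX : ∀ t, t + D.φ t = 0 → T D e t ∈ H) (hO : Ok D e d c) (hO' : Ok D e d c')
    (hE : E D e d c ∈ H) : E D e d c' ∈ H := by
  rw [E_change D hO hO']
  exact H.mul_mem hE (hX _ (Ok_tz D hO hO'))

theorem T_conj {v : Fin n → F} {c : F} (hv : D.h v v = 0) (hc : c + D.φ c = 0)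
    (g : ↥(Cfsg.SU n F q)) : g * T D v c * g⁻¹ = T D (mv g v) c := by
  unfold T
  rw [E_conj D (Ok_T D hv hc), mv_zero]

theorem T_smul {v : Fin n → F} {c : F} (hv : D.h v v = 0) (hc : c + D.φ c = 0) (t : F) :
    T D (t • v) c = T D v (t * D.φ t * c) := by
  unfold T
  rw [E_smul D t (Ok_T D hv hc), smul_zero]

theorem tz_mul {c r : F} (hc : c + D.φ c = 0) (hr : D.φ r = r) : r * c + D.φ (r * c) = 0 := by
  rw [map_mul, hr]
  linear_combination r * hc

theorem tz_nm {c : F} (hc : c + D.φ c = 0) (t : F) :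
    t * D.φ t * c + D.φ (t * D.φ t * c) = 0 :=
  tz_mul D hc (D.nm_fixed t)

/-- the group generated by `H ∩ Q_e`: difference of an element and a conjugate -/
theorem F3' (H : Subgroup ↥(Cfsg.SU n F q)) {e d : Fin n → F} {c : F} (hO : Ok D e d c)
    (hE : E D e d c ∈ H) {k : ↥(Cfsg.SU n F q)} (hk : k ∈ H) (hke : mv k e = e) :
    Ok D e (mv k d - d) (c + D.φ c - D.h (-d) (mv k d)) ∧
      E D e (mv k d - d) (c + D.φ c - D.h (-d) (mv k d)) ∈ H := by
  have h1 : k * E D e d c * k⁻¹ = E D e (mv k d) c := by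
    rw [E_conj D hO, hke]
  have hO1 : Ok D e (mv k d) c := by
    have := Ok_conj D hO k
    rwa [hke] at this
  have h2 := E_mul D hO1 (Ok_inv D hO)
  have hO2 := Ok_mul D hO1 (Ok_inv D hO)
  rw [← sub_eq_add_neg] at h2 hO2
  refine ⟨hO2, ?_⟩
  rw [← h2, ← h1, ← E_inv D hO]
  exact H.mul_mem (H.mul_mem (H.mul_mem hk hE) (H.inv_mem hk)) (H.inv_mem hE)

/-- splitting a transvection at `P₁ + P₀` -/
theorem T_split {P0 P1 : Fin n → F} (h00 : D.h P0 P0 = 0) (h11 : D.h P1 P1 = 0)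
    (h10 : D.h P1 P0 = 0) {c : F} (hc : c + D.φ c = 0) :
    T D (P1 + P0) c = T D P1 c * E D P0 (c • P1) c := by
  have h01 : D.h P0 P1 = 0 := h_swap0 D h10
  have hs : D.h (P1 + P0) (P1 + P0) = 0 := by
    simp only [D.h_add_left, D.h_add_right, h00, h11, h10, h01, add_zero]
  have hO : Ok D P0 (c • P1) c := by
    refine ⟨h00, ?_, ?_⟩
    · rw [D.h_smul_left, h10, mul_zero]
    · rw [D.h_smul_left, D.h_smul_right, h11, mul_zero, mul_zero, add_zero, hc]
  have hφ : D.φ c = -c := by linear_combination hc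
  apply su_ext
  intro x
  rw [mv_mul, mv_T D hs hc, mv_E D hO, mv_T D h11 hc]
  simp only [D.h_add_left, D.h_sub_left, D.h_smul_left, D.h_add_right, D.h_smul_right, h00, h11,
    h10, h01, hφ]
  module

/-- the two descriptions of a root element on an isotropic line -/
theorem E_symm {P0 P1 : Fin n → F} (h00 : D.h P0 P0 = 0) (h11 : D.h P1 P1 = 0)
    (h10 : D.h P1 P0 = 0) (a : F) :
    E D P0 (a • P1) 0 = E D P1 ((-D.φ a) • P0) 0 := by
  have h01 : D.h P0 P1 = 0 := h_swap0 D h10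
  have hO : Ok D P0 (a • P1) 0 := by
    refine ⟨h00, ?_, ?_⟩
    · rw [D.h_smul_left, h10, mul_zero]
    · rw [D.h_smul_left, D.h_smul_right, h11]; simp
  have hO' : Ok D P1 ((-D.φ a) • P0) 0 := by
    refine ⟨h11, ?_, ?_⟩
    · rw [D.h_smul_left, h01, mul_zero]
    · rw [D.h_smul_left, D.h_smul_right, h00]; simp
  apply su_ext
  intro x
  rw [mv_E D hO, mv_E D hO']
  simp only [D.h_smul_right, map_neg, D.inv]
  module

theorem Ok_line {P0 P1 : Fin n → F} (h00 : D.h P0 P0 = 0) (h11 : D.h P1 P1 = 0)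
    (h10 : D.h P1 P0 = 0) (a : F) : Ok D P0 (a • P1) 0 := by
  refine ⟨h00, ?_, ?_⟩
  · rw [D.h_smul_left, h10, mul_zero]
  · rw [D.h_smul_left, D.h_smul_right, h11]; simp

/-- transvections at points not perpendicular to `e` -/
theorem trans_of_not_perp (H : Subgroup ↥(Cfsg.SU n F q)) {e f : Fin n → F}
    (he : D.h e e = 0) (hf : D.h f f = 0) (hfe : D.h f e ≠ 0)
    (hQe : ∀ d c, Ok D e d c → E D e d c ∈ H) (hTf : ∀ c, c + D.φ c = 0 → T D f c ∈ H)
    {x : Fin n → F} (hx : D.h x x = 0) (hxe : D.h x e ≠ 0) :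
    ∀ c, c + D.φ c = 0 → T D x c ∈ H := by
  intro c hc
  obtain ⟨f', hf'⟩ : ∃ f', f' = (D.h f e)⁻¹ • f := ⟨_, rfl⟩
  obtain ⟨x', hx'⟩ : ∃ x', x' = (D.h x e)⁻¹ • x := ⟨_, rfl⟩
  have hf'f' : D.h f' f' = 0 := by rw [hf', D.h_smul_left, D.h_smul_right, hf]; ring
  have hx'x' : D.h x' x' = 0 := by rw [hx', D.h_smul_left, D.h_smul_right, hx]; ring
  have hf'e : D.h f' e = 1 := by rw [hf', D.h_smul_left, inv_mul_cancel₀ hfe]
  have hx'e : D.h x' e = 1 := by rw [hx', D.h_smul_left, inv_mul_cancel₀ hxe]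
  obtain ⟨d, c₁, hO, hmap⟩ := exists_E_map D he hf'f' hx'x' hf'e hx'e
  have hTf' : ∀ c₂, c₂ + D.φ c₂ = 0 → T D f' c₂ ∈ H := by
    intro c₂ hc₂
    rw [hf', T_smul D hf hc₂]
    exact hTf _ (tz_nm D hc₂ _)
  have hTx' : ∀ c₂, c₂ + D.φ c₂ = 0 → T D x' c₂ ∈ H := by
    intro c₂ hc₂
    rw [← hmap, ← T_conj D hf'f' hc₂]
    exact H.mul_mem (H.mul_mem (hQe _ _ hO) (hTf' _ hc₂)) (H.inv_mem (hQe _ _ hO))
  have hxx' : x = (D.h x e) • x' := by rw [hx', smul_smul, mul_inv_cancel₀ hxe, one_smul]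
  rw [hxx', T_smul D hx'x' hc]
  exact hTx' _ (tz_nm D hc _)

/-- all transvections from two opposite unipotent radicals -/
theorem all_trans (H : Subgroup ↥(Cfsg.SU n F q)) {e f : Fin n → F}
    (he : D.h e e = 0) (hf : D.h f f = 0) (hfe : D.h f e ≠ 0)
    (hQe : ∀ d c, Ok D e d c → E D e d c ∈ H) (hQf : ∀ d c, Ok D f d c → E D f d c ∈ H) :
    ∀ x, D.h x x = 0 → ∀ c, c + D.φ c = 0 → T D x c ∈ H := by
  have hef : D.h e f ≠ 0 := h_swap_ne D hfe
  have hTe : ∀ c, c + D.φ c = 0 → T D e c ∈ H := fun c hc => hQe _ _ (Ok_T D he hc)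
  have hTf : ∀ c, c + D.φ c = 0 → T D f c ∈ H := fun c hc => hQf _ _ (Ok_T D hf hc)
  have h4a : ∀ x, D.h x x = 0 → D.h x e ≠ 0 → ∀ c, c + D.φ c = 0 → T D x c ∈ H :=
    fun x hx hxe => trans_of_not_perp D H he hf hfe hQe hTf hx hxe
  have h4a' : ∀ x, D.h x x = 0 → D.h x f ≠ 0 → ∀ c, c + D.φ c = 0 → T D x c ∈ H :=
    fun x hx hxf => trans_of_not_perp D H hf he hef hQf hTe hx hxf
  intro x hx c hc
  by_cases hxe : D.h x e = 0
  swap
  · exact h4a x hx hxe c hc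
  by_cases hxf : D.h x f = 0
  swap
  · exact h4a' x hx hxf c hc
  by_cases hx0 : x = 0
  · have : T D x c = 1 := by
      apply su_ext
      intro y
      rw [mv_T D hx hc, mv_one, hx0, smul_zero, add_zero]
    rw [this]; exact H.one_mem
  obtain ⟨y₂, hy₂⟩ : ∃ y₂, D.h x y₂ ≠ 0 := by
    by_contra hcon
    push Not at hcon
    exact hx0 (D.eq_zero_of_h_left hcon)
  obtain ⟨d, hd⟩ : ∃ d, d = y₂ - (D.h y₂ e / D.h f e) • f := ⟨_, rfl⟩
  have hde : D.h d e = 0 := by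
    rw [hd, D.h_sub_left, D.h_smul_left, div_mul_cancel₀ _ hfe, sub_self]
  have hxd : D.h x d ≠ 0 := by
    rw [hd, D.h_sub_right, D.h_smul_right, hxf, mul_zero, sub_zero]; exact hy₂
  obtain ⟨c₁, hc₁⟩ := D.exists_c d
  have hO : Ok D e d c₁ := ⟨he, hde, hc₁⟩
  obtain ⟨y, hy⟩ : ∃ y, y = mv (E D e d c₁) f := ⟨_, rfl⟩
  have hyy : D.h y y = 0 := by rw [hy, h_mv, hf]
  have hye : D.h y e = D.h f e := by
    have := h_mv D (E D e d c₁) f e
    rwa [mv_E_e D hO, ← hy] at this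
  have hxy : D.h x y = D.φ (D.h f e) * D.h x d := by
    rw [hy, mv_E D hO]
    simp only [D.h_add_right, D.h_sub_right, D.h_smul_right, hxe, hxf, mul_zero, sub_zero,
      add_zero, zero_add]
  have hxy0 : D.h x y ≠ 0 := by rw [hxy]; exact mul_ne_zero (phi_ne D hfe) hxd
  obtain ⟨z, hz0, hz⟩ := D.exists_skew
  obtain ⟨s, hs⟩ : ∃ s, s = D.φ (z / D.h x y) := ⟨_, rfl⟩
  have hφs : D.φ s * D.h x y = z := by
    rw [hs, D.inv, div_mul_cancel₀ _ hxy0]
  have hyx : D.h y x = D.φ (D.h x y) := (D.h_symm x y).symm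
  obtain ⟨w, hw⟩ : ∃ w, w = x + s • y := ⟨_, rfl⟩
  have hsyx : s * D.h y x = -z := by
    rw [hyx, hs, ← map_mul, div_mul_cancel₀ _ hxy0, hz]
  have hww : D.h w w = 0 := by
    rw [hw]
    simp only [D.h_add_left, D.h_add_right, D.h_smul_left, D.h_smul_right, hx, hyy]
    linear_combination hφs + hsyx
  have hwe : D.h w e ≠ 0 := by
    rw [hw, D.h_add_left, D.h_smul_left, hxe, zero_add, hye]
    refine mul_ne_zero ?_ hfe
    rw [hs]; exact phi_ne D (div_ne_zero hz0 hxy0)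
  have hzi : z⁻¹ + D.φ z⁻¹ = 0 := by
    rw [map_inv₀, hz]
    field_simp
    ring
  have hTw := h4a w hww hwe z⁻¹ hzi
  have hye0 : D.h y e ≠ 0 := by rw [hye]; exact hfe
  have hTy := h4a y hyy hye0
  have hyw : D.h y w = D.h y x := by
    rw [hw, D.h_add_right, D.h_smul_right, hyy, mul_zero, add_zero]
  have hmap : mv (T D w z⁻¹) y = (z⁻¹ * D.h y x) • x := by
    rw [mv_T D hww hzi, hyw, hw]
    have h1 : z⁻¹ * D.h y x * s = -1 := by
      rw [mul_assoc, mul_comm (D.h y x) s, hsyx]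
      field_simp
    rw [smul_add, smul_smul, h1]
    module
  obtain ⟨τ, hτ⟩ : ∃ τ, τ = z⁻¹ * D.h y x := ⟨_, rfl⟩
  have hτ0 : τ ≠ 0 := by
    rw [hτ]; exact mul_ne_zero (inv_ne_zero hz0) (h_swap_ne D hxy0)
  have hTτ : ∀ c₂, c₂ + D.φ c₂ = 0 → T D (τ • x) c₂ ∈ H := by
    intro c₂ hc₂
    rw [hτ, ← hmap, ← T_conj D hyy hc₂]
    exact H.mul_mem (H.mul_mem hTw (hTy _ hc₂)) (H.inv_mem hTw)
  have hN : τ * D.φ τ ≠ 0 := mul_ne_zero hτ0 (phi_ne D hτ0)
  have hc' : c / (τ * D.φ τ) + D.φ (c / (τ * D.φ τ)) = 0 := by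
    rw [map_div₀, D.nm_fixed]
    have hφ : D.φ c = -c := by linear_combination hc
    rw [hφ]
    ring
  have h5 := hTτ _ hc'
  rw [T_smul D hx hc', mul_div_cancel₀ _ hN] at h5
  exact h5

/-- **Generation criterion.** Two opposite full unipotent radicals generate `SU_n(q)`. -/
theorem lemG [Fintype F] (hF : Fintype.card F = q ^ 2) (hn : 3 ≤ n) (h32 : ¬ (n = 3 ∧ q = 2))
    (H : Subgroup ↥(Cfsg.SU n F q)) {e f : Fin n → F}
    (he : D.h e e = 0) (hf : D.h f f = 0) (hfe : D.h f e ≠ 0)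
    (hQe : ∀ d c, Ok D e d c → E D e d c ∈ H) (hQf : ∀ d c, Ok D f d c → E D f d c ∈ H) :
    H = ⊤ := by
  have hall := all_trans D H he hf hfe hQe hQf
  rw [eq_top_iff, ← Cfsg.Agent.S0780.result hF n hn h32, Subgroup.closure_le]
  rintro A ⟨v, c, hv, hA⟩
  have hv' : D.h v v = 0 := hv
  have hmv : ∀ x, mv A x = x + D.h x v • (c • v) := by
    intro x
    unfold mv
    rw [hA]
    unfold Cfsg.unitaryTransvection
    have e1 : (fun j => v j ^ q) = D.φ ∘ v := by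
      funext j
      simp [D.hφ]
    rw [e1, ← Matrix.smul_vecMulVec, tv_mulVec]
  by_cases hc : c + D.φ c = 0
  · have : A = T D v c := by
      apply su_ext
      intro x
      rw [hmv, mv_T D hv' hc]
      module
    rw [this]
    exact hall v hv' c hc
  · have hv0 : v = 0 := by
      apply D.eq_zero_of_h_right
      intro x
      by_contra hxv
      have h1 := h_mv D A x x
      rw [hmv] at h1
      simp only [D.h_add_left, D.h_add_right, D.h_smul_left, D.h_smul_right, hv', mul_zero,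
        add_zero] at h1
      have h2 : D.h x v * D.φ (D.h x v) * (c + D.φ c) = 0 := by
        have h3 : D.h v x = D.φ (D.h x v) := (D.h_symm x v).symm
        rw [h3] at h1
        linear_combination h1
      rcases mul_eq_zero.1 h2 with h4 | h4
      · rcases mul_eq_zero.1 h4 with h5 | h5
        · exact hxv h5
        · exact phi_ne D hxv h5
      · exact hc h4
    have : A = 1 := by
      apply su_ext
      intro x
      rw [hmv, mv_one, hv0, smul_zero, smul_zero, add_zero]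
    rw [this]
    exact H.one_mem

/-- duality: a set with trivial perp spans -/
theorem span_top_of_perp (S : Set (Fin n → F))
    (hS : ∀ y, (∀ s ∈ S, D.h s y = 0) → y = 0) : Submodule.span F S = ⊤ := by
  classical
  by_contra hne
  have hlt : Submodule.span F S < ⊤ := lt_top_iff_ne_top.2 hne
  obtain ⟨f, hf0, hf⟩ := Submodule.exists_le_ker_of_lt_top _ hlt
  obtain ⟨y, hy⟩ : ∃ y : Fin n → F, y = fun i => D.φ (f (fun j => if i = j then 1 else 0)) :=
    ⟨_, rfl⟩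
  have hfy : ∀ x, f x = D.h x y := by
    intro x
    rw [D.h_eq, LinearMap.pi_apply_eq_sum_univ f x]
    apply Finset.sum_congr rfl
    intro i _
    rw [hy, D.inv, smul_eq_mul]
  have hy0 : y = 0 := by
    apply hS
    intro s hs
    rw [← hfy]
    exact hf (Submodule.subset_span hs)
  apply hf0
  apply LinearMap.ext
  intro x
  rw [hfy, hy0, D.h_zero_right]
  rfl

/-- **Generation criterion.** A subgroup `H` containing `v` with the regular pattern at `p`
(`h(v^k p, p) = 0` for `1 ≤ k < m`, `≠ 0` for `k = m`, `n = 2m+1`, `p` cyclic), all transvections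
at `p` and the root elements `E p (a • v p) 0` is everything. -/
theorem thmU [Fintype F] (hF : Fintype.card F = q ^ 2) (m : ℕ) (hm : 2 ≤ m) (hn : n = 2 * m + 1)
    (H : Subgroup ↥(Cfsg.SU n F q)) {v : ↥(Cfsg.SU n F q)} (hv : v ∈ H) {p : Fin n → F}
    (hp : D.h p p = 0)
    (hγ0 : ∀ k : ℕ, 1 ≤ k → k < m → D.h (mv (v ^ k) p) p = 0)
    (hγm : D.h (mv (v ^ m) p) p ≠ 0)
    (hcyc : ∀ y, (∀ k : ℕ, k ≤ 2 * m → D.h (mv (v ^ k) p) y = 0) → y = 0)
    (hX : ∀ c, c + D.φ c = 0 → T D p c ∈ H)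
    (hσ : ∀ a : F, E D p (a • mv v p) 0 ∈ H) : H = ⊤ := by
  classical
  obtain ⟨P, hP⟩ : ∃ P : ℤ → (Fin n → F), ∀ k, P k = mv (v ^ k) p := ⟨_, fun _ => rfl⟩
  have hP0 : P 0 = p := by rw [hP, zpow_zero, mv_one]
  have hP1 : P 1 = mv v p := by rw [hP, zpow_one]
  have hPadd : ∀ i j : ℤ, mv (v ^ i) (P j) = P (i + j) := by
    intro i j
    rw [hP, hP, ← mv_mul, ← _root_.zpow_add]
  obtain ⟨γ, hγ⟩ : ∃ γ : ℤ → F, ∀ k, γ k = D.h (P k) p := ⟨_, fun _ => rfl⟩
  have hPP : ∀ i j : ℤ, D.h (P i) (P j) = γ (i - j) := by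
    intro i j
    have h1 : P i = mv (v ^ j) (P (i - j)) := by rw [hPadd]; congr 1; ring
    have h2 : P j = mv (v ^ j) p := hP j
    rw [h1, h2, h_mv, hγ]
  have hγneg : ∀ k : ℤ, γ (-k) = D.φ (γ k) := by
    intro k
    have h1 := hPP 0 k
    rw [zero_sub, hP0] at h1
    rw [← h1, hγ, D.h_symm]
  have hγz : ∀ k : ℤ, -(m : ℤ) < k → k < m → γ k = 0 := by
    intro k hk1 hk2
    obtain ⟨j, rfl | rfl⟩ := Int.eq_nat_or_neg k
    · rcases Nat.eq_zero_or_pos j with h0 | h0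
      · subst h0
        rw [hγ, Nat.cast_zero, hP0]; exact hp
      · rw [hγ, hP, zpow_natCast]
        exact hγ0 j h0 (by omega)
    · rcases Nat.eq_zero_or_pos j with h0 | h0
      · subst h0
        rw [hγ, Nat.cast_zero, neg_zero, hP0]; exact hp
      · rw [hγneg, hγ, hP, zpow_natCast, hγ0 j h0 (by omega), map_zero]
  have hγm' : γ m ≠ 0 := by rw [hγ, hP, zpow_natCast]; exact hγm
  have hγm'' : γ (-(m : ℤ)) ≠ 0 := by rw [hγneg]; exact phi_ne D hγm'
  have hPiso : ∀ k : ℤ, D.h (P k) (P k) = 0 := by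
    intro k; rw [hPP, sub_self]; exact hγz 0 (by omega) (by omega)
  have hWP : ∀ k : ℤ, ∀ c, c + D.φ c = 0 → T D (P k) c ∈ H := by
    intro k c hc
    rw [hP, ← T_conj D hp hc]
    exact H.mul_mem (H.mul_mem (H.zpow_mem hv k) (hX c hc)) (H.inv_mem (H.zpow_mem hv k))
  -- the subspace `Y`
  let Y : Submodule F (Fin n → F) :=
    { carrier := {y | D.h y p = 0 ∧ ∀ (r c : F), Ok D p (r • y) c → E D p (r • y) c ∈ H}
      add_mem' := by
        rintro a b ⟨ha1, ha2⟩ ⟨hb1, hb2⟩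
        refine ⟨by rw [D.h_add_left, ha1, hb1, add_zero], fun r c hO => ?_⟩
        obtain ⟨c₁, hc₁⟩ := D.exists_c (r • a)
        obtain ⟨c₂, hc₂⟩ := D.exists_c (r • b)
        have hO1 : Ok D p (r • a) c₁ := ⟨hp, by rw [D.h_smul_left, ha1, mul_zero], hc₁⟩
        have hO2 : Ok D p (r • b) c₂ := ⟨hp, by rw [D.h_smul_left, hb1, mul_zero], hc₂⟩
        have h3 := E_mul D hO1 hO2
        have hO3 := Ok_mul D hO1 hO2
        rw [← smul_add] at h3 hO3
        refine mem_change D H hX hO3 hO ?_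
        rw [← h3]
        exact H.mul_mem (ha2 r c₁ hO1) (hb2 r c₂ hO2)
      zero_mem' := by
        refine ⟨D.h_zero_left p, fun r c hO => ?_⟩
        have hc : c + D.φ c = 0 := by
          have := hO.2.2
          rw [smul_zero, D.h_zero_left, add_zero] at this
          exact this
        rw [smul_zero]
        exact hX c hc
      smul_mem' := by
        rintro c y ⟨hy1, hy2⟩
        refine ⟨by rw [D.h_smul_left, hy1, mul_zero], fun r c' hO => ?_⟩
        rw [smul_smul] at hO ⊢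
        exact hy2 _ _ hO }
  have hYmem : ∀ y, y ∈ Y ↔ (D.h y p = 0 ∧ ∀ (r c : F), Ok D p (r • y) c → E D p (r • y) c ∈ H) :=
    fun y => Iff.rfl
  have hY1 : ∀ k ∈ H, mv k p = p → ∀ y ∈ Y, mv k y ∈ Y := by
    intro k hk hkp y hy
    rw [hYmem] at hy ⊢
    refine ⟨?_, fun r c hO => ?_⟩
    · have := h_mv D k y p
      rw [hkp] at this
      rw [this]; exact hy.1
    · have hO' : Ok D p (r • y) c := by
        refine ⟨hp, by rw [D.h_smul_left, hy.1, mul_zero], ?_⟩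
        have := hO.2.2
        rw [← mv_smul, h_mv] at this
        exact this
      have h1 := E_conj D hO' k
      rw [hkp, mv_smul] at h1
      rw [← h1]
      exact H.mul_mem (H.mul_mem hk (hy.2 r c hO')) (H.inv_mem hk)
  obtain ⟨z, hz0, hz⟩ := D.exists_skew
  have hzt : z + D.φ z = 0 := by rw [hz]; ring
  have hYstar : ∀ y ∈ Y, ∀ t, (∀ c, c + D.φ c = 0 → T D t c ∈ H) → D.h t t = 0 → D.h t p = 0 →
      D.h y t ≠ 0 → t ∈ Y := by
    intro y hy t ht htt htp hyt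
    have h1 : mv (T D t z) p = p := by
      rw [mv_T D htt hzt, h_swap0 D htp, mul_zero, zero_smul, add_zero]
    have h2 := hY1 _ (ht z hzt) h1 y hy
    rw [mv_T D htt hzt] at h2
    have h3 : (z * D.h y t) • t ∈ Y := by
      have := Y.sub_mem h2 hy
      rwa [add_sub_cancel_left] at this
    have h4 := Y.smul_mem (z * D.h y t)⁻¹ h3
    rwa [smul_smul, inv_mul_cancel₀ (mul_ne_zero hz0 hyt), one_smul] at h4
  have hvpp : D.h (mv v p) p = 0 := by
    have := hγ0 1 le_rfl (by omega)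
    rwa [pow_one] at this
  have hvpvp : D.h (mv v p) (mv v p) = 0 := by rw [h_mv]; exact hp
  have hσ' : ∀ (i : ℤ) (r : F), E D (P i) (r • P (i + 1)) 0 ∈ H := by
    intro i r
    have hO : Ok D p (r • mv v p) 0 := Ok_line D hp hvpvp hvpp r
    have h1 : v ^ i * E D p (r • mv v p) 0 * (v ^ i)⁻¹ = E D (P i) (r • P (i + 1)) 0 := by
      rw [E_conj D hO, mv_smul, ← hP i, ← hP1, hPadd]
    rw [← h1]
    exact H.mul_mem (H.mul_mem (H.zpow_mem hv i) (hσ r)) (H.inv_mem (H.zpow_mem hv i))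
  have hpY : p ∈ Y := by
    rw [hYmem]
    refine ⟨hp, fun r c hO => ?_⟩
    have hc : c + D.φ c = 0 := by
      have := hO.2.2
      rw [D.h_smul_left, D.h_smul_right, hp, mul_zero, mul_zero, add_zero] at this
      exact this
    have hc' : (c + r - D.φ r) + D.φ (c + r - D.φ r) = 0 := by
      rw [map_sub, map_add, D.inv]; linear_combination hc
    have h1 := E_shift D (Ok_T D hp hc') r
    rw [zero_add] at h1
    have h2 : c + r - D.φ r - r + D.φ r = c := by ring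
    rw [h2] at h1
    rw [h1]
    exact hX _ hc'
  have hP1Y : P 1 ∈ Y := by
    rw [hYmem]
    have h10 : D.h (P 1) p = 0 := by rw [← hγ]; exact hγz 1 (by omega) (by omega)
    refine ⟨h10, fun r c hO => ?_⟩
    have hO0 : Ok D p (r • P 1) 0 := Ok_line D hp (hPiso 1) h10 r
    refine mem_change D H hX hO0 hO ?_
    rw [hP1]; exact hσ r
  have hstepA : ∀ k : ℤ, 1 ≤ k → k < m → P k ∈ Y → P (k - m + 1) ∈ Y := by
    intro k hk1 hk2 hkY
    have hO : Ok D (P (k - m)) ((1 : F) • P (k - m + 1)) 0 :=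
      Ok_line D (hPiso _) (hPiso _) (by rw [hPP]; exact hγz _ (by omega) (by omega)) 1
    have hs := hσ' (k - m) 1
    have hsp : mv (E D (P (k - m)) ((1 : F) • P (k - m + 1)) 0) p = p := by
      rw [mv_E D hO, one_smul, ← hP0, hPP, hPP, hγz _ (by omega) (by omega),
        hγz _ (by omega) (by omega)]
      simp
    have h2 := hY1 _ hs hsp _ hkY
    rw [mv_E D hO, one_smul, hPP, hPP] at h2
    have e1 : k - (k - m) = m := by ring
    have e2 : γ (k - (k - m + 1)) = 0 := hγz _ (by omega) (by omega)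
    rw [e1, e2] at h2
    simp only [zero_smul, sub_zero, zero_mul, add_zero] at h2
    have h3 : γ m • P (k - m + 1) ∈ Y := by
      have := Y.sub_mem h2 hkY
      rwa [add_sub_cancel_left] at this
    have h4 := Y.smul_mem (γ m)⁻¹ h3
    rwa [smul_smul, inv_mul_cancel₀ hγm', one_smul] at h4
  have hstepB : ∀ k : ℤ, 1 ≤ k → k + 1 < m → P (k - m + 1) ∈ Y → P (k + 1) ∈ Y := by
    intro k hk1 hk2 hY'
    refine hYstar _ hY' (P (k + 1)) (hWP _) (hPiso _) ?_ ?_
    · rw [← hγ]; exact hγz _ (by omega) (by omega)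
    · rw [hPP]
      have e : k - m + 1 - (k + 1) = -(m : ℤ) := by ring
      rw [e]; exact hγm''
  have step3 : ∀ k : ℕ, 1 ≤ k → k < m → P (k : ℤ) ∈ Y := by
    intro k hk
    induction k, hk using Nat.le_induction with
    | base => intro _; exact hP1Y
    | succ k hk ih =>
      intro hkm
      have h1 := ih (by omega)
      have h2 := hstepA k (by exact_mod_cast hk) (by omega) h1
      have h3 := hstepB k (by exact_mod_cast hk) (by omega) h2
      have e : ((k + 1 : ℕ) : ℤ) = (k : ℤ) + 1 := by push_cast; ring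
      rw [e]; exact h3
  have hPY : ∀ j : ℤ, -(m : ℤ) < j → j < m → P j ∈ Y := by
    intro j hj1 hj2
    rcases lt_trichotomy j 0 with h | h | h
    · by_cases h1 : j = 1 - m
      · rw [h1]
        refine hYstar _ hP1Y (P (1 - m)) (hWP _) (hPiso _) ?_ ?_
        · rw [← hγ]; exact hγz _ (by omega) (by omega)
        · rw [hPP]
          have e : (1 : ℤ) - (1 - m) = m := by ring
          rw [e]; exact hγm'
      · have h2 := step3 (j + m - 1).toNat (by omega) (by omega)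
        have h3 := hstepA ((j + m - 1).toNat : ℤ) (by omega) (by omega) h2
        have e : (((j + m - 1).toNat : ℕ) : ℤ) - m + 1 = j := by
          rw [Int.toNat_of_nonneg (by omega)]; ring
        rwa [e] at h3
    · rw [h, hP0]; exact hpY
    · have h1 := step3 j.toNat (by omega) (by omega)
      rwa [Int.toNat_of_nonneg (by omega)] at h1
  -- the last direction
  obtain ⟨lam, hlam⟩ : ∃ lam, lam = γ (m + 1) / γ m := ⟨_, rfl⟩
  obtain ⟨t, ht⟩ : ∃ t, t = P (m + 1) - lam • P m := ⟨_, rfl⟩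
  have htp : D.h t p = 0 := by
    rw [ht, D.h_sub_left, D.h_smul_left, ← hγ, ← hγ, hlam, div_mul_cancel₀ _ hγm', sub_self]
  obtain ⟨a, ha⟩ : ∃ a, a = D.φ (lam / γ m) := ⟨_, rfl⟩
  have hP1mY := hPY (1 - m) (by omega) (by omega)
  have hOa : Ok D p (a • P (1 - m)) 0 :=
    Ok_line D hp (hPiso _) (by rw [← hγ]; exact hγz _ (by omega) (by omega)) a
  have hga : E D p (a • P (1 - m)) 0 ∈ H := ((hYmem _).1 hP1mY).2 a 0 hOa
  have hOg : Ok D (P m) (a • P 1) 0 :=
    Ok_line D (hPiso _) (hPiso _) (by rw [hPP]; exact hγz _ (by omega) (by omega)) a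
  have hg : E D (P m) (a • P 1) 0 ∈ H := by
    have h1 := E_conj D hOa (v ^ (m : ℤ))
    rw [mv_smul, hPadd, ← hP] at h1
    have e : (m : ℤ) + (1 - m) = 1 := by ring
    rw [e] at h1
    rw [← h1]
    exact H.mul_mem (H.mul_mem (H.zpow_mem hv _) hga) (H.inv_mem (H.zpow_mem hv _))
  have htg : mv (E D (P m) (a • P 1) 0) (P (m + 1)) = t := by
    rw [mv_E D hOg, D.h_smul_right, hPP, hPP, ha, D.inv, ht]
    have e1 : (m : ℤ) + 1 - m = 1 := by ring
    have e2 : (m : ℤ) + 1 - 1 = m := by ring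
    rw [e1, e2, hγz 1 (by omega) (by omega), div_mul_cancel₀ _ hγm']
    module
  have htt : D.h t t = 0 := by rw [← htg, h_mv]; exact hPiso _
  have hTt : ∀ c, c + D.φ c = 0 → T D t c ∈ H := by
    intro c hc
    rw [← htg, ← T_conj D (hPiso _) hc]
    exact H.mul_mem (H.mul_mem hg (hWP _ c hc)) (H.inv_mem hg)
  have htY : t ∈ Y := by
    refine hYstar _ hP1Y t hTt htt htp ?_
    rw [ht, D.h_sub_right, D.h_smul_right, hPP, hPP]
    have e1 : (1 : ℤ) - (m + 1) = -(m : ℤ) := by ring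
    have e2 : γ ((1 : ℤ) - m) = 0 := hγz _ (by omega) (by omega)
    rw [e1, e2, mul_zero, sub_zero]; exact hγm''
  have hspan : Submodule.span F (((fun j : ℤ => P j) '' {j | -(m : ℤ) < j ∧ j < m}) ∪
      {P m, P (m + 1)}) = ⊤ := by
    apply span_top_of_perp D
    intro y hy
    have h1 : ∀ j : ℤ, -(m : ℤ) < j → j ≤ m + 1 → D.h (P j) y = 0 := by
      intro j hj1 hj2
      by_cases hjm : j < m
      · exact hy _ (Or.inl ⟨j, ⟨hj1, hjm⟩, rfl⟩)
      · by_cases hjm' : j = m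
        · rw [hjm']; exact hy _ (Or.inr (by simp))
        · have : j = m + 1 := by omega
          rw [this]; exact hy _ (Or.inr (by simp))
    have h2 : mv (v ^ ((m : ℤ) - 1)) y = 0 := by
      apply hcyc
      intro k hk
      have e : mv (v ^ ((m : ℤ) - 1))⁻¹ (mv (v ^ k) p) = P ((k : ℤ) - (m - 1)) := by
        rw [hP, ← zpow_natCast v k, ← _root_.zpow_neg, ← mv_mul, ← _root_.zpow_add]
        congr 2
        ring
      rw [h_mv_right, e]
      exact h1 _ (by omega) (by omega)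
    exact mv_eq_zero h2
  have hYall : ∀ d, D.h d p = 0 → d ∈ Y := by
    intro d hd
    have hmem : d ∈ Submodule.span F (((fun j : ℤ => P j) '' {j | -(m : ℤ) < j ∧ j < m}) ∪
        {P m, P (m + 1)}) := by
      rw [hspan]; exact Submodule.mem_top
    rw [Submodule.span_union, Submodule.mem_sup] at hmem
    obtain ⟨y₀, hy₀, z', hz', rfl⟩ := hmem
    rw [Submodule.mem_span_pair] at hz'
    obtain ⟨a', b', rfl⟩ := hz'
    have hy₀Y : y₀ ∈ Y := by
      refine Submodule.span_le.2 ?_ hy₀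
      rintro _ ⟨j, ⟨hj1, hj2⟩, rfl⟩
      exact hPY j hj1 hj2
    have hy₀p : D.h y₀ p = 0 := ((hYmem _).1 hy₀Y).1
    have hcoef : a' + b' * lam = 0 := by
      simp only [D.h_add_left, D.h_smul_left, hy₀p, zero_add] at hd
      rw [← hγ, ← hγ] at hd
      have h5 : (a' + b' * lam) * γ m = 0 := by
        rw [hlam]
        field_simp
        linear_combination hd
      rcases mul_eq_zero.1 h5 with h | h
      · exact h
      · exact absurd h hγm'
    have h6 : y₀ + (a' • P m + b' • P (m + 1)) = y₀ + b' • t := by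
      rw [ht]
      have h7 : a' = -(b' * lam) := by linear_combination hcoef
      rw [h7]; module
    rw [h6]
    exact Y.add_mem hy₀Y (Y.smul_mem _ htY)
  have hQp : ∀ d c, Ok D p d c → E D p d c ∈ H := by
    intro d c hO
    have h1 := ((hYmem _).1 (hYall d hO.2.1)).2 1 c (by rw [one_smul]; exact hO)
    rwa [one_smul] at h1
  have hQm : ∀ d c, Ok D (P m) d c → E D (P m) d c ∈ H := by
    intro d c hO
    have hO' := Ok_conj D hO (v ^ (m : ℤ))⁻¹
    have e1 : mv (v ^ (m : ℤ))⁻¹ (P m) = p := by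
      rw [hP, mv_inv_mv]
    rw [e1] at hO'
    have h1 := E_conj D hO' (v ^ (m : ℤ))
    rw [mv_mv_inv, ← hP] at h1
    rw [← h1]
    exact H.mul_mem (H.mul_mem (H.zpow_mem hv _) (hQp _ _ hO')) (H.inv_mem (H.zpow_mem hv _))
  exact lemG D hF (by omega) (by omega) H hp (hPiso m) (by rw [← hγ]; exact hγm') hQp hQm

/-- **Scalars.** From one transvection at `p`, the shift `v` and a unipotent `u₁` fixing `p`
with `u₁ (v p) = v p + p`, `(u₁ - 1)^k (v⁻¹ p) = x • v p + x' • p`: all transvections at `p`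
and the full root group on the line `⟨p, v p⟩`. -/
theorem scal (H : Subgroup ↥(Cfsg.SU n F q)) {v u₁ : ↥(Cfsg.SU n F q)} (hv : v ∈ H)
    (hu : u₁ ∈ H) {p : Fin n → F} (hp : D.h p p = 0) (h10 : D.h (mv v p) p = 0)
    (hu0 : mv u₁ p = p) (hu1 : mv u₁ (mv v p) = mv v p + p)
    (k : ℕ) {x x' : F}
    (hΔ : (fun d => mv u₁ d - d)^[k] (mv v⁻¹ p) = x • mv v p + x' • p)
    (hgen : ∀ y : F, D.φ y = y → y ≠ 0 → ∃ j : ℕ, y = (x + D.φ x) ^ j)
    (hx : D.φ x ≠ x) {t₀ : F} (ht₀ : t₀ + D.φ t₀ = 0) (ht₀0 : t₀ ≠ 0) (hseed : T D p t₀ ∈ H) :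
    (∀ c, c + D.φ c = 0 → T D p c ∈ H) ∧ (∀ a : F, E D p (a • mv v p) 0 ∈ H) := by
  obtain ⟨P1, hP1⟩ : ∃ P1, P1 = mv v p := ⟨_, rfl⟩
  obtain ⟨Pm, hPm⟩ : ∃ Pm, Pm = mv v⁻¹ p := ⟨_, rfl⟩
  rw [← hP1] at h10 hu1 hΔ ⊢
  rw [← hPm] at hΔ
  have h11 : D.h P1 P1 = 0 := by rw [hP1, h_mv]; exact hp
  have h01 : D.h p P1 = 0 := h_swap0 D h10
  have hOl : ∀ a : F, Ok D p (a • P1) 0 := Ok_line D hp h11 h10
  have hm0 : D.h Pm p = 0 := by
    have := h_mv D v (mv v⁻¹ p) p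
    rw [mv_mv_inv] at this
    rw [hPm, ← this, ← hP1]; exact h01
  have hmm : D.h Pm Pm = 0 := by rw [hPm, h_mv]; exact hp
  have S1 : ∀ c, c + D.φ c = 0 → T D p c ∈ H → E D p (c • P1) 0 ∈ H := by
    intro c hc hT
    have h1 : T D P1 c ∈ H := by
      rw [hP1, ← T_conj D hp hc]
      exact H.mul_mem (H.mul_mem hv hT) (H.inv_mem hv)
    have h2 : T D (P1 + p) c ∈ H := by
      rw [← hu1, ← T_conj D h11 hc]
      exact H.mul_mem (H.mul_mem hu h1) (H.inv_mem hu)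
    rw [T_split D hp h11 h10 hc] at h2
    have h3 : E D p (c • P1) c ∈ H := by
      have := H.mul_mem (H.inv_mem h1) h2
      rwa [inv_mul_cancel_left] at this
    have hO : Ok D p (c • P1) c := by
      refine ⟨hp, by rw [D.h_smul_left, h10, mul_zero], ?_⟩
      rw [D.h_smul_left, D.h_smul_right, h11, mul_zero, mul_zero, add_zero, hc]
    have h4 := E_change D (hOl c) hO
    rw [sub_zero] at h4
    have h5 : E D p (c • P1) 0 = E D p (c • P1) c * (T D p c)⁻¹ := by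
      rw [h4, mul_inv_cancel_right]
    rw [h5]
    exact H.mul_mem h3 (H.inv_mem hT)
  have hEp : ∀ s : F, E D p (s • p) 0 = T D p (s - D.φ s) := by
    intro s
    have hc' : (s - D.φ s) + D.φ (s - D.φ s) = 0 := by rw [map_sub, D.inv]; ring
    have h1 := E_shift D (Ok_T D hp hc') s
    rw [zero_add] at h1
    have h2 : s - D.φ s - s + D.φ s = 0 := by ring
    rw [h2] at h1
    exact h1
  have S2 : ∀ a : F, E D p (a • P1) 0 ∈ H → T D p (a - D.φ a) ∈ H := by
    intro a ha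
    obtain ⟨h1, h2⟩ := F3' D H (hOl a) ha hu hu0
    have e1 : mv u₁ (a • P1) - a • P1 = a • p := by
      rw [mv_smul, hu1]; module
    have e2 : (0 : F) + D.φ 0 - D.h (-(a • P1)) (mv u₁ (a • P1)) = 0 := by
      rw [mv_smul, hu1]
      simp only [D.h_neg_left, D.h_smul_left, D.h_smul_right, D.h_add_right, h11, h10, map_zero]
      ring
    rw [e1, e2, hEp] at h2
    exact h2
  have S3 : ∀ a : F, E D p (a • P1) 0 ∈ H → E D p ((-D.φ a) • Pm) 0 ∈ H := by
    intro a ha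
    rw [E_symm D hp h11 h10] at ha
    have hO : Ok D P1 ((-D.φ a) • p) 0 := Ok_line D h11 hp h01 _
    have h1 := E_conj D hO v⁻¹
    rw [mv_smul, hP1, mv_inv_mv, ← hPm, inv_inv] at h1
    rw [← h1]
    exact H.mul_mem (H.mul_mem (H.inv_mem hv) (by rw [← hP1]; exact ha)) hv
  have hiter : ∀ (j : ℕ) (d : Fin n → F) (c : F), Ok D p d c → E D p d c ∈ H →
      ∃ c', Ok D p ((fun d => mv u₁ d - d)^[j] d) c' ∧
        E D p ((fun d => mv u₁ d - d)^[j] d) c' ∈ H := by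
    intro j
    induction j with
    | zero => intro d c hO hE; exact ⟨c, hO, hE⟩
    | succ j ih =>
      intro d c hO hE
      obtain ⟨c', hO', hE'⟩ := ih d c hO hE
      rw [Function.iterate_succ_apply']
      exact ⟨_, F3' D H hO' hE' hu hu0⟩
  have hlin : ∀ (j : ℕ) (s : F) (d : Fin n → F),
      (fun d => mv u₁ d - d)^[j] (s • d) = s • (fun d => mv u₁ d - d)^[j] d := by
    intro j
    induction j with
    | zero => intro s d; rfl
    | succ j ih =>
      intro s d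
      rw [Function.iterate_succ_apply', Function.iterate_succ_apply', ih, mv_smul, smul_sub]
  have S6 : ∀ a' : F, E D p (a' • Pm) 0 ∈ H → ∃ c', Ok D p ((a' * x) • P1 + (a' * x') • p) c' ∧
      E D p ((a' * x) • P1 + (a' * x') • p) c' ∈ H := by
    intro a' ha'
    have hO : Ok D p (a' • Pm) 0 := Ok_line D hp hmm hm0 a'
    obtain ⟨c', hO', hE'⟩ := hiter k _ _ hO ha'
    rw [hlin, hΔ, smul_add, smul_smul, smul_smul] at hO' hE'
    exact ⟨c', hO', hE'⟩
  have S7 : ∀ a' : F, E D p (a' • Pm) 0 ∈ H → T D p (a' * x - D.φ (a' * x)) ∈ H := by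
    intro a' ha'
    obtain ⟨c', hO', hE'⟩ := S6 a' ha'
    obtain ⟨h1, h2⟩ := F3' D H hO' hE' hu hu0
    have e1 : mv u₁ ((a' * x) • P1 + (a' * x') • p) - ((a' * x) • P1 + (a' * x') • p) =
        (a' * x) • p := by
      rw [mv_add, mv_smul, mv_smul, hu1, hu0]; module
    have e2 : c' + D.φ c' - D.h (-((a' * x) • P1 + (a' * x') • p))
        (mv u₁ ((a' * x) • P1 + (a' * x') • p)) = 0 := by
      have h3 := hO'.2.2
      rw [mv_add, mv_smul, mv_smul, hu1, hu0]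
      simp only [D.h_neg_left, D.h_add_left, D.h_smul_left, D.h_smul_right, D.h_add_right, h11,
        h10, h01, hp, mul_zero, add_zero, zero_add, neg_zero, sub_zero] at h3 ⊢
      linear_combination h3
    rw [e1, e2, hEp] at h2
    exact h2
  have S8 : ∀ c, c + D.φ c = 0 → T D p c ∈ H → T D p ((x + D.φ x) * c) ∈ H := by
    intro c hc hT
    have hφ : D.φ c = -c := by linear_combination hc
    have h1 := S3 c (S1 c hc hT)
    have h2 := S7 _ h1
    have e : -D.φ c * x - D.φ (-D.φ c * x) = (x + D.φ x) * c := by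
      rw [map_mul, map_neg, D.inv, hφ]; ring
    rwa [e] at h2
  have hpow : ∀ j : ℕ, T D p ((x + D.φ x) ^ j * t₀) ∈ H := by
    intro j
    induction j with
    | zero => rw [pow_zero, one_mul]; exact hseed
    | succ j ih =>
      have hfix : D.φ ((x + D.φ x) ^ j) = (x + D.φ x) ^ j := by rw [map_pow, D.tr_fixed]
      have := S8 _ (tz_mul D ht₀ hfix) ih
      rw [pow_succ', mul_assoc]
      exact this
  have hX : ∀ c, c + D.φ c = 0 → T D p c ∈ H := by
    intro c hc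
    by_cases hc0 : c = 0
    · have : T D p c = 1 := by rw [hc0]; exact E_zero D hp
      rw [this]; exact H.one_mem
    · have hφc : D.φ c = -c := by linear_combination hc
      have hφt : D.φ t₀ = -t₀ := by linear_combination ht₀
      have hfix : D.φ (c / t₀) = c / t₀ := by rw [map_div₀, hφc, hφt, neg_div_neg_eq]
      obtain ⟨j, hj⟩ := hgen (c / t₀) hfix (div_ne_zero hc0 ht₀0)
      have : c = (x + D.φ x) ^ j * t₀ := by rw [← hj, div_mul_cancel₀ _ ht₀0]
      rw [this]; exact hpow j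
  refine ⟨hX, ?_⟩
  have hA0 : ∀ c, c + D.φ c = 0 → E D p (c • P1) 0 ∈ H := fun c hc => S1 c hc (hX c hc)
  have hA1 : ∀ a : F, E D p (a • P1) 0 ∈ H → E D p ((-D.φ a * x) • P1) 0 ∈ H := by
    intro a ha
    obtain ⟨c', hO', hE'⟩ := S6 _ (S3 a ha)
    have hO1 := hOl (-D.φ a * x)
    have hO2 : Ok D p ((-D.φ a * x') • p) 0 := by
      refine ⟨hp, by rw [D.h_smul_left, hp, mul_zero], ?_⟩
      rw [D.h_smul_left, D.h_smul_right, hp]; simp
    have h3 := E_mul D hO1 hO2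
    have hO3 := Ok_mul D hO1 hO2
    have e : (0 : F) + 0 - D.h ((-D.φ a * x') • p) ((-D.φ a * x) • P1) = 0 := by
      rw [D.h_smul_left, D.h_smul_right, h01]; ring
    rw [e] at h3 hO3
    have h4 : E D p ((-D.φ a * x) • P1 + (-D.φ a * x') • p) 0 ∈ H :=
      mem_change D H hX hO' hO3 hE'
    have h5 : E D p ((-D.φ a * x) • P1) 0 =
        E D p ((-D.φ a * x) • P1 + (-D.φ a * x') • p) 0 *
          (E D p ((-D.φ a * x') • p) 0)⁻¹ := by
      rw [← h3, mul_inv_cancel_right]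
    rw [h5]
    refine H.mul_mem h4 (H.inv_mem ?_)
    rw [hEp]
    exact hX _ (by rw [map_sub, D.inv]; ring)
  have hA2 : ∀ a b : F, E D p (a • P1) 0 ∈ H → E D p (b • P1) 0 ∈ H →
      E D p ((a + b) • P1) 0 ∈ H := by
    intro a b ha hb
    have h3 := E_mul D (hOl a) (hOl b)
    have e : (0 : F) + 0 - D.h (b • P1) (a • P1) = 0 := by
      rw [D.h_smul_left, D.h_smul_right, h11]; ring
    rw [e, ← add_smul] at h3
    rw [← h3]
    exact H.mul_mem ha hb
  intro a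
  have hxx : x - D.φ x ≠ 0 := fun h0 => hx (sub_eq_zero.1 h0).symm
  obtain ⟨c₂, hc₂⟩ : ∃ c₂, c₂ = (a + D.φ a) / (x - D.φ x) := ⟨_, rfl⟩
  obtain ⟨c₁, hc₁⟩ : ∃ c₁, c₁ = a - x * c₂ := ⟨_, rfl⟩
  have hc₂x : c₂ * (x - D.φ x) = a + D.φ a := by rw [hc₂, div_mul_cancel₀ _ hxx]
  have hc₂t : c₂ + D.φ c₂ = 0 := by
    have h5 := congrArg D.φ hc₂x
    rw [map_mul, map_sub, map_add, D.inv, D.inv] at h5
    have h6 : (c₂ + D.φ c₂) * (x - D.φ x) = 0 := by linear_combination hc₂x - h5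
    rcases mul_eq_zero.1 h6 with h | h
    · exact h
    · exact absurd h hxx
  have hφc₂ : D.φ c₂ = -c₂ := by linear_combination hc₂t
  have hc₁t : c₁ + D.φ c₁ = 0 := by
    rw [hc₁, map_sub, map_mul, hφc₂]
    linear_combination -hc₂x
  have h1 := hA1 c₂ (hA0 c₂ hc₂t)
  have e1 : -D.φ c₂ * x = x * c₂ := by rw [hφc₂]; ring
  rw [e1] at h1
  have h2 := hA2 _ _ (hA0 c₁ hc₁t) h1
  have e2 : c₁ + x * c₂ = a := by rw [hc₁]; ring
  rwa [e2] at h2

/-- the seed: conjugating `v⁻¹` by a root element at the bottom of its chain -/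
theorem seed {v : ↥(Cfsg.SU n F q)} {b₁ b₂ : Fin n → F} (h11 : D.h b₁ b₁ = 0)
    (h22 : D.h b₂ b₂ = 0) (h21 : D.h b₂ b₁ = 0) (hb1 : mv v⁻¹ b₁ = b₁)
    (hb2 : mv v⁻¹ b₂ = b₂ + b₁) (s : F) :
    E D b₁ (s • b₂) 0 * v⁻¹ * (E D b₁ (s • b₂) 0)⁻¹ = T D b₁ (D.φ s - s) * v⁻¹ := by
  have h12 : D.h b₁ b₂ = 0 := h_swap0 D h21
  have hO : Ok D b₁ (s • b₂) 0 := Ok_line D h11 h22 h21 s
  have ht : (D.φ s - s) + D.φ (D.φ s - s) = 0 := by rw [map_sub, D.inv]; ring
  rw [mul_inv_eq_iff_eq_mul]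
  apply su_ext
  intro x
  have e1 : D.h (mv v⁻¹ x) b₁ = D.h x b₁ := by
    have := h_mv D v⁻¹ x b₁
    rwa [hb1] at this
  have e2 : D.h (mv v⁻¹ x) b₂ = D.h x b₂ - D.h x b₁ := by
    have := h_mv D v⁻¹ x b₂
    rw [hb2, D.h_add_right, e1] at this
    linear_combination this
  rw [mv_mul, mv_mul, mv_mul, mv_E D hO, mv_T D h11 ht, mv_E D hO]
  simp only [mv_add, mv_sub, mv_smul, hb1, hb2, D.h_add_left, D.h_sub_left, D.h_smul_left,
    D.h_smul_right, D.h_add_right, e1, e2, h11, h22, h21, h12]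
  module

theorem conj_mv (g a : ↥(Cfsg.SU n F q)) (y : Fin n → F) :
    mv (g * a * g⁻¹) (mv g y) = mv g (mv a y) := by
  rw [mv_mul, mv_mul, mv_inv_mv]

/-- **Abstract main theorem.** -/
theorem mainU [Fintype F] (hF : Fintype.card F = q ^ 2) (m : ℕ) (hm : 2 ≤ m)
    (hn : n = 2 * m + 1) {v : ↥(Cfsg.SU n F q)} {p : Fin n → F} (hp : D.h p p = 0)
    (hγ0 : ∀ k : ℕ, 1 ≤ k → k < m → D.h (mv (v ^ k) p) p = 0)
    (hγm : D.h (mv (v ^ m) p) p ≠ 0)
    (hcyc : ∀ y, (∀ k : ℕ, k ≤ 2 * m → D.h (mv (v ^ k) p) y = 0) → y = 0)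
    {b₁ b₂ : Fin n → F} (h11 : D.h b₁ b₁ = 0) (h22 : D.h b₂ b₂ = 0) (h21 : D.h b₂ b₁ = 0)
    (hb1 : mv v⁻¹ b₁ = b₁) (hb2 : mv v⁻¹ b₂ = b₂ + b₁)
    {g₁ : ↥(Cfsg.SU n F q)} {lam : F} (hlam : lam ≠ 0) (hg1 : mv g₁ b₁ = lam • p)
    (hg2 : mv g₁ b₂ = lam • mv v p)
    {qv : Fin n → F} (hgq : mv g₁ qv = mv v⁻¹ p) (k : ℕ) {x₀ x₀' : F}
    (hΔ : (fun d => mv v⁻¹ d - d)^[k] qv = x₀ • b₂ + x₀' • b₁)
    (hgen : ∀ y : F, D.φ y = y → y ≠ 0 → ∃ j : ℕ, y = (x₀ * lam + D.φ (x₀ * lam)) ^ j)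
    (hx : D.φ (x₀ * lam) ≠ x₀ * lam) :
    ∃ g₂ : ↥(Cfsg.SU n F q),
      Subgroup.closure ({v, g₁ * v * g₁⁻¹, g₂ * v * g₂⁻¹} : Set ↥(Cfsg.SU n F q)) = ⊤ := by
  obtain ⟨s, hs⟩ := D.ne
  refine ⟨g₁ * E D b₁ (s • b₂) 0, ?_⟩
  obtain ⟨H, hH⟩ : ∃ H, H = Subgroup.closure ({v, g₁ * v * g₁⁻¹,
    g₁ * E D b₁ (s • b₂) 0 * v * (g₁ * E D b₁ (s • b₂) 0)⁻¹} : Set ↥(Cfsg.SU n F q)) :=
    ⟨_, rfl⟩
  rw [← hH]
  have hvH : v ∈ H := by rw [hH]; exact Subgroup.subset_closure (by simp)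
  have h1H : g₁ * v * g₁⁻¹ ∈ H := by rw [hH]; exact Subgroup.subset_closure (by simp)
  have h2H : g₁ * E D b₁ (s • b₂) 0 * v * (g₁ * E D b₁ (s • b₂) 0)⁻¹ ∈ H := by
    rw [hH]; exact Subgroup.subset_closure (by simp)
  obtain ⟨u₁, hu₁⟩ : ∃ u₁, u₁ = g₁ * v⁻¹ * g₁⁻¹ := ⟨_, rfl⟩
  have hu₁H : u₁ ∈ H := by
    have : u₁ = (g₁ * v * g₁⁻¹)⁻¹ := by rw [hu₁]; group
    rw [this]; exact H.inv_mem h1H
  have ht : (D.φ s - s) + D.φ (D.φ s - s) = 0 := by rw [map_sub, D.inv]; ring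
  have ht0 : D.φ s - s ≠ 0 := sub_ne_zero.2 hs
  have hseedH : T D p (lam * D.φ lam * (D.φ s - s)) ∈ H := by
    have e : (g₁ * E D b₁ (s • b₂) 0 * v * (g₁ * E D b₁ (s • b₂) 0)⁻¹)⁻¹ =
        T D (mv g₁ b₁) (D.φ s - s) * u₁ := by
      rw [← T_conj D h11 ht]
      have e' : g₁ * T D b₁ (D.φ s - s) * g₁⁻¹ * u₁ =
          g₁ * (T D b₁ (D.φ s - s) * v⁻¹) * g₁⁻¹ := by rw [hu₁]; group
      rw [e', ← seed D h11 h22 h21 hb1 hb2 s]; group
    have h3 := H.inv_mem h2H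
    rw [e, hg1, T_smul D hp ht] at h3
    have := H.mul_mem h3 (H.inv_mem hu₁H)
    rwa [mul_inv_cancel_right] at this
  have hu0 : mv u₁ p = p := by
    have h4 : mv u₁ (lam • p) = lam • p := by
      rw [hu₁, ← hg1, conj_mv, hb1]
    rw [mv_smul] at h4
    exact smul_right_injective _ hlam h4
  have hu1 : mv u₁ (mv v p) = mv v p + p := by
    have h4 : mv u₁ (lam • mv v p) = lam • (mv v p + p) := by
      rw [hu₁, ← hg2, conj_mv, hb2, mv_add, hg1, hg2, smul_add]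
    rw [mv_smul] at h4
    exact smul_right_injective _ hlam h4
  have hconj : ∀ (j : ℕ) (y : Fin n → F), (fun d => mv u₁ d - d)^[j] (mv g₁ y) =
      mv g₁ ((fun d => mv v⁻¹ d - d)^[j] y) := by
    intro j
    induction j with
    | zero => intro y; rfl
    | succ j ih =>
      intro y
      rw [Function.iterate_succ_apply', Function.iterate_succ_apply', ih, hu₁, conj_mv, mv_sub]
  have hΔ' : (fun d => mv u₁ d - d)^[k] (mv v⁻¹ p) = (x₀ * lam) • mv v p + (x₀' * lam) • p := by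
    rw [← hgq, hconj, hΔ, mv_add, mv_smul, mv_smul, hg1, hg2, smul_smul, smul_smul]
  have h10 : D.h (mv v p) p = 0 := by
    have := hγ0 1 le_rfl (by omega)
    rwa [pow_one] at this
  have hN : lam * D.φ lam ≠ 0 := mul_ne_zero hlam (phi_ne D hlam)
  obtain ⟨hX, hσ⟩ := scal D H hvH hu₁H hp h10 hu0 hu1 k hΔ' hgen hx (tz_nm D ht lam)
    (mul_ne_zero hN ht0) hseedH
  exact thmU D hF m hm hn H hvH hp hγ0 hγm hcyc hX hσ

end Cfsg.Agent.Lib.Helper46.SUGenA
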