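import Mathlib
import Cfsg.Agent.S0751
import Cfsg.Agent.S0837
import Cfsg.Agent.Lib.Helper40.HermAdj
import Cfsg.Agent.Lib.Helper40.SURegUnip
import Cfsg.Agent.Lib.Helper43.SUBase

set_option autoImplicit false
set_option linter.unusedSimpArgs false
set_option linter.unusedVariables false

/-!
# Witt extension inside `SU_n(q)` for three vectors

`witt3`: three vectors with dual vectors, vanishing at one coordinate `l`, can be moved by an
element of `SU_n(q)` onto any independent triple with the same Gram matrix (Witt's theorem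
`S0751` plus a determinant correction on the coordinate `l`).
-/

namespace Cfsg.Agent.Lib.Helper46.SUWitt

open Matrix Cfsg.Agent.Lib.Helper43.SUBase

variable {F : Type*} [Field F] [Fintype F] {q n : ℕ} (D : QD F q)

theorem witt3 (a c d : Fin 3 → (Fin n → F))
    (hdual : ∀ i j, D.h (a j) (d i) = if i = j then 1 else 0)
    (hG : ∀ i j, D.h (c i) (c j) = D.h (a i) (a j))
    (hind : ∀ t : Fin 3 → F, ∑ i, t i • c i = 0 → t = 0)
    (l : Fin n) (hl : ∀ i, a i l = 0) :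
    ∃ g : ↥(Cfsg.SU n F q), ∀ i, mv g (a i) = c i := by
  classical
  have hσne : D.φ ≠ RingHom.id F := by
    obtain ⟨x, hx⟩ := D.ne
    intro h0
    apply hx
    rw [h0]; rfl
  have hS := Cfsg.Agent.S0837.Bh_symm D.φ D.inv n
  have hnd := Cfsg.Agent.S0837.Bh_nondeg D.φ n
  have hB : ∀ x y : Fin n → F, Cfsg.Agent.S0837.Bh D.φ n x y = D.h y x := fun x y =>
    Cfsg.Agent.S0837.Bh_herm D.φ D.hφ n x y
  let f : (Fin n → F) →ₗ[F] (Fin n → F) := ∑ i, (D.hl (d i)).smulRight (c i)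
  have hf : ∀ t : Fin 3 → F, f (∑ j, t j • a j) = ∑ i, t i • c i := by
    intro t
    simp only [f, LinearMap.sum_apply, LinearMap.smulRight_apply, map_sum, map_smul, D.hl_apply,
      hdual, smul_eq_mul, mul_ite, mul_one, mul_zero, Finset.sum_ite_eq, Finset.mem_univ,
      if_true]
    apply Finset.sum_congr rfl
    intro x _
    congr 1
    simp only [ite_smul, one_smul, zero_smul, Finset.sum_ite_eq', Finset.mem_univ, if_true]
  obtain ⟨X, hX⟩ : ∃ X : Submodule F (Fin n → F), X = Submodule.span F (Set.range a) :=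
    ⟨_, rfl⟩
  have hXmem : ∀ x ∈ X, ∃ t : Fin 3 → F, ∑ j, t j • a j = x := by
    intro x hx
    rw [hX] at hx
    exact (Submodule.mem_span_range_iff_exists_fun F).1 hx
  have hiso : ∀ x ∈ X, ∀ y ∈ X, Cfsg.Agent.S0837.Bh D.φ n (f x) (f y) =
      Cfsg.Agent.S0837.Bh D.φ n x y := by
    intro x hx y hy
    obtain ⟨t, rfl⟩ := hXmem x hx
    obtain ⟨t', rfl⟩ := hXmem y hy
    rw [hf, hf, hB, hB]
    simp only [Fin.sum_univ_three, D.h_add_left, D.h_add_right, D.h_smul_left, D.h_smul_right,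
      hG]
  have hinj : ∀ x ∈ X, f x = 0 → x = 0 := by
    intro x hx h0
    obtain ⟨t, rfl⟩ := hXmem x hx
    rw [hf] at h0
    rw [hind t h0]
    simp
  obtain ⟨g, hgB, hg⟩ := Cfsg.Agent.S0751.witt_aux D.φ hσne D.inv (Cfsg.Agent.S0837.Bh D.φ n)
    hS hnd _ X rfl f hiso hinj
  obtain ⟨G₀, hG₀⟩ : ∃ M : Matrix (Fin n) (Fin n) F, M = LinearMap.toMatrix' g.toLinearMap :=
    ⟨_, rfl⟩
  have hG₀v : ∀ x, G₀ *ᵥ x = g x := by
    intro x
    rw [hG₀, ← Matrix.toLin'_apply, Matrix.toLin'_toMatrix']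
    rfl
  have hpres : ∀ u v, D.h (G₀ *ᵥ u) (G₀ *ᵥ v) = D.h u v := by
    intro u v
    rw [hG₀v, hG₀v, ← hB, ← hB, hgB]
  have hga : ∀ i, G₀ *ᵥ a i = c i := by
    intro i
    have hmem : a i ∈ X := by rw [hX]; exact Submodule.subset_span ⟨i, rfl⟩
    rw [hG₀v, hg _ hmem]
    have := hf (fun j => if j = i then 1 else 0)
    simpa using this
  have hadj : Cfsg.Agent.Lib.Helper40.HermAdj.adj D.φ G₀ * G₀ = 1 :=
    (Cfsg.Agent.Lib.Helper40.HermAdj.preserves_iff D.φ D.hφ G₀).1 hpres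
  have hdet := Cfsg.Agent.Lib.Helper40.SURegUnip.norm_det D.φ G₀ hadj
  obtain ⟨δ, hδ⟩ : ∃ δ, δ = G₀.det := ⟨_, rfl⟩
  rw [← hδ] at hdet
  have hδ0 : δ ≠ 0 := by
    rintro h0
    rw [h0] at hdet
    simp at hdet
  obtain ⟨R, hR⟩ : ∃ R : Matrix (Fin n) (Fin n) F,
      R = Matrix.diagonal (fun i => if i = l then δ⁻¹ else 1) := ⟨_, rfl⟩
  have hRv : ∀ x : Fin n → F, R *ᵥ x = fun i => (if i = l then δ⁻¹ else 1) * x i := by
    intro x
    funext i
    rw [hR, Matrix.mulVec_diagonal]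
  have hRdet : R.det = δ⁻¹ := by
    rw [hR, Matrix.det_diagonal, Finset.prod_ite_eq' Finset.univ l (fun _ => δ⁻¹)]
    simp
  have hRpres : ∀ u v, D.h (R *ᵥ u) (R *ᵥ v) = D.h u v := by
    intro u v
    rw [D.h_eq, D.h_eq, hRv, hRv]
    apply Finset.sum_congr rfl
    intro i _
    by_cases hi : i = l
    · simp only [hi, if_true, map_mul, map_inv₀]
      have h1 : δ⁻¹ * (D.φ δ)⁻¹ = 1 := by
        rw [← mul_inv, mul_comm, hdet, inv_one]
      linear_combination (u l * D.φ (v l)) * h1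
    · simp [hi]
  refine ⟨mkSU D (G₀ * R) (by rw [Matrix.det_mul, hRdet, ← hδ, mul_inv_cancel₀ hδ0]) (by
      intro u v
      rw [← Matrix.mulVec_mulVec, ← Matrix.mulVec_mulVec, hpres, hRpres]), fun i => ?_⟩
  rw [mv_mkSU, ← Matrix.mulVec_mulVec]
  have h2 : R *ᵥ a i = a i := by
    rw [hRv]
    funext j
    by_cases hj : j = l
    · rw [hj, hl]; simp
    · simp [hj]
  rw [h2, hga]

end Cfsg.Agent.Lib.Helper46.SUWitt
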