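import Mathlib
import Cfsg.Agent.Lib.Helper46.SUGenA
import Cfsg.Agent.Lib.Helper46.SUWitt

set_option autoImplicit false
set_option linter.unusedSimpArgs false
set_option linter.unusedVariables false

/-!
# A regular unipotent element of `SU_{2m+1}(q)` on an explicit Witt frame

Frame `e i, f i (i < m), w` of the standard Hermitian space `F^(2m+1)`; the element
`v = X 0 ⋯ X (m-2) · E (e (m-1)) w c` is regular unipotent with cyclic vector `f 0`.
-/

namespace Cfsg.Agent.Lib.Helper46.SUModelU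

open Matrix Cfsg.Agent.Lib.Helper43.SUBase Cfsg.Agent.Lib.Helper43.SUElt
  Cfsg.Agent.Lib.Helper46.SUGenA

variable {F : Type*} [Field F] {q n : ℕ}

/-- standard basis vectors with natural indices -/
def eps (n : ℕ) (F : Type*) [Field F] (k : ℕ) : Fin n → F := fun j => if (j : ℕ) = k then 1 else 0

theorem eps_h (D : QD F q) {a : ℕ} (ha : a < n) (b : ℕ) :
    D.h (eps n F a) (eps n F b) = if a = b then 1 else 0 := by
  rw [D.h_eq, Finset.sum_eq_single (⟨a, ha⟩ : Fin n)]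
  · simp only [eps]
    by_cases hab : a = b <;> simp [hab]
  · intro j _ hj
    have : (j : ℕ) ≠ a := fun h => hj (Fin.ext h)
    simp [eps, this]
  · intro h; exact absurd (Finset.mem_univ _) h

theorem eps_left (D : QD F q) {a : ℕ} (ha : a < n) (y : Fin n → F) :
    D.h (eps n F a) y = D.φ (y ⟨a, ha⟩) := by
  rw [D.h_eq, Finset.sum_eq_single (⟨a, ha⟩ : Fin n)]
  · simp [eps]
  · intro j _ hj
    have : (j : ℕ) ≠ a := fun h => hj (Fin.ext h)
    simp [eps, this]
  · intro h; exact absurd (Finset.mem_univ _) h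

theorem gram4 (D : QD F q) {i : ℕ} (hi : 2 * i + 1 < n) (j : ℕ) (x y x' y' : F) :
    D.h (x • eps n F (2 * i) + y • eps n F (2 * i + 1))
      (x' • eps n F (2 * j) + y' • eps n F (2 * j + 1)) =
      if i = j then x * D.φ x' + y * D.φ y' else 0 := by
  have c1 : (2 * i = 2 * j) ↔ i = j := by omega
  have c2 : ¬ (2 * i = 2 * j + 1) := by omega
  have c3 : ¬ (2 * i + 1 = 2 * j) := by omega
  have c4 : (2 * i + 1 = 2 * j + 1) ↔ i = j := by omega
  simp only [D.h_add_left, D.h_add_right, D.h_smul_left, D.h_smul_right,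
    eps_h D (show 2 * i < n by omega), eps_h D hi, c1, c2, c3, c4, if_false]
  by_cases hij : i = j
  · simp only [hij, if_true]; ring
  · simp only [hij, if_false]; ring

/-- parameters of the model -/
structure Par (D : QD F q) (n : ℕ) where
  m : ℕ
  hm : 2 ≤ m
  hn : n = 2 * m + 1
  η : F
  s : F
  c : F
  hη : η * D.φ η = -1
  hs : s + D.φ s = 1
  hc : c + D.φ c + 1 = 0

namespace Par

variable {D : QD F q} (P : Par D n)

def e (i : ℕ) : Fin n → F := (1 : F) • eps n F (2 * i) + P.η • eps n F (2 * i + 1)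

def f (i : ℕ) : Fin n → F :=
  P.s • eps n F (2 * i) + (-(D.φ P.s * P.η)) • eps n F (2 * i + 1)

def w : Fin n → F := eps n F (2 * P.m)

theorem lt1 {i : ℕ} (hi : i < P.m) : 2 * i + 1 < n := by have := P.hn; omega

theorem hee {i : ℕ} (hi : i < P.m) (j : ℕ) : D.h (P.e i) (P.e j) = 0 := by
  unfold e
  rw [gram4 D (P.lt1 hi)]
  split_ifs
  · rw [map_one]; linear_combination P.hη
  · rfl

theorem hff {i : ℕ} (hi : i < P.m) (j : ℕ) : D.h (P.f i) (P.f j) = 0 := by
  unfold f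
  rw [gram4 D (P.lt1 hi)]
  split_ifs
  · rw [map_neg, map_mul, D.inv]; linear_combination (P.s * D.φ P.s) * P.hη
  · rfl

theorem hfe {i : ℕ} (hi : i < P.m) (j : ℕ) : D.h (P.f i) (P.e j) = if i = j then 1 else 0 := by
  unfold f e
  rw [gram4 D (P.lt1 hi)]
  split_ifs
  · rw [map_one]; linear_combination P.hs - (D.φ P.s) * P.hη
  · rfl

theorem hef {i : ℕ} (hi : i < P.m) (j : ℕ) : D.h (P.e i) (P.f j) = if i = j then 1 else 0 := by
  unfold f e
  rw [gram4 D (P.lt1 hi)]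
  split_ifs
  · rw [map_neg, map_mul, D.inv]; linear_combination P.hs - P.s * P.hη
  · rfl

theorem hww : D.h P.w P.w = 1 := by
  unfold w
  rw [eps_h D (by have := P.hn; omega)]
  simp

theorem hxw {i : ℕ} (hi : i < P.m) (x y : F) :
    D.h (x • eps n F (2 * i) + y • eps n F (2 * i + 1)) P.w = 0 := by
  unfold w
  have c1 : ¬ (2 * i = 2 * P.m) := by omega
  have c2 : ¬ (2 * i + 1 = 2 * P.m) := by omega
  simp only [D.h_add_left, D.h_smul_left, eps_h D (show 2 * i < n by have := P.lt1 hi; omega),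
    eps_h D (P.lt1 hi), c1, c2, if_false, mul_zero, add_zero]

theorem hew {i : ℕ} (hi : i < P.m) : D.h (P.e i) P.w = 0 := P.hxw hi _ _

theorem hfw {i : ℕ} (hi : i < P.m) : D.h (P.f i) P.w = 0 := P.hxw hi _ _

theorem hwe {i : ℕ} (hi : i < P.m) : D.h P.w (P.e i) = 0 := h_swap0 D (P.hew hi)

theorem hwf {i : ℕ} (hi : i < P.m) : D.h P.w (P.f i) = 0 := h_swap0 D (P.hfw hi)

theorem η_ne : P.η ≠ 0 := by
  intro h0
  have := P.hη
  rw [h0, zero_mul] at this
  exact absurd this (by norm_num)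

/-- completeness of the frame -/
theorem complete (y : Fin n → F) (he : ∀ i, i < P.m → D.h (P.e i) y = 0)
    (hf : ∀ i, i < P.m → D.h (P.f i) y = 0) (hw : D.h P.w y = 0) : y = 0 := by
  have key : ∀ k (hk : k < n), D.h (eps n F k) y = 0 := by
    intro k hk
    have hn := P.hn
    by_cases hk2 : k = 2 * P.m
    · rw [hk2]; exact hw
    obtain ⟨i, hi | hi⟩ : ∃ i, k = 2 * i ∨ k = 2 * i + 1 := ⟨k / 2, by omega⟩
    · have him : i < P.m := by omega
      have h1 : eps n F (2 * i) = D.φ P.s • P.e i + P.f i := by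
        unfold e f
        have := P.hs
        linear_combination (norm := module) (-this) • eps n F (2 * i)
      rw [hi, h1, D.h_add_left, D.h_smul_left, he i him, hf i him]
      ring
    · have him : i < P.m := by omega
      have h0 : eps n F (2 * i) = D.φ P.s • P.e i + P.f i := by
        unfold e f
        have := P.hs
        linear_combination (norm := module) (-this) • eps n F (2 * i)
      have h1 : eps n F (2 * i + 1) = P.η⁻¹ • (P.e i - eps n F (2 * i)) := by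
        unfold e
        rw [one_smul, add_sub_cancel_left, smul_smul, inv_mul_cancel₀ P.η_ne, one_smul]
      rw [hi, h1, h0, D.h_smul_left, D.h_sub_left, D.h_add_left, D.h_smul_left, he i him,
        hf i him]
      ring
  funext k
  have h1 := key k k.2
  rw [eps_left D k.2] at h1
  have h2 := congrArg D.φ h1
  rw [D.inv, map_zero] at h2
  exact h2

/-! ### the elements -/

theorem Ok_X {i : ℕ} (hi : i + 1 < P.m) : Ok D (P.e i) (P.f (i + 1)) 0 := by
  refine ⟨P.hee (by omega) i, ?_, ?_⟩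
  · rw [P.hfe hi]; simp
  · rw [P.hff hi]; simp

/-- the Levi root elements -/
noncomputable def X (i : ℕ) : ↥(Cfsg.SU n F q) := E D (P.e i) (P.f (i + 1)) 0

theorem X_f {i : ℕ} (hi : i + 1 < P.m) {j : ℕ} (hj : j < P.m) :
    mv (P.X i) (P.f j) = if j = i then P.f j + P.f (j + 1) else P.f j := by
  unfold X
  rw [mv_E D (P.Ok_X hi), P.hfe hj, P.hff hj]
  by_cases hji : j = i
  · simp [hji]
  · simp [hji]

theorem X_w {i : ℕ} (hi : i + 1 < P.m) : mv (P.X i) P.w = P.w := by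
  unfold X
  rw [mv_E D (P.Ok_X hi), P.hwe (by omega), P.hwf hi]
  simp

theorem Xinv_e {i : ℕ} (hi : i + 1 < P.m) {j : ℕ} (hj : j < P.m) :
    mv (P.X i)⁻¹ (P.e j) = if j = i + 1 then P.e j + P.e i else P.e j := by
  unfold X
  rw [E_inv D (P.Ok_X hi), mv_E D (Ok_inv D (P.Ok_X hi)), P.hee hj, D.h_neg_right, P.hef hj]
  by_cases hji : j = i + 1
  · simp [hji]
  · simp [hji]

/-- the Levi part -/
noncomputable def L : ℕ → ↥(Cfsg.SU n F q)
  | 0 => 1
  | (k + 1) => L k * P.X k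

theorem L_f : ∀ k, k + 1 ≤ P.m → ∀ j, j < P.m →
    mv (P.L k) (P.f j) = if j < k then P.f j + P.f (j + 1) else P.f j := by
  intro k
  induction k with
  | zero =>
    intro _ j _
    show mv (1 : ↥(Cfsg.SU n F q)) (P.f j) = _
    rw [mv_one]; simp
  | succ k ih =>
    intro hk j hj
    show mv (P.L k * P.X k) (P.f j) = _
    rw [mv_mul, P.X_f hk hj]
    by_cases hjk : j = k
    · subst hjk
      rw [if_pos rfl, mv_add, ih (by omega) j hj, ih (by omega) (j + 1) (by omega)]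
      simp
    · rw [if_neg hjk, ih (by omega) j hj]
      by_cases hlt : j < k
      · rw [if_pos hlt, if_pos (by omega)]
      · rw [if_neg hlt, if_neg (by omega)]

theorem L_w : ∀ k, k + 1 ≤ P.m → mv (P.L k) P.w = P.w := by
  intro k
  induction k with
  | zero =>
    intro _
    show mv (1 : ↥(Cfsg.SU n F q)) P.w = _
    rw [mv_one]
  | succ k ih =>
    intro hk
    show mv (P.L k * P.X k) P.w = _
    rw [mv_mul, P.X_w hk, ih (by omega)]

theorem Linv_e : ∀ k, k + 1 ≤ P.m → ∀ j, j < P.m →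
    mv (P.L k)⁻¹ (P.e j) = if 1 ≤ j ∧ j ≤ k then P.e j + P.e (j - 1) else P.e j := by
  intro k
  induction k with
  | zero =>
    intro _ j _
    show mv (1 : ↥(Cfsg.SU n F q))⁻¹ (P.e j) = _
    rw [inv_one, mv_one, if_neg (by omega)]
  | succ k ih =>
    intro hk j hj
    show mv (P.L k * P.X k)⁻¹ (P.e j) = _
    rw [_root_.mul_inv_rev, mv_mul, ih (by omega) j hj]
    by_cases h1 : 1 ≤ j ∧ j ≤ k
    · rw [if_pos h1, if_pos (by omega), mv_add, P.Xinv_e hk hj, P.Xinv_e hk (by omega),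
        if_neg (by omega), if_neg (by omega)]
    · rw [if_neg h1, P.Xinv_e hk hj]
      by_cases h2 : j = k + 1
      · rw [if_pos h2, if_pos (by omega), h2]
        simp
      · rw [if_neg h2, if_neg (by omega)]

theorem m1 : P.m - 1 < P.m := by have := P.hm; omega

theorem Ok_Em : Ok D (P.e (P.m - 1)) P.w P.c :=
  ⟨P.hee P.m1 _, P.hwe P.m1, by rw [P.hww]; exact P.hc⟩

/-- the short root element -/
noncomputable def Em : ↥(Cfsg.SU n F q) := E D (P.e (P.m - 1)) P.w P.c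

theorem Em_f {j : ℕ} (hj : j < P.m) : mv P.Em (P.f j) =
    if j = P.m - 1 then P.f j + P.w + P.c • P.e (P.m - 1) else P.f j := by
  unfold Em
  rw [mv_E D P.Ok_Em, P.hfe hj, P.hfw hj]
  by_cases hjm : j = P.m - 1
  · simp [hjm]
  · simp [hjm]

theorem Em_w : mv P.Em P.w = P.w - P.e (P.m - 1) := by
  unfold Em
  rw [mv_E D P.Ok_Em, P.hwe P.m1, P.hww]
  simp

theorem Em_e {j : ℕ} (hj : j < P.m) : mv P.Em (P.e j) = P.e j := by
  unfold Em
  rw [mv_E D P.Ok_Em, P.hee hj, P.hew hj]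
  simp

theorem Eminv_e {j : ℕ} (hj : j < P.m) : mv P.Em⁻¹ (P.e j) = P.e j := by
  have := P.Em_e hj
  nth_rewrite 1 [← this]
  rw [mv_inv_mv]

theorem Eminv_w : mv P.Em⁻¹ P.w = P.w + P.e (P.m - 1) := by
  have h1 := P.Em_w
  have h2 : mv P.Em (P.w + P.e (P.m - 1)) = P.w := by
    rw [mv_add, h1, P.Em_e P.m1]; abel
  nth_rewrite 1 [← h2]
  rw [mv_inv_mv]

theorem Eminv_ftop : mv P.Em⁻¹ (P.f (P.m - 1)) =
    P.f (P.m - 1) - P.w + D.φ P.c • P.e (P.m - 1) := by
  have hc := P.hc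
  have h2 : mv P.Em (P.f (P.m - 1) - P.w + D.φ P.c • P.e (P.m - 1)) = P.f (P.m - 1) := by
    rw [mv_add, mv_sub, mv_smul, P.Em_w, P.Em_e P.m1, P.Em_f P.m1, if_pos rfl]
    linear_combination (norm := module) hc • P.e (P.m - 1)
  nth_rewrite 1 [← h2]
  rw [mv_inv_mv]

/-- the regular unipotent element -/
noncomputable def v : ↥(Cfsg.SU n F q) := P.L (P.m - 1) * P.Em

theorem mle : P.m - 1 + 1 ≤ P.m := by have := P.hm; omega

theorem v_f {j : ℕ} (hj : j + 1 < P.m) : mv P.v (P.f j) = P.f j + P.f (j + 1) := by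
  unfold v
  rw [mv_mul, P.Em_f (by omega), if_neg (by omega), P.L_f _ P.mle j (by omega), if_pos (by omega)]

theorem v_e' {j : ℕ} (hj : j < P.m) : mv P.v (P.e j) = mv (P.L (P.m - 1)) (P.e j) := by
  unfold v
  rw [mv_mul, P.Em_e hj]

theorem v_ftop : mv P.v (P.f (P.m - 1)) =
    P.f (P.m - 1) + P.w + P.c • mv P.v (P.e (P.m - 1)) := by
  rw [P.v_e' P.m1]
  unfold v
  rw [mv_mul, P.Em_f P.m1, if_pos rfl, mv_add, mv_add, mv_smul, P.L_f _ P.mle _ P.m1,
    if_neg (by omega), P.L_w _ P.mle]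

theorem v_w : mv P.v P.w = P.w - mv P.v (P.e (P.m - 1)) := by
  rw [P.v_e' P.m1]
  unfold v
  rw [mv_mul, P.Em_w, mv_sub, P.L_w _ P.mle]

theorem vinv_e {j : ℕ} (hj1 : 1 ≤ j) (hj : j < P.m) : mv P.v⁻¹ (P.e j) = P.e j + P.e (j - 1) := by
  unfold v
  rw [_root_.mul_inv_rev, mv_mul, P.Linv_e _ P.mle j hj, if_pos (by omega), mv_add, P.Eminv_e hj,
    P.Eminv_e (by omega)]

theorem vinv_e0 : mv P.v⁻¹ (P.e 0) = P.e 0 := by
  have hm := P.hm
  unfold v
  rw [_root_.mul_inv_rev, mv_mul, P.Linv_e _ P.mle 0 (by omega), if_neg (by omega),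
    P.Eminv_e (by omega)]

theorem v_e0 : mv P.v (P.e 0) = P.e 0 := by
  have := P.vinv_e0
  nth_rewrite 1 [← this]
  rw [mv_mv_inv]

theorem v_e {j : ℕ} (hj1 : 1 ≤ j) (hj : j < P.m) :
    mv P.v (P.e j) = P.e j - mv P.v (P.e (j - 1)) := by
  have h1 := congrArg (mv P.v) (P.vinv_e hj1 hj)
  rw [mv_mv_inv, mv_add] at h1
  rw [eq_sub_iff_add_eq]
  exact h1.symm

theorem vinv_w : mv P.v⁻¹ P.w = P.w + P.e (P.m - 1) := by
  have h1 : mv (P.L (P.m - 1))⁻¹ P.w = P.w := by
    have := P.L_w _ P.mle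
    nth_rewrite 1 [← this]
    rw [mv_inv_mv]
  unfold v
  rw [_root_.mul_inv_rev, mv_mul, h1, P.Eminv_w]

theorem vinv_ftop : mv P.v⁻¹ (P.f (P.m - 1)) =
    P.f (P.m - 1) - P.w + D.φ P.c • P.e (P.m - 1) := by
  have h1 : mv (P.L (P.m - 1))⁻¹ (P.f (P.m - 1)) = P.f (P.m - 1) := by
    have := P.L_f _ P.mle _ P.m1
    rw [if_neg (by omega)] at this
    nth_rewrite 1 [← this]
    rw [mv_inv_mv]
  unfold v
  rw [_root_.mul_inv_rev, mv_mul, h1, P.Eminv_ftop]

/-! ### the pattern -/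

/-- the span of the first `k` vectors `f` -/
def Sf (k : ℕ) : Submodule F (Fin n → F) := Submodule.span F (P.f '' {j | j < k})

theorem f_mem_Sf {j k : ℕ} (h : j < k) : P.f j ∈ P.Sf k := Submodule.subset_span ⟨j, h, rfl⟩

theorem v_Sf {k : ℕ} (hk : k < P.m) {s : Fin n → F} (hs : s ∈ P.Sf k) :
    mv P.v s ∈ P.Sf (k + 1) := by
  unfold Sf at hs
  induction hs using Submodule.span_induction with
  | mem x hx =>
    obtain ⟨j, hj, rfl⟩ := hx
    have hj' : j < k := hj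
    rw [P.v_f (by omega)]
    exact (P.Sf (k + 1)).add_mem (P.f_mem_Sf (by omega)) (P.f_mem_Sf (by omega))
  | zero => rw [mv_zero]; exact Submodule.zero_mem _
  | add x y _ _ hx hy => rw [mv_add]; exact Submodule.add_mem _ hx hy
  | smul a x _ hx => rw [mv_smul]; exact Submodule.smul_mem _ _ hx

theorem Sf_perp {k : ℕ} (hk : k ≤ P.m) {s : Fin n → F} (hs : s ∈ P.Sf k) (i : ℕ) :
    D.h s (P.f i) = 0 := by
  unfold Sf at hs
  induction hs using Submodule.span_induction with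
  | mem x hx =>
    obtain ⟨j, hj, rfl⟩ := hx
    have hj' : j < k := hj
    exact P.hff (by omega) i
  | zero => exact D.h_zero_left _
  | add x y _ _ hx hy => rw [D.h_add_left, hx, hy, add_zero]
  | smul a x _ hx => rw [D.h_smul_left, hx, mul_zero]

theorem orbit_f : ∀ k, k < P.m → mv (P.v ^ k) (P.f 0) - P.f k ∈ P.Sf k := by
  intro k
  induction k with
  | zero => intro _; rw [pow_zero, mv_one, sub_self]; exact Submodule.zero_mem _
  | succ k ih =>
    intro hk
    have h1 := ih (by omega)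
    have h2 := P.v_Sf (by omega : k < P.m) h1
    rw [mv_sub, P.v_f hk, ← mv_mul, ← pow_succ'] at h2
    have h3 : mv (P.v ^ (k + 1)) (P.f 0) - P.f (k + 1) =
        (mv (P.v ^ (k + 1)) (P.f 0) - (P.f k + P.f (k + 1))) + P.f k := by abel
    rw [h3]
    exact Submodule.add_mem _ h2 (P.f_mem_Sf (by omega))

theorem hγ0 (k : ℕ) (hk1 : 1 ≤ k) (hk : k < P.m) :
    D.h (mv (P.v ^ k) (P.f 0)) (P.f 0) = 0 := by
  have h1 := P.Sf_perp (by omega : k ≤ P.m) (P.orbit_f k hk) 0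
  rw [D.h_sub_left, P.hff hk, sub_zero] at h1
  exact h1

theorem h_ve (j : ℕ) (hj : j < P.m) : D.h (mv P.v (P.e j)) (P.f 0) = (-1) ^ j := by
  induction j with
  | zero =>
    rw [P.v_e0, P.hef (by omega)]
    simp
  | succ j ih =>
    rw [P.v_e (by omega) hj, D.h_sub_left, P.hef hj, Nat.add_sub_cancel, ih (by omega)]
    simp [pow_succ]

theorem c_ne : P.c ≠ 0 := by
  intro h0
  have := P.hc
  rw [h0, map_zero] at this
  norm_num at this

theorem hγm : D.h (mv (P.v ^ P.m) (P.f 0)) (P.f 0) ≠ 0 := by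
  have hm := P.hm
  have h1 := P.orbit_f (P.m - 1) P.m1
  have h2 := P.v_Sf P.m1 h1
  have e1 : P.m - 1 + 1 = P.m := by omega
  rw [mv_sub, ← mv_mul, ← pow_succ', e1] at h2
  have h3 := P.Sf_perp (le_refl _) h2 0
  rw [D.h_sub_left, P.v_ftop, sub_eq_zero] at h3
  rw [h3]
  simp only [D.h_add_left, D.h_smul_left, P.hff P.m1, P.hwf (by omega : 0 < P.m),
    P.h_ve _ P.m1, zero_add]
  exact mul_ne_zero P.c_ne (pow_ne_zero _ (by norm_num))

/-! ### the nilpotent part -/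

/-- `v - 1` as a matrix -/
noncomputable def Nm : Matrix (Fin n) (Fin n) F :=
  ((P.v : Matrix.SpecialLinearGroup (Fin n) F) : Matrix (Fin n) (Fin n) F) - 1

theorem Nm_mulVec (x : Fin n → F) : P.Nm *ᵥ x = mv P.v x - x := by
  unfold Nm mv
  rw [Matrix.sub_mulVec, Matrix.one_mulVec]

theorem Npow_succ (j : ℕ) (x : Fin n → F) : (P.Nm ^ (j + 1)) *ᵥ x = (P.Nm ^ j) *ᵥ (P.Nm *ᵥ x) := by
  rw [pow_succ, Matrix.mulVec_mulVec]

theorem Npow_succ' (j : ℕ) (x : Fin n → F) :
    (P.Nm ^ (j + 1)) *ᵥ x = P.Nm *ᵥ ((P.Nm ^ j) *ᵥ x) := by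
  rw [pow_succ', Matrix.mulVec_mulVec]

theorem Npow_add (j k : ℕ) (x : Fin n → F) :
    (P.Nm ^ (j + k)) *ᵥ x = (P.Nm ^ j) *ᵥ ((P.Nm ^ k) *ᵥ x) := by
  rw [pow_add, Matrix.mulVec_mulVec]

theorem Npow_mv (j : ℕ) (x : Fin n → F) : (P.Nm ^ j) *ᵥ (mv P.v x) = mv P.v ((P.Nm ^ j) *ᵥ x) := by
  induction j generalizing x with
  | zero => rw [pow_zero, Matrix.one_mulVec, Matrix.one_mulVec]
  | succ j ih =>
    rw [Npow_succ, Npow_succ, ← ih, P.Nm_mulVec, P.Nm_mulVec, mv_sub]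

theorem Npow_mvpow (j k : ℕ) (x : Fin n → F) :
    (P.Nm ^ j) *ᵥ (mv (P.v ^ k) x) = mv (P.v ^ k) ((P.Nm ^ j) *ᵥ x) := by
  induction k generalizing x with
  | zero => rw [pow_zero, mv_one, mv_one]
  | succ k ih =>
    rw [pow_succ, mv_mul, mv_mul, ih, P.Npow_mv]

theorem vpow_e0 (j : ℕ) : mv (P.v ^ j) (P.e 0) = P.e 0 := by
  induction j with
  | zero => rw [pow_zero, mv_one]
  | succ j ih => rw [pow_succ, mv_mul, P.v_e0, ih]

theorem N_f : ∀ j, j < P.m → (P.Nm ^ j) *ᵥ P.f 0 = P.f j := by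
  intro j
  induction j with
  | zero => intro _; rw [pow_zero, Matrix.one_mulVec]
  | succ j ih =>
    intro hj
    rw [Npow_succ', ih (by omega), P.Nm_mulVec, P.v_f hj, add_sub_cancel_left]

theorem N_e0 : P.Nm *ᵥ P.e 0 = 0 := by
  rw [P.Nm_mulVec, P.v_e0, sub_self]

theorem N_e {j : ℕ} (hj1 : 1 ≤ j) (hj : j < P.m) : P.Nm *ᵥ P.e j = -mv P.v (P.e (j - 1)) := by
  rw [P.Nm_mulVec, P.v_e hj1 hj]; abel

theorem Npow_e : ∀ k j, k ≤ j → j < P.m →
    (P.Nm ^ k) *ᵥ P.e j = (-1 : F) ^ k • mv (P.v ^ k) (P.e (j - k)) := by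
  intro k
  induction k with
  | zero => intro j _ _; simp [mv_one]
  | succ k ih =>
    intro j hkj hj
    rw [Npow_succ, P.N_e (by omega) hj, Matrix.mulVec_neg, P.Npow_mv, ih (j - 1) (by omega) (by omega),
      mv_smul, ← mv_mul, ← pow_succ']
    have e1 : j - 1 - k = j - (k + 1) := by omega
    rw [e1, pow_succ]
    module

theorem Npow_e_zero {j : ℕ} (hj : j < P.m) : (P.Nm ^ (j + 1)) *ᵥ P.e j = 0 := by
  rw [Npow_succ', P.Npow_e j j le_rfl hj, Nat.sub_self, P.vpow_e0, Matrix.mulVec_smul, P.N_e0,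
    smul_zero]

/-- the vectors `v N^k e_{m-1}` -/
noncomputable def G (k : ℕ) : Fin n → F := mv P.v ((P.Nm ^ k) *ᵥ P.e (P.m - 1))

theorem N_G (k : ℕ) : P.Nm *ᵥ P.G k = P.G (k + 1) := by
  unfold G
  have h1 := P.Npow_mv 1 ((P.Nm ^ k) *ᵥ P.e (P.m - 1))
  rw [pow_one] at h1
  rw [h1, ← Npow_succ']

theorem G_zero : P.G 0 = mv P.v (P.e (P.m - 1)) := by
  unfold G
  rw [pow_zero, Matrix.one_mulVec]

theorem G_m : P.G P.m = 0 := by
  have hm := P.hm
  unfold G
  have h1 := P.Npow_e_zero P.m1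
  have e1 : P.m - 1 + 1 = P.m := by omega
  rw [e1] at h1
  rw [h1, mv_zero]

theorem G_top : P.G (P.m - 1) = (-1 : F) ^ (P.m - 1) • P.e 0 := by
  unfold G
  rw [P.Npow_e _ _ le_rfl P.m1, Nat.sub_self, P.vpow_e0, mv_smul, P.v_e0]

theorem N_m : (P.Nm ^ P.m) *ᵥ P.f 0 = P.w + P.c • P.G 0 := by
  have hm := P.hm
  have e1 : P.m = P.m - 1 + 1 := by omega
  nth_rewrite 1 [e1]
  rw [Npow_succ', P.N_f _ P.m1, P.Nm_mulVec, P.v_ftop, P.G_zero]
  abel

theorem N_w : P.Nm *ᵥ P.w = -P.G 0 := by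
  rw [P.Nm_mulVec, P.v_w, P.G_zero]; abel

theorem N_big : ∀ k, (P.Nm ^ (P.m + 1 + k)) *ᵥ P.f 0 = -P.G k + P.c • P.G (k + 1) := by
  intro k
  induction k with
  | zero =>
    rw [add_zero, Npow_succ', P.N_m, Matrix.mulVec_add, Matrix.mulVec_smul, P.N_w, P.N_G]
  | succ k ih =>
    rw [← add_assoc, Npow_succ', ih, Matrix.mulVec_add, Matrix.mulVec_neg, Matrix.mulVec_smul,
      P.N_G, P.N_G]

theorem e0_ne : P.e 0 ≠ 0 := by
  intro h0
  have h1 := P.hfe (by have := P.hm; omega : 0 < P.m) 0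
  rw [h0, D.h_zero_right] at h1
  simp at h1

/-- `(v - 1)^(n-1) ≠ 0` -/
theorem Nm_pow_ne : P.Nm ^ (n - 1) ≠ 0 := by
  have hm := P.hm
  have hn := P.hn
  intro h0
  have h1 := P.N_big (P.m - 1)
  have e1 : P.m + 1 + (P.m - 1) = n - 1 := by omega
  have e2 : P.m - 1 + 1 = P.m := by omega
  rw [e1, h0, Matrix.zero_mulVec, e2, P.G_m, smul_zero, add_zero, P.G_top] at h1
  have h2 : (-1 : F) ^ (P.m - 1) • P.e 0 = 0 := by
    rw [← neg_eq_zero]; exact h1.symm
  rcases smul_eq_zero.1 h2 with h | h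
  · exact absurd h (pow_ne_zero _ (by norm_num))
  · exact P.e0_ne h

theorem Npow_w (k : ℕ) : (P.Nm ^ (k + 1)) *ᵥ P.w = -P.G k := by
  induction k with
  | zero => rw [zero_add, pow_one, P.N_w]
  | succ k ih => rw [Npow_succ', ih, Matrix.mulVec_neg, P.N_G]

theorem eps_even (i : ℕ) : eps n F (2 * i) = D.φ P.s • P.e i + P.f i := by
  unfold e f
  have := P.hs
  linear_combination (norm := module) (-this) • eps n F (2 * i)

theorem eps_odd (i : ℕ) : eps n F (2 * i + 1) = P.η⁻¹ • (P.e i - eps n F (2 * i)) := by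
  unfold e
  rw [one_smul, add_sub_cancel_left, smul_smul, inv_mul_cancel₀ P.η_ne, one_smul]

/-- `(v - 1)^n = 0` -/
theorem Nm_pow_n : P.Nm ^ n = 0 := by
  have hm := P.hm
  have hn := P.hn
  have hf0 : (P.Nm ^ n) *ᵥ P.f 0 = 0 := by
    have h1 := P.N_big P.m
    have e : P.m + 1 + P.m = n := by omega
    have h2 : P.G (P.m + 1) = 0 := by rw [← P.N_G, P.G_m, Matrix.mulVec_zero]
    rw [e, P.G_m, h2] at h1
    rw [h1]; simp
  have hf : ∀ j, j < P.m → (P.Nm ^ n) *ᵥ P.f j = 0 := by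
    intro j hj
    rw [← P.N_f j hj, ← Npow_add, add_comm, Npow_add, hf0, Matrix.mulVec_zero]
  have hw : (P.Nm ^ n) *ᵥ P.w = 0 := by
    have e : P.Nm ^ n = P.Nm ^ (n - (P.m + 1)) * P.Nm ^ (P.m + 1) := by
      rw [← pow_add]
      exact congrArg (fun k => P.Nm ^ k) (by omega)
    rw [e, ← Matrix.mulVec_mulVec, P.Npow_w, P.G_m, neg_zero, Matrix.mulVec_zero]
  have he : ∀ j, j < P.m → (P.Nm ^ n) *ᵥ P.e j = 0 := by
    intro j hj
    have e : P.Nm ^ n = P.Nm ^ (n - (j + 1)) * P.Nm ^ (j + 1) := by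
      rw [← pow_add]
      exact congrArg (fun k => P.Nm ^ k) (by omega)
    rw [e, ← Matrix.mulVec_mulVec, P.Npow_e_zero hj, Matrix.mulVec_zero]
  have key : ∀ k, k < n → (P.Nm ^ n) *ᵥ (eps n F k) = 0 := by
    intro k hk
    by_cases hk2 : k = 2 * P.m
    · rw [hk2]; exact hw
    obtain ⟨i, hi | hi⟩ : ∃ i, k = 2 * i ∨ k = 2 * i + 1 := ⟨k / 2, by omega⟩
    · have him : i < P.m := by omega
      rw [hi, P.eps_even, Matrix.mulVec_add, Matrix.mulVec_smul, he i him, hf i him]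
      simp
    · have him : i < P.m := by omega
      rw [hi, P.eps_odd, P.eps_even, Matrix.mulVec_smul, Matrix.mulVec_sub, Matrix.mulVec_add,
        Matrix.mulVec_smul, he i him, hf i him]
      simp
  ext i j
  have h1 := congrFun (key j j.2) i
  rw [Matrix.mulVec, dotProduct, Finset.sum_eq_single j] at h1
  · simpa [eps] using h1
  · intro b _ hb
    have : (b : ℕ) ≠ j := fun h => hb (Fin.ext h)
    simp [eps, this]
  · intro h; exact absurd (Finset.mem_univ _) h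

/-- `f 0` is a cyclic vector -/
theorem hcyc (y : Fin n → F)
    (hy : ∀ k : ℕ, k ≤ 2 * P.m → D.h (mv (P.v ^ k) (P.f 0)) y = 0) : y = 0 := by
  have hm := P.hm
  have h1 : ∀ j i, i + j ≤ 2 * P.m → D.h ((P.Nm ^ j) *ᵥ (mv (P.v ^ i) (P.f 0))) y = 0 := by
    intro j
    induction j with
    | zero => intro i hi; rw [pow_zero, Matrix.one_mulVec]; exact hy i (by omega)
    | succ j ih =>
      intro i hi
      rw [Npow_succ, P.Nm_mulVec, ← mv_mul, ← pow_succ', Matrix.mulVec_sub, D.h_sub_left,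
        ih (i + 1) (by omega), ih i (by omega), sub_zero]
  have h2 : ∀ j, j ≤ 2 * P.m → D.h ((P.Nm ^ j) *ᵥ P.f 0) y = 0 := by
    intro j hj
    have := h1 j 0 (by omega)
    rwa [pow_zero, mv_one] at this
  have hf : ∀ i, i < P.m → D.h (P.f i) y = 0 := by
    intro i hi
    have := h2 i (by omega)
    rwa [P.N_f i hi] at this
  have hG : ∀ d, d ≤ P.m → D.h (P.G (P.m - d)) y = 0 := by
    intro d
    induction d with
    | zero => intro _; rw [Nat.sub_zero, P.G_m, D.h_zero_left]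
    | succ d ih =>
      intro hd
      have h3 := h2 (P.m + 1 + (P.m - (d + 1))) (by omega)
      rw [P.N_big, D.h_add_left, D.h_neg_left, D.h_smul_left] at h3
      have e : P.m - (d + 1) + 1 = P.m - d := by omega
      rw [e, ih (by omega), mul_zero, add_zero, neg_eq_zero] at h3
      exact h3
  have hG' : ∀ k, k ≤ P.m → D.h (P.G k) y = 0 := by
    intro k hk
    have := hG (P.m - k) (by omega)
    rwa [Nat.sub_sub_self hk] at this
  have hw : D.h P.w y = 0 := by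
    have h3 := h2 P.m (by omega)
    rw [P.N_m, D.h_add_left, D.h_smul_left, hG' 0 (by omega), mul_zero, add_zero] at h3
    exact h3
  have hev : ∀ i, i < P.m → D.h (mv (P.v ^ (P.m - i)) (P.e i)) y = 0 := by
    intro i hi
    have h3 := hG' (P.m - 1 - i) (by omega)
    unfold G at h3
    rw [P.Npow_e _ _ (by omega) P.m1, mv_smul, ← mv_mul, ← pow_succ', D.h_smul_left] at h3
    have e1 : P.m - 1 - (P.m - 1 - i) = i := by omega
    have e2 : P.m - 1 - i + 1 = P.m - i := by omega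
    rw [e1, e2] at h3
    rcases mul_eq_zero.1 h3 with h | h
    · exact absurd h (pow_ne_zero _ (by norm_num))
    · exact h
  have hR : ∀ i, i < P.m → ∀ j, D.h (mv (P.v ^ j) (P.e i)) y = 0 := by
    intro i
    induction i with
    | zero =>
      intro hi j
      have := hev 0 hi
      rw [P.vpow_e0] at this ⊢
      exact this
    | succ i ih =>
      intro hi
      have hstep : ∀ j, D.h (mv (P.v ^ (j + 1)) (P.e (i + 1))) y =
          D.h (mv (P.v ^ j) (P.e (i + 1))) y := by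
        intro j
        rw [pow_succ, mv_mul, P.v_e (by omega) hi, mv_sub, D.h_sub_left, Nat.add_sub_cancel,
          ← mv_mul, ← pow_succ, ih (by omega) (j + 1), sub_zero]
      have hconst : ∀ j, D.h (mv (P.v ^ j) (P.e (i + 1))) y = D.h (P.e (i + 1)) y := by
        intro j
        induction j with
        | zero => rw [pow_zero, mv_one]
        | succ j ihj => rw [hstep, ihj]
      intro j
      rw [hconst, ← hconst (P.m - (i + 1))]
      exact hev (i + 1) hi
  have he : ∀ i, i < P.m → D.h (P.e i) y = 0 := by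
    intro i hi
    have := hR i hi 0
    rwa [pow_zero, mv_one] at this
  exact P.complete y he hf hw

/-! ### the conjugating element -/

theorem e_last {i : ℕ} (hi : i < P.m) (l : Fin n) (hl : (l : ℕ) = 2 * P.m) : P.e i l = 0 := by
  have c1 : ¬ ((l : ℕ) = 2 * i) := by omega
  have c2 : ¬ ((l : ℕ) = 2 * i + 1) := by omega
  simp [e, eps, c1, c2]

theorem f_last {i : ℕ} (hi : i < P.m) (l : Fin n) (hl : (l : ℕ) = 2 * P.m) : P.f i l = 0 := by
  have c1 : ¬ ((l : ℕ) = 2 * i) := by omega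
  have c2 : ¬ ((l : ℕ) = 2 * i + 1) := by omega
  simp [f, eps, c1, c2]

theorem exists_g1 [Fintype F] {lam : F} (hlam : lam ≠ 0) (qv dq : Fin n → F)
    (hq0 : D.h qv (P.f 0) = 0) (hq1 : D.h qv (P.f 1) = 0) (hqd : D.h qv dq = 1)
    (h0d : D.h (P.e 0) dq = 0) (h1d : D.h (P.e 1) dq = 0)
    (hqq : D.h qv qv = 0) (hqe0 : D.h qv (P.e 0) = 0)
    (hqe1 : D.h qv (P.e 1) = D.h (mv P.v⁻¹ (P.f 0)) (lam • mv P.v (P.f 0)))
    (hql : ∀ l : Fin n, (l : ℕ) = 2 * P.m → qv l = 0) :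
    ∃ g₁ : ↥(Cfsg.SU n F q), mv g₁ (P.e 0) = lam • P.f 0 ∧
      mv g₁ (P.e 1) = lam • mv P.v (P.f 0) ∧ mv g₁ qv = mv P.v⁻¹ (P.f 0) := by
  have hm := P.hm
  have hn := P.hn
  have h0m : 0 < P.m := by omega
  have h1m : 1 < P.m := by omega
  have hvf0 : mv P.v (P.f 0) = P.f 0 + P.f 1 := P.v_f (by omega)
  have g00 : D.h (lam • P.f 0) (lam • P.f 0) = 0 := by
    rw [D.h_smul_left, D.h_smul_right, P.hff h0m]; ring
  have g11 : D.h (lam • mv P.v (P.f 0)) (lam • mv P.v (P.f 0)) = 0 := by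
    rw [D.h_smul_left, D.h_smul_right, h_mv, P.hff h0m]; ring
  have g22 : D.h (mv P.v⁻¹ (P.f 0)) (mv P.v⁻¹ (P.f 0)) = 0 := by rw [h_mv, P.hff h0m]
  have g10 : D.h (lam • mv P.v (P.f 0)) (lam • P.f 0) = 0 := by
    rw [hvf0, D.h_smul_left, D.h_smul_right, D.h_add_left, P.hff h0m, P.hff h1m]; ring
  have g20 : D.h (mv P.v⁻¹ (P.f 0)) (lam • P.f 0) = 0 := by
    rw [D.h_smul_right, h_mv_left, inv_inv, hvf0, D.h_add_right, P.hff h0m, P.hff h0m]; ring
  have g21 := hqe1.symm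
  have s00 : D.h (P.e 0) (P.e 0) = 0 := P.hee h0m 0
  have s11 : D.h (P.e 1) (P.e 1) = 0 := P.hee h1m 1
  have s10 : D.h (P.e 1) (P.e 0) = 0 := P.hee h1m 0
  have s01 : D.h (P.e 0) (P.e 1) = 0 := P.hee h0m 1
  have g01 : D.h (lam • P.f 0) (lam • mv P.v (P.f 0)) = 0 := h_swap0 D g10
  have g02 : D.h (lam • P.f 0) (mv P.v⁻¹ (P.f 0)) = 0 := h_swap0 D g20
  have g12 : D.h (lam • mv P.v (P.f 0)) (mv P.v⁻¹ (P.f 0)) = D.h (P.e 1) qv := by
    rw [← D.h_symm, g21, D.h_symm]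
  have s02 : D.h (P.e 0) qv = 0 := h_swap0 D hqe0
  have hpair : D.h (mv P.v⁻¹ (P.f 0)) (P.f (P.m - 1)) = D.φ P.c * (-1) ^ (P.m - 1) := by
    rw [h_mv_left, inv_inv, P.v_ftop, D.h_add_right, D.h_add_right, D.h_smul_right, P.hff h0m,
      P.hfw h0m, ← D.h_symm (mv P.v (P.e (P.m - 1))) (P.f 0), P.h_ve _ P.m1]
    simp
  obtain ⟨g, hg⟩ := Cfsg.Agent.Lib.Helper46.SUWitt.witt3 D ![P.e 0, P.e 1, qv]
    ![lam • P.f 0, lam • mv P.v (P.f 0), mv P.v⁻¹ (P.f 0)] ![P.f 0, P.f 1, dq]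
    (by
      intro i j
      fin_cases i <;> fin_cases j <;>
        simp [P.hef h0m, P.hef h1m, hq0, hq1, hqd, h0d, h1d])
    (by
      intro i j
      fin_cases i <;> fin_cases j <;>
        simp [g00, g11, g22, g10, g20, g21, g01, g02, g12, s00, s11, s10, s01, s02, hqq, hqe0])
    (by
      intro t ht
      rw [Fin.sum_univ_three] at ht
      simp only [Matrix.cons_val_zero, Matrix.cons_val_one, Matrix.cons_val_two,
        Matrix.head_cons, Matrix.tail_cons] at ht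
      have h2 : t 2 = 0 := by
        have h3 := congrArg (fun x => D.h x (P.f (P.m - 1))) ht
        simp only [D.h_add_left, D.h_smul_left, hvf0, P.hff h0m, P.hff h1m, hpair,
          D.h_zero_left, mul_zero, zero_add, add_zero] at h3
        rcases mul_eq_zero.1 h3 with h | h
        · exact h
        · exfalso
          rcases mul_eq_zero.1 h with h' | h'
          · exact phi_ne D P.c_ne h'
          · exact pow_ne_zero _ (by norm_num) h'
      rw [h2, zero_smul, add_zero, hvf0] at ht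
      have h1 : t 1 = 0 := by
        have h3 := congrArg (fun x => D.h x (P.e 1)) ht
        simp only [D.h_add_left, D.h_smul_left, P.hfe h0m, P.hfe h1m, D.h_zero_left] at h3
        simp at h3
        rcases h3 with h | h
        · exact h
        · exact absurd h hlam
      rw [h1, zero_smul, add_zero] at ht
      have h0 : t 0 = 0 := by
        have h3 := congrArg (fun x => D.h x (P.e 0)) ht
        simp only [D.h_smul_left, P.hfe h0m, D.h_zero_left] at h3
        simp at h3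
        rcases h3 with h | h
        · exact h
        · exact absurd h hlam
      funext i
      fin_cases i
      · exact h0
      · exact h1
      · exact h2)
    ⟨2 * P.m, by omega⟩
    (by
      intro i
      fin_cases i
      · exact P.e_last h0m _ rfl
      · exact P.e_last h1m _ rfl
      · exact hql _ rfl)
  exact ⟨g, hg 0, hg 1, hg 2⟩

end Par

theorem exists_tr_nf (D : QD F q) {b : F} (hb : D.φ b = b) (hb0 : b ≠ 0) :
    ∃ c, c + D.φ c = b ∧ D.φ c ≠ c := by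
  obtain ⟨c₀, hc₀⟩ := D.tr b hb
  by_cases h : D.φ c₀ = c₀
  · obtain ⟨z, hz0, hz⟩ := D.exists_skew
    have h2 : (2 : F) ≠ 0 := by
      intro h2
      apply hb0
      rw [← hc₀, h]
      linear_combination c₀ * h2
    refine ⟨c₀ + z, by rw [map_add, hz]; linear_combination hc₀, ?_⟩
    rw [map_add, hz, h]
    intro h3
    have h4 : (2 : F) * z = 0 := by linear_combination -h3
    rcases mul_eq_zero.1 h4 with h5 | h5
    · exact h2 h5
    · exact hz0 h5
  · exact ⟨c₀, hc₀, h⟩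

theorem exists_r [Fintype F] (hF : Fintype.card F = q ^ 2) (D : QD F q) :
    ∃ r : F, D.φ r = r ∧ r ≠ 0 ∧ ∀ y : F, D.φ y = y → y ≠ 0 → ∃ j : ℕ, y = r ^ j := by
  classical
  obtain ⟨g, hg⟩ := IsCyclic.exists_generator (α := Fˣ)
  have hord : orderOf g = q ^ 2 - 1 := by
    rw [orderOf_eq_card_of_forall_mem_zpowers hg, Nat.card_eq_fintype_card, Fintype.card_units,
      hF]
  have hq : 2 ≤ q := Cfsg.Agent.Lib.Helper5.HermCount.two_le hF
  refine ⟨(g : F) * D.φ (g : F), by rw [map_mul, D.inv, mul_comm],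
    mul_ne_zero g.ne_zero (phi_ne D g.ne_zero), ?_⟩
  intro y hy hy0
  have h1 := hg (Units.mk0 y hy0)
  rw [← mem_powers_iff_mem_zpowers] at h1
  obtain ⟨k, hk⟩ := h1
  have hyq : (Units.mk0 y hy0) ^ q = Units.mk0 y hy0 := by
    apply Units.ext
    simp only [Units.val_pow_eq_pow_val, Units.val_mk0]
    rw [← D.hφ]; exact hy
  rw [← hk, ← pow_mul] at hyq
  have h2 : g ^ (k * (q - 1)) = 1 := by
    have e : k * q = k + k * (q - 1) := by
      obtain ⟨t, rfl⟩ : ∃ t, q = t + 1 := ⟨q - 1, by omega⟩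
      simp only [Nat.add_sub_cancel]
      ring
    rw [e, pow_add] at hyq
    exact mul_left_cancel (a := g ^ k) (by rw [hyq, mul_one])
  have h3 := orderOf_dvd_of_pow_eq_one h2
  rw [hord] at h3
  have h4 : q ^ 2 - 1 = (q + 1) * (q - 1) := by
    obtain ⟨t, rfl⟩ : ∃ t, q = t + 1 := ⟨q - 1, by omega⟩
    simp only [Nat.add_sub_cancel]
    apply Nat.sub_eq_of_eq_add
    ring
  rw [h4] at h3
  have h5 : (q + 1) ∣ k := Nat.dvd_of_mul_dvd_mul_right (by omega : 0 < q - 1) h3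
  obtain ⟨j, rfl⟩ := h5
  refine ⟨j, ?_⟩
  have h6 := congrArg (fun u : Fˣ => (u : F)) hk
  simp only [Units.val_pow_eq_pow_val, Units.val_mk0] at h6
  rw [← h6, pow_mul, D.hφ, ← pow_succ']

theorem exists_par (D : QD F q) (m : ℕ) (hm : 2 ≤ m) (hn : n = 2 * m + 1) :
    ∃ P : Par D n, P.m = m ∧ D.φ P.c ≠ P.c := by
  obtain ⟨η, hη⟩ := D.nm (-1) (by rw [map_neg, map_one])
  obtain ⟨s, hs⟩ := D.exists_tr_one
  obtain ⟨c, hc, hc'⟩ := exists_tr_nf D (b := -1) (by rw [map_neg, map_one]) (by norm_num)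
  exact ⟨⟨m, hm, hn, η, s, c, hη, hs, by rw [hc]; ring⟩, rfl, hc'⟩

/-- **Generation by three conjugates of the model element.** -/
theorem model_gen [Fintype F] (hF : Fintype.card F = q ^ 2) (D : QD F q) (P : Par D n)
    (hcφ : D.φ P.c ≠ P.c) :
    ∃ g₁ g₂ : ↥(Cfsg.SU n F q),
      Subgroup.closure ({P.v, g₁ * P.v * g₁⁻¹, g₂ * P.v * g₂⁻¹} : Set ↥(Cfsg.SU n F q)) = ⊤ := by
  have hm := P.hm
  have hn := P.hn
  have h0m : 0 < P.m := by omega
  have h1m : 1 < P.m := by omega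
  obtain ⟨r, hr, hr0, hgen⟩ := exists_r hF D
  have hb1 := P.vinv_e0
  have hb2 : mv P.v⁻¹ (P.e 1) = P.e 1 + P.e 0 := P.vinv_e le_rfl h1m
  by_cases hm3 : 3 ≤ P.m
  · obtain ⟨κ, hκ, hκ'⟩ := exists_tr_nf D hr hr0
    have hκ0 : κ ≠ 0 := by
      rintro rfl
      apply hκ'
      simp
    have h2m : 2 < P.m := by omega
    obtain ⟨g₁, hg1, hg2, hg3⟩ := P.exists_g1 (lam := 1) one_ne_zero (κ • P.e 2)
      ((D.φ κ)⁻¹ • P.f 2)
      (by rw [D.h_smul_left, P.hef h2m]; simp)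
      (by rw [D.h_smul_left, P.hef h2m]; simp)
      (by rw [D.h_smul_left, D.h_smul_right, P.hef h2m, map_inv₀, D.inv]; simp [hκ0])
      (by rw [D.h_smul_right, P.hef h0m]; simp)
      (by rw [D.h_smul_right, P.hef h1m]; simp)
      (by rw [D.h_smul_left, D.h_smul_right, P.hee h2m]; ring)
      (by rw [D.h_smul_left, P.hee h2m]; ring)
      (by
        rw [D.h_smul_left, P.hee h2m, mul_zero, D.h_smul_right, h_mv_left, inv_inv,
          P.v_f (by omega), mv_add, P.v_f (by omega), P.v_f (by omega)]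
        simp only [D.h_add_right, P.hff h0m]
        ring)
      (by intro l hl; rw [Pi.smul_apply, P.e_last h2m l hl, smul_zero])
    obtain ⟨g₂, hg⟩ := mainU D hF P.m hm hn (P.hff h0m 0) P.hγ0 P.hγm P.hcyc (P.hee h0m 0)
      (P.hee h1m 1) (P.hee h1m 0) hb1 hb2 one_ne_zero hg1 hg2 hg3 1 (x₀ := κ) (x₀' := 0)
      (by
        rw [Function.iterate_one, mv_smul, P.vinv_e (by omega) h2m]
        show κ • (P.e 2 + P.e 1) - κ • P.e 2 = κ • P.e 1 + (0 : F) • P.e 0
        module)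
      (by rw [mul_one, hκ]; exact hgen)
      (by rw [mul_one]; exact hκ')
    exact ⟨g₁, g₂, hg⟩
  · have hm2 : P.m - 1 = 1 := by omega
    obtain ⟨lam, hlamN⟩ := D.nm (-r) (by rw [map_neg, hr])
    have hlam : lam ≠ 0 := by
      rintro rfl
      rw [zero_mul] at hlamN
      apply hr0
      exact neg_eq_zero.1 hlamN.symm
    obtain ⟨ξ, hξ⟩ : ∃ ξ, ξ = -D.φ (lam * P.c) := ⟨_, rfl⟩
    have hξ0 : ξ ≠ 0 := by
      rw [hξ]
      exact neg_ne_zero.2 (phi_ne D (mul_ne_zero hlam P.c_ne))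
    have hvf1 : mv P.v (P.f 1) = P.f 1 + P.w + P.c • mv P.v (P.e 1) := by
      have := P.v_ftop
      rwa [hm2] at this
    obtain ⟨g₁, hg1, hg2, hg3⟩ := P.exists_g1 hlam (ξ • P.f 1) ((D.φ ξ)⁻¹ • P.e 1)
      (by rw [D.h_smul_left, P.hff h1m]; ring)
      (by rw [D.h_smul_left, P.hff h1m]; ring)
      (by rw [D.h_smul_left, D.h_smul_right, P.hfe h1m, map_inv₀, D.inv]; simp [hξ0])
      (by rw [D.h_smul_right, P.hee h0m]; ring)
      (by rw [D.h_smul_right, P.hee h1m]; ring)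
      (by rw [D.h_smul_left, D.h_smul_right, P.hff h1m]; ring)
      (by rw [D.h_smul_left, P.hfe h1m]; simp)
      (by
        rw [D.h_smul_left, P.hfe h1m, if_pos rfl, mul_one, D.h_smul_right, h_mv_left, inv_inv,
          P.v_f (by omega), mv_add, P.v_f (by omega), hvf1]
        simp only [D.h_add_right, D.h_smul_right, P.hff h0m, P.hfw h0m, zero_add, add_zero]
        rw [← D.h_symm (mv P.v (P.e 1)) (P.f 0), P.h_ve 1 h1m, hξ]
        simp only [map_mul, map_neg, map_one, pow_one]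
        ring)
      (by intro l hl; rw [Pi.smul_apply, P.f_last h1m l hl, smul_zero])
    have e1 : -ξ * lam = -r * D.φ P.c := by
      rw [hξ, map_mul]
      linear_combination (D.φ P.c) * hlamN
    have hc := P.hc
    obtain ⟨g₂, hg⟩ := mainU D hF P.m hm hn (P.hff h0m 0) P.hγ0 P.hγm P.hcyc (P.hee h0m 0)
      (P.hee h1m 1) (P.hee h1m 0) hb1 hb2 hlam hg1 hg2 hg3 2 (x₀ := -ξ) (x₀' := ξ * D.φ P.c)
      (by
        have hf1 : mv P.v⁻¹ (P.f 1) = P.f 1 - P.w + D.φ P.c • P.e 1 := by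
          have := P.vinv_ftop
          rwa [hm2] at this
        have hw1 : mv P.v⁻¹ P.w = P.w + P.e 1 := by
          have := P.vinv_w
          rwa [hm2] at this
        show mv P.v⁻¹ (mv P.v⁻¹ (ξ • P.f 1) - ξ • P.f 1) - (mv P.v⁻¹ (ξ • P.f 1) - ξ • P.f 1) = _
        rw [mv_smul, hf1]
        have e2 : ξ • (P.f 1 - P.w + D.φ P.c • P.e 1) - ξ • P.f 1 =
            ξ • (D.φ P.c • P.e 1 - P.w) := by module
        rw [e2, mv_smul, mv_sub, mv_smul, hb2, hw1]
        module)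
      (by
        have e : -ξ * lam + D.φ (-ξ * lam) = r := by
          rw [e1, map_mul, map_neg, hr, D.inv]
          linear_combination (-r) * hc
        rw [e]; exact hgen)
      (by
        rw [e1, map_mul, map_neg, hr, D.inv]
        intro h
        apply hcφ
        have h7 : r * (D.φ P.c - P.c) = 0 := by linear_combination h
        rcases mul_eq_zero.1 h7 with h8 | h8
        · exact absurd h8 hr0
        · exact sub_eq_zero.1 h8)
    exact ⟨g₁, g₂, hg⟩

end Cfsg.Agent.Lib.Helper46.SUModelU
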