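import Mathlib
import Cfsg.Agent.Lib.Helper13.Symp

/-!
# Abstract symplectic transvection calculus (helper46)

`V` a vector space with an alternating form `B`; `tr B hA w c` is the transvection
`x ↦ x + (c * B x w) • w` (as a linear equivalence, from `Helper13.Symp`), `sg B hA p v` the
product `tr (p+v) 1 * tr p (-1) * tr v (-1)` (`x ↦ x + B x p • v + B x v • p` if `B p v = 0`).
-/

set_option autoImplicit false

namespace Cfsg.Agent.Lib.Helper46.SpAbs

open Cfsg.Agent.Lib.Helper13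

variable {F V : Type*} [Field F] [AddCommGroup V] [Module F V]
variable (B : LinearMap.BilinForm F V) (hA : B.IsAlt)

/-- the symplectic transvection -/
abbrev tr (w : V) (c : F) : V ≃ₗ[F] V := Symp.transv B hA w c

theorem tr_apply (w : V) (c : F) (x : V) : tr B hA w c x = x + (c * B x w) • w :=
  Symp.transv_apply B hA w c x

/-- the "short root element" -/
def sg (p v : V) : V ≃ₗ[F] V := tr B hA (p + v) 1 * tr B hA p (-1) * tr B hA v (-1)

variable {B}
include hA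

theorem swap0 {x y : V} (h : B x y = 0) : B y x = 0 := by
  rw [← hA.neg_eq x y, h, neg_zero]

theorem sg_apply {p v : V} (h : B p v = 0) (x : V) :
    sg B hA p v x = x + B x p • v + B x v • p := by
  have h' := swap0 hA h
  simp only [sg, LinearEquiv.mul_apply, tr_apply, map_add, map_smul, LinearMap.add_apply,
    LinearMap.smul_apply, smul_eq_mul, hA p, hA v, h, h']
  module

theorem tr_mul (w : V) (c d : F) : tr B hA w c * tr B hA w d = tr B hA w (c + d) := by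
  ext x
  simp only [LinearEquiv.mul_apply, tr_apply, map_add, map_smul, LinearMap.add_apply,
    LinearMap.smul_apply, smul_eq_mul, hA w]
  module

theorem tr_zero (w : V) : tr B hA w 0 = 1 := by
  ext x
  simp [tr_apply]

theorem tr_zero_vec (c : F) : tr B hA (0 : V) c = 1 := by
  ext x
  simp [tr_apply]

theorem tr_inv (w : V) (c : F) : (tr B hA w c)⁻¹ = tr B hA w (-c) := by
  rw [inv_eq_iff_mul_eq_one, tr_mul, add_neg_cancel, tr_zero]

theorem tr_smul (a : F) (w : V) (c : F) : tr B hA (a • w) c = tr B hA w (a ^ 2 * c) := by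
  ext x
  simp only [tr_apply, map_smul, smul_eq_mul]
  module

/-- isometries conjugate transvections to transvections -/
theorem conj_tr {h : V ≃ₗ[F] V} (hh : ∀ x y, B (h x) (h y) = B x y) (w : V) (c : F) :
    h * tr B hA w c * h⁻¹ = tr B hA (h w) c := by
  ext x
  have e1 : B (h⁻¹ x) w = B x (h w) := by
    rw [← hh (h⁻¹ x) w]
    congr 2
    exact LinearEquiv.apply_symm_apply h x
  have e2 : h (h⁻¹ x) = x := LinearEquiv.apply_symm_apply h x
  simp only [LinearEquiv.mul_apply, tr_apply, map_add, map_smul, e1, e2]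

theorem conj_sg {h : V ≃ₗ[F] V} (hh : ∀ x y, B (h x) (h y) = B x y) (p v : V) :
    h * sg B hA p v * h⁻¹ = sg B hA (h p) (h v) := by
  unfold sg
  rw [← map_add, ← conj_tr hA hh, ← conj_tr hA hh, ← conj_tr hA hh]
  group

theorem sg_mul {p v v' : V} (h : B p v = 0) (h' : B p v' = 0) :
    sg B hA p v * sg B hA p v' = tr B hA p (B v' v) * sg B hA p (v + v') := by
  ext x
  have h2 : B p (v + v') = 0 := by rw [map_add, h, h', add_zero]
  have e1 := swap0 hA h
  have e2 := swap0 hA h'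
  simp only [LinearEquiv.mul_apply, sg_apply hA h, sg_apply hA h', sg_apply hA h2, tr_apply,
    map_add, map_smul, LinearMap.add_apply, LinearMap.smul_apply, smul_eq_mul, hA p, hA v, hA v',
    h, h', e1, e2]
  module

theorem tr_add_smul {t p : V} (h : B t p = 0) (a c : F) :
    tr B hA (t + a • p) c = tr B hA t c * tr B hA p (a ^ 2 * c) * sg B hA p ((a * c) • t) := by
  ext x
  have e1 := swap0 hA h
  have h2 : B p ((a * c) • t) = 0 := by rw [map_smul, e1, smul_zero]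
  simp only [LinearEquiv.mul_apply, sg_apply hA h2, tr_apply,
    map_add, map_smul, LinearMap.add_apply, LinearMap.smul_apply, smul_eq_mul, hA p, hA t,
    h, e1]
  module

theorem sg_zero (p : V) : sg B hA p 0 = 1 := by
  ext x
  rw [sg_apply hA (by simp)]
  simp

/-- if the parameter set of a transvection group is stable under multiplication by a ring
generator of `F`, it is everything -/
theorem full_of_mul (H : Subgroup (V ≃ₗ[F] V)) (p : V) (m : F)
    (hm : ∀ S : Subring F, m ∈ S → S = ⊤)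
    (hstab : ∀ c, tr B hA p c ∈ H → tr B hA p (m * c) ∈ H) {c₀ : F} (hc₀ : c₀ ≠ 0)
    (hz : tr B hA p c₀ ∈ H) : ∀ c, tr B hA p c ∈ H := by
  let M : Subring F :=
    { carrier := {a | ∀ c, tr B hA p c ∈ H → tr B hA p (a * c) ∈ H}
      mul_mem' := by
        intro a b ha hb c hc
        rw [mul_assoc]
        exact ha _ (hb _ hc)
      one_mem' := by
        intro c hc
        rwa [one_mul]
      add_mem' := by
        intro a b ha hb c hc
        rw [add_mul, ← tr_mul hA]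
        exact H.mul_mem (ha _ hc) (hb _ hc)
      zero_mem' := by
        intro c _
        rw [zero_mul, tr_zero hA]
        exact H.one_mem
      neg_mem' := by
        intro a ha c hc
        rw [neg_mul, ← tr_inv hA]
        exact H.inv_mem (ha _ hc) }
  have hM : M = ⊤ := hm M hstab
  intro c
  have h1 : c / c₀ ∈ M := by rw [hM]; exact Subring.mem_top _
  have h2 := h1 c₀ hz
  rwa [div_mul_cancel₀ c hc₀] at h2

theorem inv_apply_eq {g : V ≃ₗ[F] V} {x y : V} (h : g y = x) : g⁻¹ x = y := by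
  rw [← h]
  show (g⁻¹ * g) y = y
  rw [inv_mul_cancel]
  rfl

/-- scalars and the first short root group, odd characteristic -/
theorem scal_odd (H : Subgroup (V ≃ₗ[F] V)) (hH : ∀ h ∈ H, ∀ x y, B (h x) (h y) = B x y)
    {p t : V} (hpt : B p t = 0) {g : V ≃ₗ[F] V} (hg : g ∈ H) (hgp : g p = p) {θ : F}
    (hθ0 : θ ≠ 0)
    (hgt : g t = t + θ • p) {h : V ≃ₗ[F] V} (hh : h ∈ H) (hhp : h p = t)
    (hθ : ∀ S : Subring F, 2 * θ ^ 2 ∈ S → S = ⊤) {c₀ : F} (hc₀ : c₀ ≠ 0)
    (hz : tr B hA p c₀ ∈ H) :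
    (∀ c, tr B hA p c ∈ H) ∧ (∀ r : F, sg B hA p (r • t) ∈ H) := by
  have htp : B t p = 0 := swap0 hA hpt
  have ht : ∀ c, tr B hA p c ∈ H → tr B hA t c ∈ H := by
    intro c hc
    rw [← hhp, ← conj_tr hA (hH h hh)]
    exact H.mul_mem (H.mul_mem hh hc) (H.inv_mem hh)
  have hplus : ∀ c, tr B hA p c ∈ H → tr B hA (t + θ • p) c ∈ H := by
    intro c hc
    rw [← hgt, ← conj_tr hA (hH g hg)]
    exact H.mul_mem (H.mul_mem hg (ht c hc)) (H.inv_mem hg)
  have hginv : g⁻¹ t = t + (-θ) • p := by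
    apply inv_apply_eq hA
    rw [map_add, map_smul, hgt, hgp]
    module
  have hminus : ∀ c, tr B hA p c ∈ H → tr B hA (t + (-θ) • p) c ∈ H := by
    intro c hc
    rw [← hginv, ← conj_tr hA (hH g⁻¹ (H.inv_mem hg))]
    exact H.mul_mem (H.mul_mem (H.inv_mem hg) (ht c hc)) (H.inv_mem (H.inv_mem hg))
  have key : ∀ c, tr B hA (t + θ • p) c * tr B hA (t + (-θ) • p) c =
      tr B hA t (2 * c) * tr B hA p (2 * θ ^ 2 * c) := by
    intro c
    ext x
    simp only [LinearEquiv.mul_apply, tr_apply, map_add, map_smul, map_neg, LinearMap.add_apply,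
      LinearMap.smul_apply, LinearMap.neg_apply, smul_eq_mul, hA p, hA t, hpt, htp]
    module
  have hstab : ∀ c, tr B hA p c ∈ H → tr B hA p (2 * θ ^ 2 * c) ∈ H := by
    intro c hc
    have h1 : tr B hA p (2 * c) ∈ H := by
      rw [two_mul, ← tr_mul hA]
      exact H.mul_mem hc hc
    have h2 : tr B hA p (2 * θ ^ 2 * c) =
        (tr B hA t (2 * c))⁻¹ * (tr B hA (t + θ • p) c * tr B hA (t + (-θ) • p) c) := by
      rw [key]; group
    rw [h2]
    exact H.mul_mem (H.inv_mem (ht _ h1)) (H.mul_mem (hplus c hc) (hminus c hc))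
  have hfull := full_of_mul hA H p (2 * θ ^ 2) hθ hstab hc₀ hz
  refine ⟨hfull, fun r => ?_⟩
  have h1 := tr_add_smul hA htp θ (r / θ)
  have h2 : θ * (r / θ) = r := by field_simp
  rw [h2] at h1
  have h3 : sg B hA p (r • t) =
      (tr B hA t (r / θ) * tr B hA p (θ ^ 2 * (r / θ)))⁻¹ * tr B hA (t + θ • p) (r / θ) := by
    rw [h1]; group
  rw [h3]
  exact H.mul_mem (H.inv_mem (H.mul_mem (ht _ (hfull _)) (hfull _))) (hplus _ (hfull _))

/-- scalars and the first short root group, via an element mapping `t` to a multiple of `t'` -/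
theorem scal_even (H : Subgroup (V ≃ₗ[F] V)) (hH : ∀ h ∈ H, ∀ x y, B (h x) (h y) = B x y)
    {p t t' : V} (hpt : B p t = 0) {g : V ≃ₗ[F] V} (hg : g ∈ H) {lam mu : F}
    (hlam : lam ≠ 0) (hmu : mu ≠ 0)
    (hgt : g t = lam • t') (hgt' : g t' = lam⁻¹ • t + mu • p)
    {h : V ≃ₗ[F] V} (hh : h ∈ H) (hhp : h p = t) {h' : V ≃ₗ[F] V} (hh' : h' ∈ H)
    (hhp' : h' p = t')
    (hgen : ∀ S : Subring F, lam ^ 2 ∈ S → S = ⊤) {c₀ : F} (hc₀ : c₀ ≠ 0)
    (hz : tr B hA p c₀ ∈ H) :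
    (∀ c, tr B hA p c ∈ H) ∧ (∀ r : F, sg B hA p (r • t) ∈ H) := by
  have htp : B t p = 0 := swap0 hA hpt
  have ht : ∀ c, tr B hA p c ∈ H → tr B hA t c ∈ H := by
    intro c hc
    rw [← hhp, ← conj_tr hA (hH h hh)]
    exact H.mul_mem (H.mul_mem hh hc) (H.inv_mem hh)
  have ht' : ∀ c, tr B hA p c ∈ H → tr B hA t' c ∈ H := by
    intro c hc
    rw [← hhp', ← conj_tr hA (hH h' hh')]
    exact H.mul_mem (H.mul_mem hh' hc) (H.inv_mem hh')
  have hback : ∀ c, tr B hA t' c ∈ H → tr B hA p c ∈ H := by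
    intro c hc
    have h1 : h'⁻¹ t' = p := inv_apply_eq hA hhp'
    rw [← h1, ← conj_tr hA (hH h'⁻¹ (H.inv_mem hh'))]
    exact H.mul_mem (H.mul_mem (H.inv_mem hh') hc) (H.inv_mem (H.inv_mem hh'))
  have hstab : ∀ c, tr B hA p c ∈ H → tr B hA p (lam ^ 2 * c) ∈ H := by
    intro c hc
    apply hback
    rw [← tr_smul hA, ← hgt, ← conj_tr hA (hH g hg)]
    exact H.mul_mem (H.mul_mem hg (ht c hc)) (H.inv_mem hg)
  have hfull := full_of_mul hA H p (lam ^ 2) hgen hstab hc₀ hz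
  refine ⟨hfull, fun r => ?_⟩
  have ha : lam * mu ≠ 0 := mul_ne_zero hlam hmu
  have h0 : ∀ c, tr B hA (t + (lam * mu) • p) c ∈ H := by
    intro c
    have h1 : tr B hA (lam⁻¹ • t + mu • p) (lam ^ 2 * c) ∈ H := by
      rw [← hgt', ← conj_tr hA (hH g hg)]
      exact H.mul_mem (H.mul_mem hg (ht' _ (hfull _))) (H.inv_mem hg)
    have h2 : lam⁻¹ • t + mu • p = lam⁻¹ • (t + (lam * mu) • p) := by
      rw [smul_add, smul_smul, ← mul_assoc, inv_mul_cancel₀ hlam, one_mul]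
    rw [h2, tr_smul hA] at h1
    have h3 : lam⁻¹ ^ 2 * (lam ^ 2 * c) = c := by field_simp
    rwa [h3] at h1
  have h1 := tr_add_smul hA htp (lam * mu) (r / (lam * mu))
  have h2 : lam * mu * (r / (lam * mu)) = r := by field_simp
  rw [h2] at h1
  have h3 : sg B hA p (r • t) =
      (tr B hA t (r / (lam * mu)) * tr B hA p ((lam * mu) ^ 2 * (r / (lam * mu))))⁻¹ *
        tr B hA (t + (lam * mu) • p) (r / (lam * mu)) := by
    rw [h1]; group
  rw [h3]
  exact H.mul_mem (H.inv_mem (H.mul_mem (ht _ (hfull _)) (hfull _))) (h0 _)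

/-- the seed in odd characteristic (any field): conjugating `u` by a short root element -/
theorem seed_odd {u : V ≃ₗ[F] V} (hu : ∀ x y, B (u x) (u y) = B x y) {b₁ b₂ : V}
    (h1 : u b₁ = b₁) (h2 : u b₂ = b₂ + b₁) (h12 : B b₁ b₂ = 0) (s : F) :
    sg B hA b₁ (s • b₂) * u * (sg B hA b₁ (s • b₂))⁻¹ = tr B hA b₁ (-2 * s) * u := by
  rw [mul_inv_eq_iff_eq_mul]
  ext y
  have h21 := swap0 hA h12
  have hs : B b₁ (s • b₂) = 0 := by rw [map_smul, h12, smul_zero]
  have e1 : B (u y) b₁ = B y b₁ := by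
    have := hu y b₁
    rwa [h1] at this
  have e2 : B (u y) b₂ = B y b₂ - B y b₁ := by
    have := hu y b₂
    rw [h2, map_add, e1] at this
    linear_combination this
  simp only [LinearEquiv.mul_apply, sg_apply hA hs, tr_apply, map_add, map_smul,
    LinearMap.add_apply, LinearMap.smul_apply, smul_eq_mul, hA b₁, hA b₂, h12, h21, e1, e2, h1,
    h2]
  module

/-- the seed in characteristic two -/
theorem seed_even (h2F : (2 : F) = 0) {u : V ≃ₗ[F] V} (hu : ∀ x y, B (u x) (u y) = B x y)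
    {b₁ b₂ b₃ : V} (h1 : u b₁ = b₁) (h2 : u b₂ = b₂ + b₁) (h3 : u b₃ = b₃ + b₂)
    (h12 : B b₁ b₂ = 0) (h13 : B b₁ b₃ = 0) (r : F) :
    (sg B hA b₁ (r • b₃) * tr B hA b₂ r * sg B hA b₁ (r • b₂)) * u *
        (sg B hA b₁ (r • b₃) * tr B hA b₂ r * sg B hA b₁ (r • b₂))⁻¹ =
      tr B hA b₁ (r + r ^ 2 * B b₂ b₃) * u := by
  rw [mul_inv_eq_iff_eq_mul]
  ext y
  have h21 := swap0 hA h12
  have h31 := swap0 hA h13
  have h32 : B b₃ b₂ = -B b₂ b₃ := (hA.neg_eq b₂ b₃).symm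
  have hs2 : B b₁ (r • b₂) = 0 := by rw [map_smul, h12, smul_zero]
  have hs3 : B b₁ (r • b₃) = 0 := by rw [map_smul, h13, smul_zero]
  have e1 : B (u y) b₁ = B y b₁ := by
    have := hu y b₁
    rwa [h1] at this
  have e2 : B (u y) b₂ = B y b₂ - B y b₁ := by
    have := hu y b₂
    rw [h2, map_add, e1] at this
    linear_combination this
  have e3 : B (u y) b₃ = B y b₃ - B y b₂ + B y b₁ := by
    have := hu y b₃
    rw [h3, map_add, e2] at this
    linear_combination this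
  simp only [LinearEquiv.mul_apply, sg_apply hA hs2, sg_apply hA hs3, tr_apply, map_add,
    map_smul, LinearMap.add_apply, LinearMap.smul_apply, smul_eq_mul, hA b₁, hA b₂, hA b₃, h12,
    h21, h13, h31, h32, e1, e2, e3, h1, h2, h3]
  linear_combination (norm := module) h2F • (-(r * B y b₁) • b₂ -
    (r * B y b₁ + r * B y b₂ + r ^ 2 * B b₂ b₃ * B y b₁) • b₁)

/-- Witt extension for a finite family with dual functionals -/
theorem witt_fam [FiniteDimensional F V] (hB : B.Nondegenerate) {m : ℕ} (b c : Fin m → V)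
    (φ : Fin m → V →ₗ[F] F) (hφ : ∀ i j, φ i (b j) = if i = j then 1 else 0)
    (hG : ∀ i j, B (c i) (c j) = B (b i) (b j))
    (hind : LinearIndependent F c) :
    ∃ g ∈ Symp.T B hA, ∀ i, g (b i) = c i := by
  classical
  let f : V →ₗ[F] V := ∑ i, (φ i).smulRight (c i)
  have hf : ∀ a : Fin m → F, f (∑ j, a j • b j) = ∑ i, a i • c i := by
    intro a
    simp only [f, LinearMap.sum_apply, LinearMap.smulRight_apply, map_sum, map_smul, hφ,
      ite_smul, one_smul, zero_smul, Finset.sum_ite_eq', Finset.mem_univ, if_true]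
  have hspan : ∀ x ∈ Submodule.span F ((Finset.univ.image b : Finset V) : Set V),
      ∃ a : Fin m → F, ∑ j, a j • b j = x := by
    intro x hx
    rw [Finset.coe_image, Finset.coe_univ, Set.image_univ] at hx
    exact (Submodule.mem_span_range_iff_exists_fun F).1 hx
  obtain ⟨g, hg, hgf⟩ := Symp.witt_T B hB hA f (Finset.univ.image b)
    (by
      intro x hx x' hx'
      obtain ⟨a, rfl⟩ := hspan x hx
      obtain ⟨a', rfl⟩ := hspan x' hx'
      rw [hf, hf]
      simp only [map_sum, map_smul, LinearMap.sum_apply, LinearMap.smul_apply, hG])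
    (by
      intro x hx h0
      obtain ⟨a, rfl⟩ := hspan x hx
      rw [hf] at h0
      have := Fintype.linearIndependent_iff.1 hind a h0
      simp [this])
  refine ⟨g, hg, fun i => ?_⟩
  rw [hgf (b i) (Submodule.subset_span (by simp))]
  simp only [f, LinearMap.sum_apply, LinearMap.smulRight_apply, hφ, ite_smul, one_smul, zero_smul,
    Finset.sum_ite_eq', Finset.mem_univ, if_true]

/-- **Generation criterion.** A group `H` of isometries containing `u` (with the regular pattern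
`B p (u^k p) = 0` for `1 ≤ k < n`, `≠ 0` for `k = n`, `dim V = 2n`), the full root group at `p`
and the short root elements `sg p (r • u p)` contains all transvections. -/
theorem thmS [FiniteDimensional F V] (hB : B.Nondegenerate) (n : ℕ) (hn : 2 ≤ n)
    (hdim : Module.finrank F V = 2 * n)
    (H : Subgroup (V ≃ₗ[F] V)) (hH : ∀ h ∈ H, ∀ x y, B (h x) (h y) = B x y)
    {u : V ≃ₗ[F] V} (hu : u ∈ H) {p : V}
    (hγ0 : ∀ k : ℕ, 1 ≤ k → k < n → B p ((u ^ k) p) = 0)
    (hγn : B p ((u ^ n) p) ≠ 0)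
    (hX : ∀ c, tr B hA p c ∈ H)
    (hσ : ∀ r : F, sg B hA p (r • u p) ∈ H) :
    ∀ w c, tr B hA w c ∈ H := by
  classical
  obtain ⟨P, hP⟩ : ∃ P : ℤ → V, ∀ k, P k = (u ^ k) p := ⟨_, fun _ => rfl⟩
  have hP0 : P 0 = p := by rw [hP, zpow_zero]; rfl
  have hP1 : P 1 = u p := by rw [hP, zpow_one]
  have hPadd : ∀ i j : ℤ, (u ^ i) (P j) = P (i + j) := by
    intro i j
    rw [hP, hP, ← LinearEquiv.mul_apply, ← zpow_add]
  have hiso : ∀ i : ℤ, ∀ x y, B ((u ^ i) x) ((u ^ i) y) = B x y :=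
    fun i => hH _ (H.zpow_mem hu i)
  obtain ⟨γ, hγ⟩ : ∃ γ : ℤ → F, ∀ k, γ k = B p (P k) := ⟨_, fun _ => rfl⟩
  have hPP : ∀ i j : ℤ, B (P i) (P j) = γ (j - i) := by
    intro i j
    have h1 : P j = (u ^ i) (P (j - i)) := by rw [hPadd]; congr 1; ring
    have h2 : P i = (u ^ i) p := hP i
    rw [h1, h2, hiso, hγ]
  have hγneg : ∀ k : ℤ, γ (-k) = -γ k := by
    intro k
    have h1 := hPP k 0
    rw [zero_sub, hP0] at h1
    rw [← h1, hγ, hA.neg_eq]
  have hγz : ∀ k : ℤ, -(n : ℤ) < k → k < n → γ k = 0 := by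
    intro k hk1 hk2
    obtain ⟨m, rfl | rfl⟩ := Int.eq_nat_or_neg k
    · rcases Nat.eq_zero_or_pos m with h0 | h0
      · subst h0
        rw [hγ, Nat.cast_zero, hP0]
        exact hA p
      · rw [hγ, hP, zpow_natCast]
        exact hγ0 m h0 (by omega)
    · rcases Nat.eq_zero_or_pos m with h0 | h0
      · subst h0
        rw [hγ, Nat.cast_zero, neg_zero, hP0]
        exact hA p
      · rw [hγneg, hγ, hP, zpow_natCast, hγ0 m h0 (by omega), neg_zero]
  have hγn' : γ n ≠ 0 := by rw [hγ, hP, zpow_natCast]; exact hγn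
  have hγn'' : γ (-(n : ℤ)) ≠ 0 := by rw [hγneg]; exact neg_ne_zero.2 hγn'
  -- the set `W`
  have hW1 : ∀ h ∈ H, ∀ w, (∀ c, tr B hA w c ∈ H) → ∀ c, tr B hA (h w) c ∈ H := by
    intro h hh w hw c
    rw [← conj_tr hA (hH h hh)]
    exact H.mul_mem (H.mul_mem hh (hw c)) (H.inv_mem hh)
  have hW2 : ∀ (a : F) w, (∀ c, tr B hA w c ∈ H) → ∀ c, tr B hA (a • w) c ∈ H := by
    intro a w hw c
    rw [tr_smul hA]
    exact hw _
  have hW3 : ∀ w w', (∀ c, tr B hA w c ∈ H) → (∀ c, tr B hA w' c ∈ H) → ∀ d : F,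
      ∀ c, tr B hA (w + (d * B w w') • w') c ∈ H := by
    intro w w' hw hw' d
    have := hW1 _ (hw' d) w hw
    rwa [tr_apply] at this
  have hWP : ∀ k : ℤ, ∀ c, tr B hA (P k) c ∈ H := by
    intro k
    rw [hP]
    exact hW1 _ (H.zpow_mem hu k) p hX
  -- the subspace `Y`
  let Y : Submodule F V :=
    { carrier := {v | B p v = 0 ∧ ∀ r : F, sg B hA p (r • v) ∈ H}
      add_mem' := by
        rintro a b ⟨ha1, ha2⟩ ⟨hb1, hb2⟩
        refine ⟨by rw [map_add, ha1, hb1, add_zero], fun r => ?_⟩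
        have h1 : B p (r • a) = 0 := by rw [map_smul, ha1, smul_zero]
        have h2 : B p (r • b) = 0 := by rw [map_smul, hb1, smul_zero]
        have h3 := sg_mul hA h1 h2
        have h4 : sg B hA p (r • (a + b)) =
            (tr B hA p (B (r • b) (r • a)))⁻¹ * (sg B hA p (r • a) * sg B hA p (r • b)) := by
          rw [h3, smul_add]; group
        rw [h4]
        exact H.mul_mem (H.inv_mem (hX _)) (H.mul_mem (ha2 r) (hb2 r))
      zero_mem' := by
        refine ⟨by simp, fun r => ?_⟩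
        rw [smul_zero, sg_zero hA]
        exact H.one_mem
      smul_mem' := by
        rintro c v ⟨hv1, hv2⟩
        refine ⟨by rw [map_smul, hv1, smul_zero], fun r => ?_⟩
        rw [smul_smul]
        exact hv2 _ }
  have hYmem : ∀ v, v ∈ Y ↔ (B p v = 0 ∧ ∀ r : F, sg B hA p (r • v) ∈ H) := fun v => Iff.rfl
  have hY1 : ∀ h ∈ H, h p = p → ∀ v ∈ Y, h v ∈ Y := by
    intro h hh hhp v hv
    rw [hYmem] at hv ⊢
    refine ⟨?_, fun r => ?_⟩
    · have := hH h hh p v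
      rw [hhp] at this
      rw [this]; exact hv.1
    · have h1 := conj_sg hA (hH h hh) p (r • v)
      rw [hhp, map_smul] at h1
      rw [← h1]
      exact H.mul_mem (H.mul_mem hh (hv.2 r)) (H.inv_mem hh)
  have hYstar : ∀ v ∈ Y, ∀ t, (∀ c, tr B hA t c ∈ H) → B p t = 0 → B v t ≠ 0 → t ∈ Y := by
    intro v hv t ht hpt hvt
    have h1 : tr B hA t 1 p = p := by rw [tr_apply, hpt, mul_zero, zero_smul, add_zero]
    have h2 := hY1 _ (ht 1) h1 v hv
    rw [tr_apply, one_mul] at h2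
    have h3 : B v t • t ∈ Y := by
      have := Y.sub_mem h2 hv
      rwa [add_sub_cancel_left] at this
    have h4 := Y.smul_mem (B v t)⁻¹ h3
    rwa [smul_smul, inv_mul_cancel₀ hvt, one_smul] at h4
  have hpY : p ∈ Y := by
    rw [hYmem]
    refine ⟨hA p, fun r => ?_⟩
    unfold sg
    refine H.mul_mem (H.mul_mem ?_ (hX _)) ?_
    · have : p + r • p = (1 + r) • p := by module
      rw [this, tr_smul hA]
      exact hX _
    · rw [tr_smul hA]
      exact hX _
  have hσ' : ∀ (i : ℤ) (r : F), sg B hA (P i) (r • P (i + 1)) ∈ H := by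
    intro i r
    have h1 := conj_sg hA (hiso i) p (r • u p)
    rw [map_smul, ← hP1, hPadd, ← hP] at h1
    rw [← h1]
    exact H.mul_mem (H.mul_mem (H.zpow_mem hu i) (by rw [hP1]; exact hσ r))
      (H.inv_mem (H.zpow_mem hu i))
  have hP1Y : P 1 ∈ Y := by
    rw [hYmem]
    refine ⟨?_, fun r => ?_⟩
    · rw [← hγ]; exact hγz 1 (by omega) (by omega)
    · rw [hP1]; exact hσ r
  have step3b : ∀ k : ℕ, 1 ≤ k → k + 1 ≤ n → P (k : ℤ) ∈ Y := by
    intro k hk
    induction k, hk using Nat.le_induction with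
    | base => intro _; exact hP1Y
    | succ k hk ih =>
      intro hkn
      have hkY := ih (by omega)
      have hi0 : B (P ((k : ℤ) - n)) ((1 : F) • P ((k : ℤ) - n + 1)) = 0 := by
        rw [one_smul, hPP]
        exact hγz _ (by omega) (by omega)
      have hs := hσ' ((k : ℤ) - n) 1
      have hsp : sg B hA (P ((k : ℤ) - n)) ((1 : F) • P ((k : ℤ) - n + 1)) p = p := by
        rw [sg_apply hA hi0, one_smul, ← hP0, hPP, hPP,
          hγz _ (by omega) (by omega), hγz _ (by omega) (by omega)]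
        simp
      have h2 := hY1 _ hs hsp _ hkY
      rw [sg_apply hA hi0, one_smul, hPP, hPP] at h2
      have e1 : (k : ℤ) - n - k = -(n : ℤ) := by ring
      have e2 : γ ((k : ℤ) - n + 1 - k) = 0 := hγz _ (by omega) (by omega)
      rw [e1, e2, zero_smul, add_zero] at h2
      have h3 : γ (-(n : ℤ)) • P ((k : ℤ) - n + 1) ∈ Y := by
        have := Y.sub_mem h2 hkY
        rwa [add_sub_cancel_left] at this
      have h4 := Y.smul_mem (γ (-(n : ℤ)))⁻¹ h3
      rw [smul_smul, inv_mul_cancel₀ hγn'', one_smul] at h4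
      have h5 := hYstar _ h4 (P ((k + 1 : ℕ) : ℤ)) (hWP _)
        (by rw [← hγ]; exact hγz _ (by push_cast; omega) (by push_cast; omega))
        (by
          rw [hPP]
          have e : ((k + 1 : ℕ) : ℤ) - ((k : ℤ) - n + 1) = n := by push_cast; ring
          rw [e]; exact hγn')
      exact h5
  have step3c : ∀ k : ℕ, 1 ≤ k → k + 1 ≤ n → P ((k : ℤ) - n) ∈ Y := by
    intro k hk hkn
    refine hYstar _ (step3b k hk hkn) _ (hWP _) ?_ ?_
    · rw [← hγ]; exact hγz _ (by omega) (by omega)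
    · rw [hPP]
      have e : (k : ℤ) - n - k = -(n : ℤ) := by ring
      rw [e]; exact hγn''
  have hPY : ∀ j : ℤ, -(n : ℤ) < j → j < n → P j ∈ Y := by
    intro j hj1 hj2
    rcases lt_trichotomy j 0 with h | h | h
    · have h1 := step3c (j + n).toNat (by omega) (by omega)
      have e : (((j + n).toNat : ℕ) : ℤ) - n = j := by
        rw [Int.toNat_of_nonneg (by omega)]; ring
      rwa [e] at h1
    · rw [h, hP0]; exact hpY
    · have h1 := step3b j.toNat (by omega) (by omega)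
      rwa [Int.toNat_of_nonneg (by omega)] at h1
  -- step 4
  have ha₀ : B (P n) p ≠ 0 := by
    rw [← hP0, hPP, zero_sub]; exact hγn''
  have step4a : ∀ v ∈ Y, ∀ c, tr B hA (P n + v) c ∈ H := by
    intro v hv
    have hv1 := Y.smul_mem (B (P n) p)⁻¹ hv
    have hv2 := (hYmem _).1 hv1
    have hs := hv2.2 1
    rw [one_smul] at hs
    have h1 := hW1 _ hs (P n) (hWP n)
    rw [sg_apply hA hv2.1, smul_smul, mul_inv_cancel₀ ha₀, one_smul] at h1
    have hvp : B v p = 0 := swap0 hA ((hYmem _).1 hv).1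
    have h2 := hW3 _ p h1 hX (-(B (P n) ((B (P n) p)⁻¹ • v)) / B (P n) p)
    have h3 : B (P n + v + B (P n) ((B (P n) p)⁻¹ • v) • p) p = B (P n) p := by
      rw [map_add, map_add, LinearMap.add_apply, LinearMap.add_apply, map_smul,
        LinearMap.smul_apply, hA p, hvp]
      simp
    rw [h3, div_mul_cancel₀ _ ha₀] at h2
    have h4 : P n + v + B (P n) ((B (P n) p)⁻¹ • v) • p +
        (-(B (P n) ((B (P n) p)⁻¹ • v))) • p = P n + v := by module
    rwa [h4] at h2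
  -- a basis from the orbit
  obtain ⟨m, hm⟩ : ∃ m, 2 * n = m + 1 := ⟨2 * n - 1, by omega⟩
  have hli : LinearIndependent F (fun i : Fin (m + 1) => P ((i : ℕ) - ((n : ℤ) - 1))) := by
    rw [Fintype.linearIndependent_iff]
    intro g hg
    let M : Matrix (Fin (m + 1)) (Fin (m + 1)) F :=
      Matrix.of fun i j => B (P ((j : ℕ) - ((n : ℤ) - 1))) (P ((i : ℕ) - ((n : ℤ) - 1) - n))
    have hMtri : M.BlockTriangular id := by
      intro i j hij
      simp only [id] at hij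
      have hij' : (j : ℕ) < (i : ℕ) := hij
      have hi := i.2
      show B _ _ = 0
      rw [hPP]
      exact hγz _ (by omega) (by omega)
    have hdet : M.det ≠ 0 := by
      rw [Matrix.det_of_upperTriangular hMtri, Finset.prod_ne_zero_iff]
      intro i _
      show B _ _ ≠ 0
      rw [hPP]
      have e : (i : ℕ) - ((n : ℤ) - 1) - n - ((i : ℕ) - ((n : ℤ) - 1)) = -(n : ℤ) := by ring
      rw [e]; exact hγn''
    have hMg : M.mulVec g = 0 := by
      ext i
      have h1 := congrArg (fun x => B x (P ((i : ℕ) - ((n : ℤ) - 1) - n))) hg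
      simp only [map_sum, map_smul, LinearMap.sum_apply, LinearMap.smul_apply, smul_eq_mul,
        map_zero, LinearMap.zero_apply] at h1
      rw [Pi.zero_apply, ← h1]
      simp only [Matrix.mulVec, dotProduct, M, Matrix.of_apply]
      apply Finset.sum_congr rfl
      intro j _
      ring
    have := Matrix.eq_zero_of_mulVec_eq_zero hdet hMg
    intro i
    rw [this]; rfl
  have hcard : Fintype.card (Fin (m + 1)) = Module.finrank F V := by
    rw [Fintype.card_fin, hdim, hm]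
  let bs := basisOfLinearIndependentOfCardEqFinrank hli hcard
  have step4c : ∀ x, B x p ≠ 0 → ∀ c, tr B hA x c ∈ H := by
    intro x hx
    have hrep := bs.sum_repr x
    simp only [bs, coe_basisOfLinearIndependentOfCardEqFinrank] at hrep
    rw [Fin.sum_univ_castSucc] at hrep
    have hlast : P (((Fin.last m : Fin (m + 1)) : ℕ) - ((n : ℤ) - 1)) = P n := by
      congr 1
      rw [Fin.val_last]
      omega
    rw [hlast] at hrep
    set a := (bs.repr x) (Fin.last m) with ha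
    set v := ∑ i : Fin m, (bs.repr x) (Fin.castSucc i) •
      P (((Fin.castSucc i : Fin (m + 1)) : ℕ) - ((n : ℤ) - 1)) with hv
    have hvY : v ∈ Y := by
      rw [hv]
      apply Y.sum_mem
      intro i _
      apply Y.smul_mem
      apply hPY
      · have := i.2; simp only [Fin.val_castSucc]; omega
      · have := i.2; simp only [Fin.val_castSucc]; omega
    have hvp : B v p = 0 := swap0 hA ((hYmem _).1 hvY).1
    have ha0 : a ≠ 0 := by
      intro h0
      apply hx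
      rw [← hrep, h0, zero_smul, add_zero, hvp]
    have hx' : x = a • (P n + a⁻¹ • v) := by
      rw [smul_add, smul_smul, mul_inv_cancel₀ ha0, one_smul, add_comm]
      exact hrep.symm
    rw [hx']
    exact hW2 _ _ (step4a _ (Y.smul_mem _ hvY))
  have step4d : ∀ x, x ≠ 0 → ∀ c, tr B hA x c ∈ H := by
    intro x hx0
    by_cases hxp : B x p = 0
    swap
    · exact step4c x hxp
    obtain ⟨y₂, hy₂⟩ : ∃ y₂, B x y₂ ≠ 0 := by
      by_contra hcon
      push Not at hcon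
      exact hx0 (hB.1 x hcon)
    obtain ⟨y, hyp, hxy⟩ : ∃ y, B y p ≠ 0 ∧ B x y ≠ 0 := by
      by_cases h1 : B x (P n) = 0
      · by_cases h2 : B y₂ p = 0
        · refine ⟨P n + y₂, ?_, ?_⟩
          · rw [map_add, LinearMap.add_apply, h2, add_zero]; exact ha₀
          · rw [map_add, h1, zero_add]; exact hy₂
        · exact ⟨y₂, h2, hy₂⟩
      · exact ⟨P n, ha₀, h1⟩
    have hy := step4c y hyp
    have hxy' := step4c (x - y) (by
      rw [map_sub, LinearMap.sub_apply, hxp, zero_sub]; exact neg_ne_zero.2 hyp)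
    have hyx : B y (x - y) ≠ 0 := by
      rw [map_sub, hA y, sub_zero, ← hA.neg_eq x y]
      exact neg_ne_zero.2 hxy
    have h3 := hW3 y (x - y) hy hxy' (B y (x - y))⁻¹
    rw [inv_mul_cancel₀ hyx, one_smul, add_sub_cancel] at h3
    exact h3
  intro w c
  by_cases hw : w = 0
  · rw [hw, tr_zero_vec hA]; exact H.one_mem
  · exact step4d w hw c

omit hA in
/-- the subgroup of isometries -/
def Iso (B : LinearMap.BilinForm F V) : Subgroup (V ≃ₗ[F] V) where
  carrier := {h | ∀ x y, B (h x) (h y) = B x y}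
  mul_mem' := by
    intro a b ha hb x y
    rw [LinearEquiv.mul_apply, LinearEquiv.mul_apply, ha, hb]
  one_mem' := by
    intro x y
    rfl
  inv_mem' := by
    intro a ha x y
    have := ha (a⁻¹ x) (a⁻¹ y)
    rw [← this]
    congr 2 <;> exact LinearEquiv.apply_symm_apply a _

theorem T_le_Iso : Symp.T B hA ≤ Iso B := fun _ hg => Symp.T_isometry B hA hg

theorem tr_mem_T (w : V) (c : F) : tr B hA w c ∈ Symp.T B hA :=
  Subgroup.subset_closure ⟨w, c, rfl⟩

theorem sg_mem_T (p v : V) : sg B hA p v ∈ Symp.T B hA :=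
  mul_mem (mul_mem (tr_mem_T hA _ _) (tr_mem_T hA _ _)) (tr_mem_T hA _ _)

theorem conj_apply (g a : V ≃ₗ[F] V) (x : V) : (g * a * g⁻¹) (g x) = g (a x) := by
  simp only [LinearEquiv.mul_apply]
  rw [inv_apply_eq hA rfl]

/-- the orbit of `p` under `v` and its Gram pattern -/
theorem pat {v : V ≃ₗ[F] V} (hv : v ∈ Iso B) {p : V} {n : ℕ}
    (hγ0 : ∀ k : ℕ, 1 ≤ k → k < n → B p ((v ^ k) p) = 0) (hγn : B p ((v ^ n) p) ≠ 0) :
    ∃ P : ℤ → V, P 0 = p ∧ P 1 = v p ∧ P (-1) = v⁻¹ p ∧ (∀ i j : ℤ, (v ^ i) (P j) = P (i + j)) ∧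
      (∀ i j : ℤ, -(n : ℤ) < j - i → j - i < n → B (P i) (P j) = 0) ∧
      (∀ i j : ℤ, j - i = n → B (P i) (P j) ≠ 0) ∧
      (∀ i j : ℤ, j - i = -(n : ℤ) → B (P i) (P j) ≠ 0) ∧
      (∀ i j : ℤ, B (P i) (P j) = B p (P (j - i))) ∧ (∀ k : ℤ, P k = (v ^ k) p) := by
  obtain ⟨P, hP⟩ : ∃ P : ℤ → V, ∀ k, P k = (v ^ k) p := ⟨_, fun _ => rfl⟩
  have hP0 : P 0 = p := by rw [hP, zpow_zero]; rfl
  have hP1 : P 1 = v p := by rw [hP, zpow_one]
  have hPm1 : P (-1) = v⁻¹ p := by rw [hP, zpow_neg_one]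
  have hPadd : ∀ i j : ℤ, (v ^ i) (P j) = P (i + j) := by
    intro i j
    rw [hP, hP, ← LinearEquiv.mul_apply, ← zpow_add]
  have hiso : ∀ i : ℤ, ∀ x y, B ((v ^ i) x) ((v ^ i) y) = B x y :=
    fun i => (Iso B).zpow_mem hv i
  obtain ⟨γ, hγ⟩ : ∃ γ : ℤ → F, ∀ k, γ k = B p (P k) := ⟨_, fun _ => rfl⟩
  have hPP : ∀ i j : ℤ, B (P i) (P j) = γ (j - i) := by
    intro i j
    have h1 : P j = (v ^ i) (P (j - i)) := by rw [hPadd]; congr 1; ring
    have h2 : P i = (v ^ i) p := hP i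
    rw [h1, h2, hiso, hγ]
  have hγneg : ∀ k : ℤ, γ (-k) = -γ k := by
    intro k
    have h1 := hPP k 0
    rw [zero_sub, hP0] at h1
    rw [← h1, hγ, hA.neg_eq]
  have hγz : ∀ k : ℤ, -(n : ℤ) < k → k < n → γ k = 0 := by
    intro k hk1 hk2
    obtain ⟨m, rfl | rfl⟩ := Int.eq_nat_or_neg k
    · rcases Nat.eq_zero_or_pos m with h0 | h0
      · subst h0
        rw [hγ, Nat.cast_zero, hP0]
        exact hA p
      · rw [hγ, hP, zpow_natCast]
        exact hγ0 m h0 (by omega)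
    · rcases Nat.eq_zero_or_pos m with h0 | h0
      · subst h0
        rw [hγ, Nat.cast_zero, neg_zero, hP0]
        exact hA p
      · rw [hγneg, hγ, hP, zpow_natCast, hγ0 m h0 (by omega), neg_zero]
  have hγn' : γ n ≠ 0 := by rw [hγ, hP, zpow_natCast]; exact hγn
  have hγn'' : γ (-(n : ℤ)) ≠ 0 := by rw [hγneg]; exact neg_ne_zero.2 hγn'
  refine ⟨P, hP0, hP1, hPm1, hPadd, ?_, ?_, ?_, ?_, hP⟩
  · intro i j h1 h2
    rw [hPP]; exact hγz _ h1 h2
  · intro i j h
    rw [hPP, h]; exact hγn'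
  · intro i j h
    rw [hPP, h]; exact hγn''
  · intro i j
    rw [hPP, hγ]

/-- **Abstract main theorem, odd characteristic.** -/
theorem main_odd [FiniteDimensional F V] (hB : B.Nondegenerate) (h2 : (2 : F) ≠ 0) (n : ℕ)
    (hn : 2 ≤ n) (hdim : Module.finrank F V = 2 * n)
    {v : V ≃ₗ[F] V} (hv : v ∈ Symp.T B hA) {p : V}
    (hγ0 : ∀ k : ℕ, 1 ≤ k → k < n → B p ((v ^ k) p) = 0) (hγn : B p ((v ^ n) p) ≠ 0)
    {b₁ b₂ : V} (hb1 : v b₁ = b₁) (hb2 : v (b₂ + b₁) = b₂) (h12 : B b₁ b₂ = 0)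
    (φ₁ φ₂ : V →ₗ[F] F) (hφ11 : φ₁ b₁ = 1) (hφ12 : φ₁ b₂ = 0) (hφ21 : φ₂ b₁ = 0)
    (hφ22 : φ₂ b₂ = 1)
    {θ : F} (hθ0 : θ ≠ 0) (hθ : ∀ S : Subring F, 2 * θ ^ 2 ∈ S → S = ⊤) :
    ∃ g₁ ∈ Symp.T B hA, ∃ g₂ ∈ Symp.T B hA, ∀ H : Subgroup (V ≃ₗ[F] V), H ≤ Symp.T B hA →
      v ∈ H → g₁ * v * g₁⁻¹ ∈ H → g₂ * v * g₂⁻¹ ∈ H → H = Symp.T B hA := by
  have hviso : v ∈ Iso B := T_le_Iso hA hv
  obtain ⟨P, hP0, hP1, hPm1, hPadd, hz, hne, hne', -, -⟩ := pat hA hviso hγ0 hγn
  have hp0 : p ≠ 0 := by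
    rintro rfl
    apply hγn
    simp
  have hpt : B p (v p) = 0 := by
    have := hz 0 1 (by omega) (by omega)
    rwa [hP0, hP1] at this
  have hli : LinearIndependent F ![θ • p, v p] := by
    rw [LinearIndependent.pair_iff]
    intro s t hst
    have h1 := congrArg (fun x => B x (P (1 - n))) hst
    simp only [map_add, map_smul, LinearMap.add_apply, LinearMap.smul_apply, smul_eq_mul,
      map_zero, LinearMap.zero_apply] at h1
    have e1 : B p (P (1 - n)) = 0 := by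
      have := hz 0 (1 - n) (by omega) (by omega)
      rwa [hP0] at this
    have e2 : B (v p) (P (1 - n)) ≠ 0 := by
      have := hne' 1 (1 - n) (by ring)
      rwa [hP1] at this
    rw [e1, mul_zero, mul_zero, zero_add] at h1
    have ht : t = 0 := by
      rcases mul_eq_zero.1 h1 with h | h
      · exact h
      · exact absurd h e2
    rw [ht, zero_smul, add_zero, smul_smul] at hst
    rcases smul_eq_zero.1 hst with h | h
    · rcases mul_eq_zero.1 h with h' | h'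
      · exact ⟨h', ht⟩
      · exact absurd h' hθ0
    · exact absurd h hp0
  obtain ⟨g₁, hg₁, hg₁b⟩ := witt_fam hA hB ![b₁, b₂] ![θ • p, v p] ![φ₁, φ₂]
    (by
      intro i j
      fin_cases i <;> fin_cases j <;> simp [hφ11, hφ12, hφ21, hφ22])
    (by
      have e1 : B (θ • p) (v p) = 0 := by rw [map_smul, LinearMap.smul_apply, hpt, smul_zero]
      intro i j
      fin_cases i <;> fin_cases j <;>
        simp [hA _, hpt, swap0 hA hpt, h12, swap0 hA h12])
    hli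
  have hg1 : g₁ b₁ = θ • p := hg₁b 0
  have hg2 : g₁ b₂ = v p := hg₁b 1
  have hub1 : v⁻¹ b₁ = b₁ := inv_apply_eq hA hb1
  have hub2 : v⁻¹ b₂ = b₂ + b₁ := inv_apply_eq hA hb2
  have hvinv : ∀ x y, B (v⁻¹ x) (v⁻¹ y) = B x y := (Iso B).inv_mem hviso
  have hseed := seed_odd hA hvinv hub1 hub2 h12 1
  refine ⟨g₁, hg₁, g₁ * sg B hA b₁ ((1 : F) • b₂), mul_mem hg₁ (sg_mem_T hA _ _), ?_⟩
  intro H hHT hvH h1H h2H
  have hH : ∀ h ∈ H, ∀ x y, B (h x) (h y) = B x y := fun h hh => T_le_Iso hA (hHT hh)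
  obtain ⟨u₁, hu₁⟩ : ∃ u₁, u₁ = g₁ * v⁻¹ * g₁⁻¹ := ⟨_, rfl⟩
  have hu₁H : u₁ ∈ H := by
    have : u₁ = (g₁ * v * g₁⁻¹)⁻¹ := by rw [hu₁]; group
    rw [this]; exact H.inv_mem h1H
  have hzH : tr B hA p (θ ^ 2 * (-2 * 1)) ∈ H := by
    have e : (g₁ * sg B hA b₁ ((1 : F) • b₂) * v * (g₁ * sg B hA b₁ ((1 : F) • b₂))⁻¹)⁻¹ =
        tr B hA (g₁ b₁) (-2 * 1) * u₁ := by
      rw [← conj_tr hA (T_le_Iso hA hg₁)]
      have e' : g₁ * tr B hA b₁ (-2 * 1) * g₁⁻¹ * u₁ =
          g₁ * (tr B hA b₁ (-2 * 1) * v⁻¹) * g₁⁻¹ := by rw [hu₁]; group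
      rw [e', ← hseed]; group
    have h3 := H.inv_mem h2H
    rw [e, hg1, tr_smul hA] at h3
    have := H.mul_mem h3 (H.inv_mem hu₁H)
    rwa [mul_inv_cancel_right] at this
  have hu₁p : u₁ p = p := by
    have h4 : u₁ (θ • p) = θ • p := by
      rw [hu₁, ← hg1, conj_apply hA, hub1]
    rw [map_smul] at h4
    exact smul_right_injective V hθ0 h4
  have hu₁t : u₁ (v p) = v p + θ • p := by
    rw [hu₁, ← hg2, conj_apply hA, hub2, map_add, hg1]
  obtain ⟨hX, hσ⟩ := scal_odd hA H hH hpt hu₁H hu₁p hθ0 hu₁t hvH rfl hθ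
    (mul_ne_zero (pow_ne_zero 2 hθ0) (by simpa using h2)) hzH
  have hall := thmS hA hB n hn hdim H hH hvH hγ0 hγn hX hσ
  apply le_antisymm hHT
  rw [Symp.T, Subgroup.closure_le]
  rintro _ ⟨w, c, rfl⟩
  exact hall w c

/-- **Abstract main theorem, characteristic two.** -/
theorem main_even [FiniteDimensional F V] (hB : B.Nondegenerate) (h2 : (2 : F) = 0) (n : ℕ)
    (hn : 2 ≤ n) (hdim : Module.finrank F V = 2 * n)
    {v : V ≃ₗ[F] V} (hv : v ∈ Symp.T B hA) {p : V}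
    (hγ0 : ∀ k : ℕ, 1 ≤ k → k < n → B p ((v ^ k) p) = 0) (hγn : B p ((v ^ n) p) ≠ 0)
    {b₁ b₂ b₃ : V} (hb1 : v b₁ = b₁) (hb2 : v (b₂ + b₁) = b₂) (hb3 : v (b₃ + b₂) = b₃)
    (h12 : B b₁ b₂ = 0) (h13 : B b₁ b₃ = 0)
    (φ₁ φ₂ φ₃ : V →ₗ[F] F) (hφ11 : φ₁ b₁ = 1) (hφ12 : φ₁ b₂ = 0) (hφ13 : φ₁ b₃ = 0)
    (hφ21 : φ₂ b₁ = 0) (hφ22 : φ₂ b₂ = 1) (hφ23 : φ₂ b₃ = 0)
    (hφ31 : φ₃ b₁ = 0) (hφ32 : φ₃ b₂ = 0) (hφ33 : φ₃ b₃ = 1)
    {lam α r : F} (hlam : lam ≠ 0) (hgen : ∀ S : Subring F, lam ^ 2 ∈ S → S = ⊤)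
    (hα0 : α ≠ 0) (hα : α ^ 2 * lam * B p ((v ^ 2) p) = B b₂ b₃)
    (hr : r + r ^ 2 * B b₂ b₃ ≠ 0) :
    ∃ g₁ ∈ Symp.T B hA, ∃ g₂ ∈ Symp.T B hA, ∀ H : Subgroup (V ≃ₗ[F] V), H ≤ Symp.T B hA →
      v ∈ H → g₁ * v * g₁⁻¹ ∈ H → g₂ * v * g₂⁻¹ ∈ H → H = Symp.T B hA := by
  have hviso : v ∈ Iso B := T_le_Iso hA hv
  obtain ⟨P, hP0, hP1, hPm1, hPadd, hz, hne, hne', hPP, hPk⟩ := pat hA hviso hγ0 hγn
  have hp0 : p ≠ 0 := by
    rintro rfl
    apply hγn
    simp
  have hpt : B p (P 1) = 0 := by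
    have := hz 0 1 (by omega) (by omega)
    rwa [hP0] at this
  have hpm : B p (P (-1)) = 0 := by
    have := hz 0 (-1) (by omega) (by omega)
    rwa [hP0] at this
  have hm1 : B (P (-1)) (P 1) = B p ((v ^ 2) p) := by
    rw [hPP, hPk]
    norm_num
  obtain ⟨c₂, hc₂⟩ : ∃ c₂, c₂ = α • (lam • P (-1) - P 1) := ⟨_, rfl⟩
  obtain ⟨c₃, hc₃⟩ : ∃ c₃, c₃ = α • P 1 := ⟨_, rfl⟩
  have e12 : B p c₂ = 0 := by
    rw [hc₂, map_smul, map_sub, map_smul, hpt, hpm]; simp
  have e13 : B p c₃ = 0 := by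
    rw [hc₃, map_smul, hpt, smul_zero]
  have e23 : B c₂ c₃ = B b₂ b₃ := by
    rw [hc₂, hc₃, ← hα, ← hm1]
    simp only [map_smul, map_sub, LinearMap.smul_apply, LinearMap.sub_apply, smul_eq_mul, hA (P 1)]
    ring
  have e32 : B c₃ c₂ = B b₃ b₂ := by
    rw [← hA.neg_eq c₂ c₃, e23, hA.neg_eq]
  have hli : LinearIndependent F ![p, c₂, c₃] := by
    rw [Fintype.linearIndependent_iff]
    intro a ha
    rw [Fin.sum_univ_three] at ha
    simp only [Matrix.cons_val_zero, Matrix.cons_val_one, Matrix.cons_val_two, Matrix.head_cons,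
      Matrix.tail_cons] at ha
    have f1 : B p (P ((n : ℤ) - 1)) = 0 := by
      have := hz 0 ((n : ℤ) - 1) (by omega) (by omega)
      rwa [hP0] at this
    have f2 : B (P (-1)) (P ((n : ℤ) - 1)) ≠ 0 := hne (-1) ((n : ℤ) - 1) (by ring)
    have f3 : B (P 1) (P ((n : ℤ) - 1)) = 0 := hz 1 ((n : ℤ) - 1) (by omega) (by omega)
    have f4 : B p (P (1 - (n : ℤ))) = 0 := by
      have := hz 0 (1 - (n : ℤ)) (by omega) (by omega)
      rwa [hP0] at this
    have f5 : B (P 1) (P (1 - (n : ℤ))) ≠ 0 := hne' 1 (1 - (n : ℤ)) (by ring)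
    have ha1 : a 1 = 0 := by
      have h1 := congrArg (fun x => B x (P ((n : ℤ) - 1))) ha
      simp only [hc₂, hc₃, map_add, map_smul, map_sub, LinearMap.add_apply, LinearMap.smul_apply,
        LinearMap.sub_apply, smul_eq_mul, map_zero, LinearMap.zero_apply, f1, f3, mul_zero,
        sub_zero, zero_add, add_zero] at h1
      have h3 : a 1 * (α * (lam * B (P (-1)) (P ((n : ℤ) - 1)))) ≠ 0 ∨ a 1 = 0 := by
        by_cases h : a 1 = 0
        · exact Or.inr h
        · exact Or.inl (mul_ne_zero h (mul_ne_zero hα0 (mul_ne_zero hlam f2)))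
      rcases h3 with h | h
      · exact absurd h1 h
      · exact h
    rw [ha1, zero_smul, add_zero] at ha
    have ha2 : a 2 = 0 := by
      have h1 := congrArg (fun x => B x (P (1 - (n : ℤ)))) ha
      simp only [hc₃, map_add, map_smul, LinearMap.add_apply, LinearMap.smul_apply,
        smul_eq_mul, map_zero, LinearMap.zero_apply, f4, mul_zero, zero_add] at h1
      by_contra h
      exact (mul_ne_zero h (mul_ne_zero hα0 f5)) h1
    rw [ha2, zero_smul, add_zero] at ha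
    have ha0 : a 0 = 0 := by
      rcases smul_eq_zero.1 ha with h | h
      · exact h
      · exact absurd h hp0
    intro i
    fin_cases i
    · exact ha0
    · exact ha1
    · exact ha2
  obtain ⟨g₁, hg₁, hg₁b⟩ := witt_fam hA hB ![b₁, b₂, b₃] ![p, c₂, c₃] ![φ₁, φ₂, φ₃]
    (by
      intro i j
      fin_cases i <;> fin_cases j <;>
        simp [hφ11, hφ12, hφ13, hφ21, hφ22, hφ23, hφ31, hφ32, hφ33])
    (by
      intro i j
      fin_cases i <;> fin_cases j <;>
        simp [hA _, e12, e13, e23, e32, swap0 hA e12, swap0 hA e13, h12, h13, swap0 hA h12,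
          swap0 hA h13])
    hli
  have hg1 : g₁ b₁ = p := hg₁b 0
  have hg2 : g₁ b₂ = c₂ := hg₁b 1
  have hg3 : g₁ b₃ = c₃ := hg₁b 2
  have hub1 : v⁻¹ b₁ = b₁ := inv_apply_eq hA hb1
  have hub2 : v⁻¹ b₂ = b₂ + b₁ := inv_apply_eq hA hb2
  have hub3 : v⁻¹ b₃ = b₃ + b₂ := inv_apply_eq hA hb3
  have hvinv : ∀ x y, B (v⁻¹ x) (v⁻¹ y) = B x y := (Iso B).inv_mem hviso
  have hseed := seed_even hA h2 hvinv hub1 hub2 hub3 h12 h13 r
  refine ⟨g₁, hg₁, g₁ * (sg B hA b₁ (r • b₃) * tr B hA b₂ r * sg B hA b₁ (r • b₂)),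
    mul_mem hg₁ (mul_mem (mul_mem (sg_mem_T hA _ _) (tr_mem_T hA _ _)) (sg_mem_T hA _ _)), ?_⟩
  intro H hHT hvH h1H h2H
  have hH : ∀ h ∈ H, ∀ x y, B (h x) (h y) = B x y := fun h hh => T_le_Iso hA (hHT hh)
  obtain ⟨u₁, hu₁⟩ : ∃ u₁, u₁ = g₁ * v⁻¹ * g₁⁻¹ := ⟨_, rfl⟩
  have hu₁H : u₁ ∈ H := by
    have : u₁ = (g₁ * v * g₁⁻¹)⁻¹ := by rw [hu₁]; group
    rw [this]; exact H.inv_mem h1H
  have hzH : tr B hA p (r + r ^ 2 * B b₂ b₃) ∈ H := by
    have e : (g₁ * (sg B hA b₁ (r • b₃) * tr B hA b₂ r * sg B hA b₁ (r • b₂)) * v *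
        (g₁ * (sg B hA b₁ (r • b₃) * tr B hA b₂ r * sg B hA b₁ (r • b₂)))⁻¹)⁻¹ =
        tr B hA (g₁ b₁) (r + r ^ 2 * B b₂ b₃) * u₁ := by
      rw [← conj_tr hA (T_le_Iso hA hg₁)]
      have e' : g₁ * tr B hA b₁ (r + r ^ 2 * B b₂ b₃) * g₁⁻¹ * u₁ =
          g₁ * (tr B hA b₁ (r + r ^ 2 * B b₂ b₃) * v⁻¹) * g₁⁻¹ := by rw [hu₁]; group
      rw [e', ← hseed]; group
    have h3 := H.inv_mem h2H
    rw [e, hg1] at h3
    have := H.mul_mem h3 (H.inv_mem hu₁H)
    rwa [mul_inv_cancel_right] at this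
  have hu₁c₂ : u₁ c₂ = c₂ + p := by
    rw [hu₁, ← hg2, conj_apply hA, hub2, map_add, hg1]
  have hu₁c₃ : u₁ c₃ = c₃ + c₂ := by
    rw [hu₁, ← hg3, conj_apply hA, hub3, map_add, hg2]
  have hu₁P1 : u₁ (P 1) = lam • P (-1) := by
    rw [hc₃, hc₂, map_smul, ← smul_add] at hu₁c₃
    have := smul_right_injective V hα0 hu₁c₃
    rw [this]; module
  have hu₁Pm : u₁ (P (-1)) = lam⁻¹ • P 1 + (α * lam)⁻¹ • p := by
    have h4 := hu₁c₂
    rw [hc₂, map_smul, map_sub, map_smul, hu₁P1] at h4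
    have h5 : (α * lam) • u₁ (P (-1)) = α • P 1 + p := by
      linear_combination (norm := module) h4 + h2 • ((α * lam) • P (-1) - α • P 1)
    have h7 : (α * lam)⁻¹ • ((α * lam) • u₁ (P (-1))) = (α * lam)⁻¹ • (α • P 1 + p) := by
      rw [h5]
    rw [smul_smul, inv_mul_cancel₀ (mul_ne_zero hα0 hlam), one_smul, smul_add, smul_smul] at h7
    rw [h7]
    congr 2
    field_simp
  have hvp : v p = P 1 := hP1.symm
  have hvip : v⁻¹ p = P (-1) := hPm1.symm
  obtain ⟨hX, hσ⟩ := scal_even hA H hH hpt hu₁H hlam (inv_ne_zero (mul_ne_zero hα0 hlam))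
    hu₁P1 hu₁Pm hvH hvp (H.inv_mem hvH) hvip hgen hr hzH
  rw [hP1] at hσ
  have hall := thmS hA hB n hn hdim H hH hvH hγ0 hγn hX hσ
  apply le_antisymm hHT
  rw [Symp.T, Subgroup.closure_le]
  rintro _ ⟨w, c, rfl⟩
  exact hall w c

end Cfsg.Agent.Lib.Helper46.SpAbs
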