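import Mathlib
import Cfsg.Agent.Lib.Helper46.SLnJ
import Cfsg.Agent.Lib.Helper13.SympMat

/-!
# An explicit regular unipotent element of `Sp_{2(L+1)}(F)` (helper46)

`Vm F L = τ * dJ` with `dJ = diag(J, J⁻ᵀ)` (`J` the lower Jordan block) and `τ` the transvection
at the last `inr` basis vector.
-/

set_option autoImplicit false

namespace Cfsg.Agent.Lib.Helper46.SpModel

open Matrix
open Cfsg.Agent.Lib.Helper46.SLnTv Cfsg.Agent.Lib.Helper46.SLnJ Cfsg.Agent.Lib.Helper13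

variable {F : Type*} [Field F] {L : ℕ}

/-- left half vectors -/
def il (x : Fin (L + 1) → F) : Fin (L + 1) ⊕ Fin (L + 1) → F := Sum.elim x 0

/-- right half vectors -/
def ir (y : Fin (L + 1) → F) : Fin (L + 1) ⊕ Fin (L + 1) → F := Sum.elim 0 y

theorem il_add (x y : Fin (L + 1) → F) : il (x + y) = il x + il y := by
  ext (i | i) <;> simp [il]

theorem ir_add (x y : Fin (L + 1) → F) : ir (x + y) = ir x + ir y := by
  ext (i | i) <;> simp [ir]

theorem il_smul (a : F) (x : Fin (L + 1) → F) : il (a • x) = a • il x := by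
  ext (i | i) <;> simp [il]

theorem ir_smul (a : F) (x : Fin (L + 1) → F) : ir (a • x) = a • ir x := by
  ext (i | i) <;> simp [ir]

theorem il_zero : il (0 : Fin (L + 1) → F) = 0 := by
  ext (i | i) <;> simp [il]

theorem ir_zero : ir (0 : Fin (L + 1) → F) = 0 := by
  ext (i | i) <;> simp [ir]

theorem form_elim (a₁ a₂ b₁ b₂ : Fin (L + 1) → F) :
    SympMat.form (L + 1) F (Sum.elim a₁ a₂) (Sum.elim b₁ b₂) = a₂ ⬝ᵥ b₁ - a₁ ⬝ᵥ b₂ := by
  rw [SympMat.form_apply, Cfsg.sympForm, Matrix.J, fromBlocks_mulVec, sumElim_dotProduct_sumElim]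
  simp only [Sum.elim_comp_inl, Sum.elim_comp_inr, zero_mulVec, neg_mulVec, one_mulVec, zero_add,
    add_zero, dotProduct_neg]
  ring

theorem form_il_il (a b : Fin (L + 1) → F) : SympMat.form (L + 1) F (il a) (il b) = 0 := by
  unfold il; rw [form_elim]; simp

theorem form_ir_ir (a b : Fin (L + 1) → F) : SympMat.form (L + 1) F (ir a) (ir b) = 0 := by
  unfold ir; rw [form_elim]; simp

theorem form_il_ir (a b : Fin (L + 1) → F) :
    SympMat.form (L + 1) F (il a) (ir b) = -(a ⬝ᵥ b) := by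
  unfold il ir; rw [form_elim]; simp

theorem form_ir_il (a b : Fin (L + 1) → F) :
    SympMat.form (L + 1) F (ir a) (il b) = a ⬝ᵥ b := by
  unfold il ir; rw [form_elim]; simp

variable (F L)

/-- the inverse transpose of the Jordan block -/
def Km : Matrix (Fin (L + 1)) (Fin (L + 1)) F :=
  (((jl F L)⁻¹ : SpecialLinearGroup (Fin (L + 1)) F) : Matrix (Fin (L + 1)) (Fin (L + 1)) F)ᵀ

/-- the Levi element -/
def dJ : Matrix (Fin (L + 1) ⊕ Fin (L + 1)) (Fin (L + 1) ⊕ Fin (L + 1)) F :=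
  fromBlocks (1 + Nl F L) 0 0 (Km F L)

variable {F L}

theorem Km_mulVec (y : Fin (L + 1) → F) : Km F L *ᵥ y =
    y ᵥ* (((jl F L)⁻¹ : SpecialLinearGroup (Fin (L + 1)) F) :
      Matrix (Fin (L + 1)) (Fin (L + 1)) F) := by
  unfold Km
  rw [mulVec_transpose]

theorem Km_e0 : Km F L *ᵥ e F L 0 = e F L 0 := by
  rw [Km_mulVec]
  conv_lhs => rw [← e_vecMul_Jl_zero (F := F) (L := L)]
  rw [vecMul_vecMul, ← jl_coe, coe_mul_inv, vecMul_one]

theorem Km_succ (j : ℕ) (hj : j < L) : Km F L *ᵥ (e F L (j + 1) + e F L j) = e F L (j + 1) := by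
  rw [Km_mulVec, ← e_vecMul_Jl_succ j hj, vecMul_vecMul, ← jl_coe, coe_mul_inv, vecMul_one]

theorem dJ_mem : dJ F L ∈ symplecticGroup (Fin (L + 1)) F := by
  unfold dJ
  rw [SymplecticGroup.fromBlocks_mem_iff]
  refine ⟨by simp, by simp, ?_⟩
  unfold Km
  rw [← transpose_mul, ← jl_coe, coe_inv_mul]
  simp

theorem dJ_il (x : Fin (L + 1) → F) : dJ F L *ᵥ il x = il ((1 + Nl F L) *ᵥ x) := by
  unfold dJ il
  rw [fromBlocks_mulVec]
  simp

theorem dJ_ir (y : Fin (L + 1) → F) : dJ F L *ᵥ ir y = ir (Km F L *ᵥ y) := by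
  unfold dJ ir
  rw [fromBlocks_mulVec]
  simp

variable (F L)

/-- the regular unipotent element -/
def Vm : symplecticGroup (Fin (L + 1)) F :=
  ⟨Cfsg.sympTransvection (L + 1) (ir (e F L L)) (-1), SympMat.transvection_mem _ _ _⟩ *
    ⟨dJ F L, dJ_mem⟩

variable {F L}

theorem Vm_coe : ((Vm F L : symplecticGroup (Fin (L + 1)) F) :
    Matrix (Fin (L + 1) ⊕ Fin (L + 1)) (Fin (L + 1) ⊕ Fin (L + 1)) F) =
    Cfsg.sympTransvection (L + 1) (ir (e F L L)) (-1) * dJ F L := rfl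

theorem Vm_il (x : Fin (L + 1) → F) :
    ((Vm F L : symplecticGroup (Fin (L + 1)) F) :
      Matrix (Fin (L + 1) ⊕ Fin (L + 1)) (Fin (L + 1) ⊕ Fin (L + 1)) F) *ᵥ il x =
    il ((1 + Nl F L) *ᵥ x) + (((1 + Nl F L) *ᵥ x) (Fin.last L)) • ir (e F L L) := by
  rw [Vm_coe, ← mulVec_mulVec, dJ_il, SympMat.transvection_mulVec, form_il_ir, dotProduct_comm,
    dot_eL]
  simp

theorem Vm_ir (y : Fin (L + 1) → F) :
    ((Vm F L : symplecticGroup (Fin (L + 1)) F) :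
      Matrix (Fin (L + 1) ⊕ Fin (L + 1)) (Fin (L + 1) ⊕ Fin (L + 1)) F) *ᵥ ir y =
    ir (Km F L *ᵥ y) := by
  rw [Vm_coe, ← mulVec_mulVec, dJ_ir, SympMat.transvection_mulVec, form_ir_ir]
  simp

theorem ir_sub (x y : Fin (L + 1) → F) : ir (x - y) = ir x - ir y := by
  ext (i | i) <;> simp [ir]

theorem il_neg (x : Fin (L + 1) → F) : il (-x) = -il x := by
  ext (i | i) <;> simp [il]

variable (F L)

/-- the action of `Vm` on column vectors -/
noncomputable def vm : (Fin (L + 1) ⊕ Fin (L + 1) → F) ≃ₗ[F] (Fin (L + 1) ⊕ Fin (L + 1) → F) :=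
  SympMat.Φ (L + 1) (Vm F L)

variable {F L}

theorem vm_il (x : Fin (L + 1) → F) : vm F L (il x) =
    il ((1 + Nl F L) *ᵥ x) + (((1 + Nl F L) *ᵥ x) (Fin.last L)) • ir (e F L L) := by
  unfold vm
  rw [SympMat.Φ_apply, Vm_il]

theorem vm_ir (y : Fin (L + 1) → F) : vm F L (ir y) = ir (Km F L *ᵥ y) := by
  unfold vm
  rw [SympMat.Φ_apply, Vm_ir]

theorem e_last_of_ne (k : ℕ) (hk : k ≠ L) : e F L k (Fin.last L) = 0 := by
  simp only [e, Fin.val_last]
  rw [if_neg (fun h => hk h.symm)]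

theorem e_last_self : e F L L (Fin.last L) = 1 := by
  simp [e]

/-- the cyclic vector -/
def pv (F : Type*) [Field F] (L : ℕ) : Fin (L + 1) ⊕ Fin (L + 1) → F := il (yv F L)

theorem vm_pv (hL : 1 ≤ L) : vm F L (pv F L) = il (e F L 0) := by
  unfold pv
  rw [vm_il, Jl_mulVec_yv, e_last_of_ne 0 (by omega), zero_smul, add_zero]

theorem vm_pow_pv (hL : 1 ≤ L) (a : ℕ) (ha : a + 1 ≤ L) :
    (vm F L ^ (a + 1)) (pv F L) = il (((1 + Nl F L) ^ a) *ᵥ e F L 0) := by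
  induction a with
  | zero => rw [zero_add, pow_one, pow_zero, one_mulVec, vm_pv hL]
  | succ a ih =>
    rw [pow_succ', LinearEquiv.mul_apply, ih (by omega), vm_il, mulVec_mulVec, ← pow_succ']
    have h0 : (((1 + Nl F L) ^ (a + 1)) *ᵥ e F L 0) (Fin.last L) = 0 :=
      (Jl_pow_mulVec_e0 (a + 1) (Fin.last L)).1 (by rw [Fin.val_last]; omega)
    rw [h0, zero_smul, add_zero]

theorem pat_zero (hL : 1 ≤ L) (k : ℕ) (hk1 : 1 ≤ k) (hk2 : k < L + 1) :
    SympMat.form (L + 1) F (pv F L) ((vm F L ^ k) (pv F L)) = 0 := by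
  obtain ⟨a, rfl⟩ : ∃ a, k = a + 1 := ⟨k - 1, by omega⟩
  rw [vm_pow_pv hL a (by omega)]
  unfold pv
  rw [form_il_il]

theorem pat_ne (hL : 1 ≤ L) :
    SympMat.form (L + 1) F (pv F L) ((vm F L ^ (L + 1)) (pv F L)) ≠ 0 := by
  obtain ⟨M, rfl⟩ : ∃ M, L = M + 1 := ⟨L - 1, by omega⟩
  rw [pow_succ', LinearEquiv.mul_apply, vm_pow_pv hL M (by omega), vm_il, mulVec_mulVec,
    ← pow_succ']
  have h1 : (((1 + Nl F (M + 1)) ^ (M + 1)) *ᵥ e F (M + 1) 0) (Fin.last (M + 1)) = 1 :=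
    (Jl_pow_mulVec_e0 (M + 1) (Fin.last (M + 1))).2 (by rw [Fin.val_last])
  rw [h1, one_smul, map_add]
  unfold pv
  rw [form_il_il, form_il_ir, zero_add, dotProduct_comm, dot_eL]
  unfold yv
  simp

theorem vm_b1 : vm F L (ir (e F L 0)) = ir (e F L 0) := by
  rw [vm_ir, Km_e0]

theorem vm_b2 (hL : 1 ≤ L) : vm F L (ir (e F L 1) + ir (e F L 0)) = ir (e F L 1) := by
  rw [← ir_add, vm_ir, Km_succ 0 (by omega)]

theorem vm_b3 (hL : 2 ≤ L) : vm F L (ir (e F L 2) + ir (e F L 1)) = ir (e F L 2) := by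
  rw [← ir_add, vm_ir, Km_succ 1 (by omega)]

theorem vm_b3' : vm F L (-(il (e F L L) + ir (e F L L)) + ir (e F L L)) =
    -(il (e F L L) + ir (e F L L)) := by
  have h : -(il (e F L L) + ir (e F L L)) + ir (e F L L) = il (-(e F L L)) := by
    rw [il_neg]; abel
  rw [h, vm_il, mulVec_neg, Jl_mulVec_e, e_eq_zero (k := L + 1) (by omega), add_zero,
    Pi.neg_apply, e_last_self, il_neg]
  module

/-! ### regular unipotency -/

variable (F L)

/-- the inverse of the Jordan block -/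
def Ji : Matrix (Fin (L + 1)) (Fin (L + 1)) F :=
  (((jl F L)⁻¹ : SpecialLinearGroup (Fin (L + 1)) F) : Matrix (Fin (L + 1)) (Fin (L + 1)) F)

variable {F L}

theorem Ji_mul : Ji F L * (1 + Nl F L) = 1 := by
  unfold Ji; rw [← jl_coe, coe_inv_mul]

theorem mul_Ji : (1 + Nl F L) * Ji F L = 1 := by
  unfold Ji; rw [← jl_coe, coe_mul_inv]

theorem Ji_comm : Commute (Nl F L) (Ji F L) := by
  have h1 : Nl F L * Ji F L = 1 - Ji F L := by
    have := mul_Ji (F := F) (L := L)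
    rw [add_mul, one_mul] at this
    rw [← this]; abel
  have h2 : Ji F L * Nl F L = 1 - Ji F L := by
    have := Ji_mul (F := F) (L := L)
    rw [mul_add, mul_one] at this
    rw [← this]; abel
  exact h1.trans h2.symm

theorem Ji_sub : Ji F L - 1 = -(Nl F L * Ji F L) := by
  have := mul_Ji (F := F) (L := L)
  rw [add_mul, one_mul] at this
  rw [← this]; abel

theorem Km_sub_pow (k : ℕ) : (Km F L - 1) ^ k = ((-1) ^ k * (Nl F L ^ k * Ji F L ^ k))ᵀ := by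
  have h : Km F L - 1 = (Ji F L - 1)ᵀ := by
    rw [transpose_sub, transpose_one]; rfl
  rw [h, ← transpose_pow, Ji_sub, neg_pow, Ji_comm.mul_pow]

theorem Km_nil : (Km F L - 1) ^ (L + 1) = 0 := by
  rw [Km_sub_pow, Nl_pow_eq_zero]
  simp

theorem e0_Ji : e F L 0 ᵥ* Ji F L = e F L 0 := by
  conv_lhs => rw [← e_vecMul_Jl_zero (F := F) (L := L)]
  rw [vecMul_vecMul, mul_Ji, vecMul_one]

theorem e0_Ji_pow (m : ℕ) : e F L 0 ᵥ* Ji F L ^ m = e F L 0 := by
  induction m with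
  | zero => rw [pow_zero, vecMul_one]
  | succ m ih => rw [pow_succ, ← vecMul_vecMul, ih, e0_Ji]

theorem e_Nl_pow (a k : ℕ) (h : k + a ≤ L) : e F L (k + a) ᵥ* Nl F L ^ a = e F L k := by
  induction a with
  | zero => rw [pow_zero, vecMul_one, add_zero]
  | succ a ih =>
    rw [pow_succ', ← vecMul_vecMul, ← add_assoc, e_vecMul_Nl_succ (k + a) (by omega),
      ih (by omega)]

theorem chain5 : (Km F L - 1) ^ L *ᵥ (Km F L *ᵥ e F L L) ≠ 0 := by
  have hA : e F L L ᵥ* (Ji F L * (Nl F L ^ L * Ji F L ^ L)) = e F L 0 := by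
    have hc : Nl F L ^ L * Ji F L = Ji F L * Nl F L ^ L :=
      ((Ji_comm (F := F) (L := L)).pow_left L).eq
    have h1 : Ji F L * (Nl F L ^ L * Ji F L ^ L) = Nl F L ^ L * (Ji F L * Ji F L ^ L) := by
      rw [← mul_assoc, ← hc, mul_assoc]
    rw [h1, ← vecMul_vecMul]
    have h2 := e_Nl_pow (F := F) (L := L) L 0 (by omega)
    rw [zero_add] at h2
    rw [h2, ← pow_succ', e0_Ji_pow]
  have he0 : e F L 0 ≠ 0 := by
    intro h
    have := congrFun h (0 : Fin (L + 1))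
    simp [e] at this
  rw [Km_sub_pow, mulVec_transpose]
  have hK : Km F L *ᵥ e F L L = e F L L ᵥ* Ji F L := by
    rw [Km_mulVec]; rfl
  rw [hK, vecMul_vecMul]
  rcases Nat.even_or_odd L with hL | hL
  · rw [hL.neg_one_pow, one_mul, hA]; exact he0
  · rw [hL.neg_one_pow, neg_one_mul, mul_neg, vecMul_neg, hA]; exact neg_ne_zero.2 he0

theorem tau_blocks : Cfsg.sympTransvection (L + 1) (ir (e F L L)) (-1) =
    fromBlocks 1 0 (vecMulVec (e F L L) (e F L L)) 1 := by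
  unfold Cfsg.sympTransvection
  have h1 : Matrix.J (Fin (L + 1)) F *ᵥ ir (e F L L) = il (-(e F L L)) := by
    unfold ir il Matrix.J
    rw [fromBlocks_mulVec]
    simp [neg_mulVec]
  rw [h1, ← fromBlocks_one]
  ext (i | i) (j | j) <;>
    simp [vecMulVec_apply, ir, il, Matrix.add_apply, Matrix.smul_apply, fromBlocks]

theorem Vm_blocks : ∃ C : Matrix (Fin (L + 1)) (Fin (L + 1)) F,
    ((Vm F L : symplecticGroup (Fin (L + 1)) F) :
      Matrix (Fin (L + 1) ⊕ Fin (L + 1)) (Fin (L + 1) ⊕ Fin (L + 1)) F) - 1 =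
    fromBlocks (Nl F L) 0 C (Km F L - 1) := by
  refine ⟨vecMulVec (e F L L) (e F L L) * (1 + Nl F L), ?_⟩
  rw [Vm_coe, tau_blocks, dJ, fromBlocks_multiply, ← fromBlocks_one]
  ext (i | i) (j | j) <;> simp [fromBlocks, Matrix.sub_apply, Matrix.add_apply]

theorem blocks_pow (X C Y : Matrix (Fin (L + 1)) (Fin (L + 1)) F) (k : ℕ) :
    ∃ C' : Matrix (Fin (L + 1)) (Fin (L + 1)) F,
      (fromBlocks X 0 C Y) ^ k = fromBlocks (X ^ k) 0 C' (Y ^ k) := by
  induction k with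
  | zero => exact ⟨0, by rw [pow_zero, pow_zero, pow_zero, fromBlocks_one]⟩
  | succ k ih =>
    obtain ⟨C', hC'⟩ := ih
    refine ⟨C' * X + Y ^ k * C, ?_⟩
    rw [pow_succ, hC', fromBlocks_multiply, pow_succ, pow_succ]
    simp

theorem Vm_nilpotent : IsNilpotent (((Vm F L : symplecticGroup (Fin (L + 1)) F) :
    Matrix (Fin (L + 1) ⊕ Fin (L + 1)) (Fin (L + 1) ⊕ Fin (L + 1)) F) - 1) := by
  obtain ⟨C, hC⟩ := Vm_blocks (F := F) (L := L)
  obtain ⟨C', hC'⟩ := blocks_pow (Nl F L) C (Km F L - 1) (L + 1)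
  refine ⟨(L + 1) + (L + 1), ?_⟩
  rw [pow_add, hC, hC', Nl_pow_eq_zero, Km_nil, fromBlocks_multiply]
  simp

theorem Nm_mulVec (x : Fin (L + 1) ⊕ Fin (L + 1) → F) :
    (((Vm F L : symplecticGroup (Fin (L + 1)) F) :
      Matrix (Fin (L + 1) ⊕ Fin (L + 1)) (Fin (L + 1) ⊕ Fin (L + 1)) F) - 1) *ᵥ x =
    vm F L x - x := by
  rw [sub_mulVec, one_mulVec]
  unfold vm
  rw [SympMat.Φ_apply]

theorem Vm_pow_ne (hL : 1 ≤ L) : (((Vm F L : symplecticGroup (Fin (L + 1)) F) :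
    Matrix (Fin (L + 1) ⊕ Fin (L + 1)) (Fin (L + 1) ⊕ Fin (L + 1)) F) - 1) ^
      (2 * (L + 1) - 1) ≠ 0 := by
  obtain ⟨M, rfl⟩ : ∃ M, L = M + 1 := ⟨L - 1, by omega⟩
  set Nm := ((Vm F (M + 1) : symplecticGroup (Fin (M + 1 + 1)) F) :
    Matrix (Fin (M + 1 + 1) ⊕ Fin (M + 1 + 1)) (Fin (M + 1 + 1) ⊕ Fin (M + 1 + 1)) F) - 1
    with hNm
  have chain1 : ∀ a, a ≤ M → Nm ^ a *ᵥ il (e F (M + 1) 0) = il (e F (M + 1) a) := by
    intro a ha
    induction a with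
    | zero => rw [pow_zero, one_mulVec]
    | succ a ih =>
      rw [pow_succ', ← mulVec_mulVec, ih (by omega), hNm, Nm_mulVec, vm_il, Jl_mulVec_e,
        Pi.add_apply, e_last_of_ne a (by omega), e_last_of_ne (a + 1) (by omega), il_add]
      simp
  have chain2 : Nm ^ (M + 1) *ᵥ il (e F (M + 1) 0) =
      il (e F (M + 1) (M + 1)) + ir (e F (M + 1) (M + 1)) := by
    rw [pow_succ', ← mulVec_mulVec, chain1 M le_rfl, hNm, Nm_mulVec, vm_il, Jl_mulVec_e,
      Pi.add_apply, e_last_of_ne M (by omega), e_last_self, il_add, zero_add, one_smul]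
    abel
  have chain3 : Nm ^ (M + 2) *ᵥ il (e F (M + 1) 0) = ir (Km F (M + 1) *ᵥ e F (M + 1) (M + 1)) := by
    rw [pow_succ', ← mulVec_mulVec, chain2, hNm, Nm_mulVec, map_add, vm_il, vm_ir, Jl_mulVec_e,
      e_eq_zero (k := M + 1 + 1) (by omega), add_zero, e_last_self, one_smul]
    abel
  have chain4 : ∀ (m : ℕ) (y : Fin (M + 1 + 1) → F),
      Nm ^ m *ᵥ ir y = ir ((Km F (M + 1) - 1) ^ m *ᵥ y) := by
    intro m
    induction m with
    | zero => intro y; rw [pow_zero, pow_zero, one_mulVec, one_mulVec]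
    | succ m ih =>
      intro y
      rw [pow_succ, ← mulVec_mulVec, hNm, Nm_mulVec, vm_ir, ← ir_sub, ← hNm, ih, pow_succ,
        ← mulVec_mulVec, sub_mulVec, one_mulVec]
  intro h0
  have h1 : Nm ^ (2 * (M + 1 + 1) - 1) *ᵥ il (e F (M + 1) 0) = 0 := by
    rw [h0, zero_mulVec]
  have e1 : 2 * (M + 1 + 1) - 1 = (M + 1) + (M + 2) := by omega
  rw [e1, pow_add, ← mulVec_mulVec, chain3, chain4] at h1
  have h2 := congrArg (fun x : Fin (M + 1 + 1) ⊕ Fin (M + 1 + 1) → F => x ∘ Sum.inr) h1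
  simp only [ir, Sum.elim_comp_inr] at h2
  exact chain5 (F := F) (L := M + 1) h2

end Cfsg.Agent.Lib.Helper46.SpModel
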