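import Mathlib
import Cfsg.Prelude.Def_Transfer
import Cfsg.Prelude.Def_Solvable
import Cfsg.Agent.Lib.Helper46.HuaSemi
import Cfsg.Agent.Lib.Helper47.Basic

set_option autoImplicit false
set_option linter.unusedSectionVars false
set_option linter.unusedVariables false

/-!
# Groups with Suzuki coordinates and their automorphisms

`SCoord G θ`: a bijection `G ≃ F × F`, `x ↦ (α x, β x)`, with
`(a, b) (c, d) = (a + c, b + d + θ(a) c)` (the Sylow 2-subgroup of a Suzuki group, Higman's groups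
of type `A`).  For `F` finite of order `2 ^ n` in characteristic two, `θ` a power map with
`N a = a θ(a)` injective and `{θ t + t}` of index two, the automorphism group has order
`2 ^ (n ^ 2) * (n * (2 ^ n - 1))` and its largest normal 2-subgroup is elementary abelian of
order `2 ^ (n ^ 2)` (`main`).
-/

namespace Cfsg.Agent.Lib.Helper46.SzCoord

open Cfsg Cfsg.Agent.Lib.Helper46.HuaSemi

structure SCoord (G : Type*) [Group G] {F : Type*} [Field F] (θ : F →+* F) where
  α : G → F
  β : G → F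
  mul_α : ∀ x y, α (x * y) = α x + α y
  mul_β : ∀ x y, β (x * y) = β x + β y + θ (α x) * α y
  inj : ∀ x y, α x = α y → β x = β y → x = y
  surj : ∀ a b, ∃ x, α x = a ∧ β x = b

/-- transport of coordinates along an isomorphism -/
def SCoord.congr {G H : Type*} [Group G] [Group H] {F : Type*} [Field F] {θ : F →+* F}
    (C : SCoord G θ) (e : H ≃* G) : SCoord H θ where
  α := fun x => C.α (e x)
  β := fun x => C.β (e x)
  mul_α := fun x y => by rw [map_mul, C.mul_α]
  mul_β := fun x y => by rw [map_mul, C.mul_β]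
  inj := fun x y h1 h2 => e.injective (C.inj _ _ h1 h2)
  surj := fun a b => by
    obtain ⟨x, hx1, hx2⟩ := C.surj a b
    exact ⟨e.symm x, by simp [hx1], by simp [hx2]⟩

section Basic

variable {G : Type*} [Group G] {F : Type*} [Field F] {θ : F →+* F} (C : SCoord G θ)
  (h2 : (2 : F) = 0) (hnf : ∃ c, θ c ≠ c)

theorem α_one : C.α 1 = 0 := by
  have := C.mul_α 1 1
  rw [mul_one] at this
  linear_combination -this

theorem β_one : C.β 1 = 0 := by
  have := C.mul_β 1 1
  rw [mul_one, α_one, mul_zero, add_zero] at this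
  linear_combination -this

include h2 in
theorem α_inv (x : G) : C.α x⁻¹ = C.α x := by
  have := C.mul_α x x⁻¹
  rw [mul_inv_cancel, α_one] at this
  linear_combination -this - C.α x * h2

include hnf in
theorem mem_center_iff (x : G) : x ∈ Subgroup.center G ↔ C.α x = 0 := by
  rw [Subgroup.mem_center_iff]
  constructor
  · intro h
    obtain ⟨c, hc⟩ := hnf
    obtain ⟨y1, hy1, -⟩ := C.surj 1 0
    obtain ⟨y2, hy2, -⟩ := C.surj c 0
    have e1 := congrArg C.β (h y1)
    have e2 := congrArg C.β (h y2)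
    rw [C.mul_β, C.mul_β, hy1, map_one] at e1
    rw [C.mul_β, C.mul_β, hy2] at e2
    have e1' : C.α x = θ (C.α x) := by linear_combination e1
    have e2' : C.α x * (θ c - c) = 0 := by linear_combination e2 - c * e1'
    rcases mul_eq_zero.mp e2' with h0 | h0
    · exact h0
    · exact absurd (sub_eq_zero.mp h0) hc
  · intro h y
    apply C.inj
    · rw [C.mul_α, C.mul_α, add_comm]
    · rw [C.mul_β, C.mul_β, h, map_zero]
      ring

include h2 hnf in
theorem center_map (τ : G ≃* G) (z : G) (hz : C.α z = 0) : C.α (τ z) = 0 := by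
  have hzc := (mem_center_iff C hnf z).mpr hz
  apply (mem_center_iff C hnf _).mp
  rw [Subgroup.mem_center_iff] at hzc ⊢
  intro g
  have h' := congrArg τ (hzc (τ.symm g))
  rwa [map_mul, map_mul, MulEquiv.apply_symm_apply] at h'

include h2 hnf in
theorem α_congr (τ : G ≃* G) (x y : G) (h : C.α x = C.α y) : C.α (τ x) = C.α (τ y) := by
  have h0 : C.α (x⁻¹ * y) = 0 := by
    rw [C.mul_α, α_inv C h2, h]
    linear_combination C.α y * h2
  have h1 := center_map C h2 hnf τ _ h0
  rw [map_mul, map_inv, C.mul_α, α_inv C h2] at h1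
  linear_combination h1 - C.α (τ y) * h2

/-- an element with prescribed first coordinate -/
noncomputable def xa (a : F) : G := Classical.choose (C.surj a 0)

theorem xa_α (a : F) : C.α (xa C a) = a := (Classical.choose_spec (C.surj a 0)).1

theorem xa_β (a : F) : C.β (xa C a) = 0 := (Classical.choose_spec (C.surj a 0)).2

/-- a central element with prescribed second coordinate -/
noncomputable def zb (b : F) : G := Classical.choose (C.surj 0 b)

theorem zb_α (b : F) : C.α (zb C b) = 0 := (Classical.choose_spec (C.surj 0 b)).1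

theorem zb_β (b : F) : C.β (zb C b) = b := (Classical.choose_spec (C.surj 0 b)).2

/-- the action of an automorphism on the first coordinate -/
noncomputable def Am (τ : G ≃* G) (a : F) : F := C.α (τ (xa C a))

/-- the action of an automorphism on the centre -/
noncomputable def Bm (τ : G ≃* G) (b : F) : F := C.β (τ (zb C b))

include h2 hnf in
theorem α_map (τ : G ≃* G) (x : G) : C.α (τ x) = Am C τ (C.α x) :=
  α_congr C h2 hnf τ x _ (xa_α C _).symm

include h2 hnf in
theorem Am_add (τ : G ≃* G) (a a' : F) : Am C τ (a + a') = Am C τ a + Am C τ a' := by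
  have h := α_map C h2 hnf τ (xa C a * xa C a')
  rw [map_mul, C.mul_α, C.mul_α, xa_α, xa_α] at h
  exact h.symm

include h2 hnf in
theorem Am_zero (τ : G ≃* G) : Am C τ 0 = 0 := by
  have h := Am_add C h2 hnf τ 0 0
  rw [add_zero] at h
  linear_combination -h

include h2 hnf in
theorem Am_eq_zero (τ : G ≃* G) (a : F) (h : Am C τ a = 0) : a = 0 := by
  have h3 := center_map C h2 hnf τ.symm _ h
  rwa [MulEquiv.symm_apply_apply, xa_α] at h3

include h2 hnf in
theorem Am_inj (τ : G ≃* G) (a b : F) (h : Am C τ a = Am C τ b) : a = b := by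
  have h0 : Am C τ (a + b) = 0 := by
    rw [Am_add C h2 hnf, h]
    linear_combination Am C τ b * h2
  have := Am_eq_zero C h2 hnf τ _ h0
  linear_combination this - b * h2

include h2 hnf in
theorem β_map (τ : G ≃* G) (z : G) (hz : C.α z = 0) : C.β (τ z) = Bm C τ (C.β z) := by
  have h : z = zb C (C.β z) := C.inj _ _ (hz.trans (zb_α C _).symm) (zb_β C _).symm
  conv_lhs => rw [h]
  rfl

include h2 hnf in
theorem Bm_add (τ : G ≃* G) (b b' : F) : Bm C τ (b + b') = Bm C τ b + Bm C τ b' := by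
  have h : zb C (b + b') = zb C b * zb C b' := by
    apply C.inj
    · rw [C.mul_α, zb_α, zb_α, zb_α, add_zero]
    · rw [C.mul_β, zb_β, zb_β, zb_β, zb_α, map_zero, zero_mul, add_zero]
  show C.β (τ (zb C (b + b'))) = _
  rw [h, map_mul, C.mul_β, center_map C h2 hnf τ _ (zb_α C b), map_zero, zero_mul, add_zero]
  rfl

include h2 hnf in
theorem Bm_inj (τ : G ≃* G) (b b' : F) (h : Bm C τ b = Bm C τ b') : b = b' := by
  have h1 : τ (zb C b) = τ (zb C b') :=
    C.inj _ _ ((center_map C h2 hnf τ _ (zb_α C b)).trans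
      (center_map C h2 hnf τ _ (zb_α C b')).symm) h
  have h3 := congrArg C.β (τ.injective h1)
  rwa [zb_β, zb_β] at h3

include h2 hnf in
theorem Bm_norm (τ : G ≃* G) (a : F) : Bm C τ (a * θ a) = Am C τ a * θ (Am C τ a) := by
  have hsq : C.α (xa C a * xa C a) = 0 := by
    rw [C.mul_α, xa_α]
    linear_combination a * h2
  have hβ : C.β (xa C a * xa C a) = a * θ a := by
    rw [C.mul_β, xa_β, xa_α]
    ring
  have h1 := β_map C h2 hnf τ _ hsq
  rw [hβ, map_mul, C.mul_β] at h1
  show _ = C.α (τ (xa C a)) * θ (C.α (τ (xa C a)))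
  linear_combination -h1 + C.β (τ (xa C a)) * h2

/-- the automorphism `(a, b) ↦ (l a, l θ(l) b)` -/
noncomputable def psi (l : F) (x : G) : G :=
  Classical.choose (C.surj (l * C.α x) (l * θ l * C.β x))

theorem psi_α (l : F) (x : G) : C.α (psi C l x) = l * C.α x :=
  (Classical.choose_spec (C.surj (l * C.α x) (l * θ l * C.β x))).1

theorem psi_β (l : F) (x : G) : C.β (psi C l x) = l * θ l * C.β x :=
  (Classical.choose_spec (C.surj (l * C.α x) (l * θ l * C.β x))).2

theorem psi_mul (l : F) (x y : G) : psi C l (x * y) = psi C l x * psi C l y := by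
  apply C.inj
  · rw [psi_α, C.mul_α, C.mul_α, psi_α, psi_α]; ring
  · rw [psi_β, C.mul_β, C.mul_β, psi_β, psi_β, psi_α, psi_α, map_mul]; ring

theorem psi_psi (l m : F) (x : G) : psi C l (psi C m x) = psi C (l * m) x := by
  apply C.inj
  · rw [psi_α, psi_α, psi_α]; ring
  · rw [psi_β, psi_β, psi_β, map_mul]; ring

theorem psi_one (x : G) : psi C 1 x = x := by
  apply C.inj
  · rw [psi_α, one_mul]
  · rw [psi_β, map_one, one_mul, one_mul]

/-- the automorphisms `psi`, as a homomorphism from the units of the field -/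
noncomputable def psiHom : Fˣ →* MulAut G where
  toFun u :=
    { toFun := psi C (u : F)
      invFun := psi C ((u⁻¹ : Fˣ) : F)
      left_inv := fun x => by rw [psi_psi, Units.inv_mul, psi_one]
      right_inv := fun x => by rw [psi_psi, Units.mul_inv, psi_one]
      map_mul' := psi_mul C _ }
  map_one' := by
    ext x
    exact psi_one C x
  map_mul' := fun u v => by
    ext x
    show psi C ((u * v : Fˣ) : F) x = psi C u (psi C v x)
    rw [psi_psi, Units.val_mul]

theorem psiHom_apply (u : Fˣ) (x : G) : psiHom C u x = psi C (u : F) x := rfl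

include h2 hnf in
theorem Am_comp (τ σ : G ≃* G) (a : F) : Am C (τ * σ) a = Am C τ (Am C σ a) :=
  α_map C h2 hnf τ (σ (xa C a))

theorem Am_one (a : F) : Am C 1 a = a := xa_α C a

/-- the action on the first coordinate, as a homomorphism to the permutations of the field -/
noncomputable def Theta : MulAut G →* Equiv.Perm F where
  toFun τ :=
    { toFun := Am C τ
      invFun := Am C τ⁻¹
      left_inv := fun a => by rw [← Am_comp C h2 hnf, inv_mul_cancel, Am_one]
      right_inv := fun a => by rw [← Am_comp C h2 hnf, mul_inv_cancel, Am_one] }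
  map_one' := by
    ext a
    exact Am_one C a
  map_mul' := fun τ σ => by
    ext a
    exact Am_comp C h2 hnf τ σ a

theorem Theta_apply (τ : MulAut G) (x : G) : Theta C h2 hnf τ (C.α x) = C.α (τ x) :=
  (α_map C h2 hnf τ x).symm

theorem mem_ker_iff (τ : MulAut G) :
    τ ∈ (Theta C h2 hnf).ker ↔ ∀ x, C.α (τ x) = C.α x := by
  rw [MonoidHom.mem_ker]
  constructor
  · intro h x
    rw [← Theta_apply C h2 hnf, h]
    rfl
  · intro h
    ext a
    rw [← xa_α C a, Theta_apply, h]
    rfl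

theorem Theta_psi (u : Fˣ) (a : F) : Theta C h2 hnf (psiHom C u) a = u * a := by
  rw [← xa_α C a, Theta_apply]
  show C.α (psi C (u : F) (xa C a)) = _
  rw [psi_α]

end Basic

section Aut

variable {G : Type*} [Group G] {F : Type*} [Field F] [Fintype F] {θ : F →+* F} (C : SCoord G θ)
  (h2 : (2 : F) = 0) (hnf : ∃ c, θ c ≠ c) (e : ℕ) (hθ : ∀ x, θ x = x ^ e)
  (hN : ∀ a b : F, a * θ a = b * θ b → a = b)
  (hP2 : ∃ e : F, ¬ ∃ t, e = θ t + t)
  (hP3 : ∀ a b : F, (¬ ∃ t, a = θ t + t) → (¬ ∃ t, b = θ t + t) → ∃ t, a + b = θ t + t)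

include h2 hnf hθ hN hP2 hP3 in
/-- Every automorphism acts on the first coordinate by `a ↦ l * ρ a` with `ρ` a field
endomorphism, and on the centre by `b ↦ l * θ l * ρ b`. -/
theorem aut_structure (τ : G ≃* G) :
    ∃ (l : F) (ρ : F →+* F), l ≠ 0 ∧ (∀ x, C.α (τ x) = l * ρ (C.α x)) ∧
      ∀ z, C.α z = 0 → C.β (τ z) = l * θ l * ρ (C.β z) := by
  obtain ⟨l, ρ, hl0, hAl, hBl⟩ := semilinear' h2 θ e hθ hN hP2 hP3 (Am C τ) (Bm C τ)
    (Am_add C h2 hnf τ) (Bm_add C h2 hnf τ) (fun a b h => Am_inj C h2 hnf τ a b h)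
    (fun a b h => Bm_inj C h2 hnf τ a b h) (Bm_norm C h2 hnf τ)
  exact ⟨l, ρ, hl0, fun x => by rw [α_map C h2 hnf, hAl],
    fun z hz => by rw [β_map C h2 hnf τ z hz, hBl]⟩

include h2 in
theorem card_ringHom {n : ℕ} (hF : Fintype.card F = 2 ^ n) : Nat.card (F →+* F) = n := by
  haveI : CharP F 2 := CharTwo.of_one_ne_zero_of_two_eq_zero one_ne_zero h2
  letI : Algebra (ZMod 2) F := ZMod.algebra F 2
  have hcard2 : Fintype.card (ZMod 2) = 2 := ZMod.card 2
  have hfr : Module.finrank (ZMod 2) F = n := by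
    have h := Module.card_eq_pow_finrank (K := ZMod 2) (V := F)
    rw [hF, hcard2] at h
    exact (Nat.pow_right_injective (le_refl 2) h).symm
  have hb := FiniteField.bijective_frobeniusAlgHom_pow (ZMod 2) F
  have h1 : Nat.card (F →ₐ[ZMod 2] F) = n := by
    rw [← Nat.card_eq_of_bijective _ hb, Nat.card_fin, hfr]
  rw [← h1]
  symm
  apply Nat.card_eq_of_bijective (fun f : F →ₐ[ZMod 2] F => (f : F →+* F))
  constructor
  · intro f g h
    exact AlgHom.coe_ringHom_injective h
  · intro ρ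
    exact ⟨{ ρ with
      commutes' := fun r => RingHom.congr_fun
        (Subsingleton.elim (ρ.comp (algebraMap (ZMod 2) F)) (algebraMap (ZMod 2) F)) r }, rfl⟩

include hθ in
theorem exists_aut_rho [Finite G] (ρ : F →+* F) :
    ∃ τ : MulAut G, ∀ x, C.α (τ x) = ρ (C.α x) := by
  have hcomm : ∀ x, ρ (θ x) = θ (ρ x) := fun x => by rw [hθ, hθ, map_pow]
  have hex : ∀ x : G, ∃ y, C.α y = ρ (C.α x) ∧ C.β y = ρ (C.β x) := fun x => C.surj _ _
  choose f hf using hex
  have hmul : ∀ x y, f (x * y) = f x * f y := by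
    intro x y
    apply C.inj
    · rw [(hf _).1, C.mul_α, C.mul_α, (hf x).1, (hf y).1, map_add]
    · rw [(hf _).2, C.mul_β, C.mul_β, (hf x).2, (hf y).2, (hf x).1, (hf y).1, map_add, map_add,
        map_mul, hcomm]
  have hinj : Function.Injective f := by
    intro x y hxy
    apply C.inj
    · apply ρ.injective
      rw [← (hf x).1, ← (hf y).1, hxy]
    · apply ρ.injective
      rw [← (hf x).2, ← (hf y).2, hxy]
  exact ⟨MulEquiv.ofBijective (MonoidHom.mk' f hmul) (Finite.injective_iff_bijective.mp hinj),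
    fun x => (hf x).1⟩

include hθ in
theorem exists_aut [Finite G] (u : Fˣ) (ρ : F →+* F) :
    ∃ τ : MulAut G, ∀ a, Theta C h2 hnf τ a = u * ρ a := by
  obtain ⟨τ, hτ⟩ := exists_aut_rho C e hθ ρ
  refine ⟨psiHom C u * τ, fun a => ?_⟩
  rw [← xa_α C a, Theta_apply]
  show C.α (psi C (u : F) (τ (xa C a))) = _
  rw [psi_α, hτ]

include hθ hN hP2 hP3 in
theorem card_range [Finite G] {n : ℕ} (hF : Fintype.card F = 2 ^ n) :
    Nat.card (Theta C h2 hnf).range = (2 ^ n - 1) * n := by
  classical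
  have hex := exists_aut C h2 hnf e hθ
  choose T hT using hex
  let Ξ : Fˣ × (F →+* F) → (Theta C h2 hnf).range :=
    fun p => ⟨Theta C h2 hnf (T p.1 p.2), ⟨_, rfl⟩⟩
  have hΞ : Function.Bijective Ξ := by
    constructor
    · rintro ⟨u, ρ⟩ ⟨u', ρ'⟩ h
      have h1 : ∀ a, (u : F) * ρ a = u' * ρ' a := by
        intro a
        rw [← hT u ρ a, ← hT u' ρ' a]
        exact congrArg (fun e : (Theta C h2 hnf).range => (e : Equiv.Perm F) a) h
      have hu : u = u' := by
        apply Units.ext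
        have := h1 1
        rwa [map_one, map_one, mul_one, mul_one] at this
      subst hu
      have hρ : ρ = ρ' := by
        ext a
        exact mul_left_cancel₀ u.ne_zero (h1 a)
      rw [hρ]
    · rintro ⟨_, τ, rfl⟩
      obtain ⟨l, ρ, hl0, hα, -⟩ := aut_structure C h2 hnf e hθ hN hP2 hP3 τ
      refine ⟨(Units.mk0 l hl0, ρ), ?_⟩
      apply Subtype.ext
      ext a
      show Theta C h2 hnf (T (Units.mk0 l hl0) ρ) a = Theta C h2 hnf τ a
      rw [hT, ← xa_α C a, Theta_apply, hα]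
      rfl
  rw [← Nat.card_eq_of_bijective Ξ hΞ, Nat.card_prod, Nat.card_units, card_ringHom h2 hF,
    Nat.card_eq_fintype_card, hF]

include h2 hnf hθ hN hP2 hP3 in
theorem ker_shear (τ : MulAut G) (hτ : ∀ x, C.α (τ x) = C.α x) :
    ∃ h : F →+ F, ∀ x, C.β (τ x) = C.β x + h (C.α x) := by
  have hcen : ∀ z, C.α z = 0 → C.β (τ z) = C.β z := by
    obtain ⟨l, ρ, hl0, hα, hβ⟩ := aut_structure C h2 hnf e hθ hN hP2 hP3 τ
    have hlρ : ∀ a, l * ρ a = a := by
      intro a
      rw [← xa_α C a, ← hα, hτ]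
    have hl1 : l = 1 := by
      have := hlρ 1
      rwa [map_one, mul_one] at this
    intro z hz
    rw [hβ z hz, hl1, map_one, one_mul, one_mul]
    have := hlρ (C.β z)
    rwa [hl1, one_mul] at this
  let δ : G → F := fun x => C.β (τ x) + C.β x
  have hδmul : ∀ x y, δ (x * y) = δ x + δ y := by
    intro x y
    show C.β (τ (x * y)) + C.β (x * y) = (C.β (τ x) + C.β x) + (C.β (τ y) + C.β y)
    rw [map_mul, C.mul_β, C.mul_β, hτ, hτ]
    linear_combination (θ (C.α x) * C.α y) * h2
  have hδcen : ∀ z, C.α z = 0 → δ z = 0 := by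
    intro z hz
    show C.β (τ z) + C.β z = 0
    rw [hcen z hz]
    linear_combination C.β z * h2
  have hδα : ∀ x y, C.α x = C.α y → δ x = δ y := by
    intro x y hxy
    have h0 : C.α (x⁻¹ * y) = 0 := by
      rw [C.mul_α, α_inv C h2, hxy]
      linear_combination C.α y * h2
    have h1 := hδcen _ h0
    have h3 := hδmul x (x⁻¹ * y)
    rw [mul_inv_cancel_left, h1, add_zero] at h3
    exact h3.symm
  refine ⟨AddMonoidHom.mk' (fun a => δ (xa C a)) ?_, ?_⟩
  · intro a b
    show δ (xa C (a + b)) = δ (xa C a) + δ (xa C b)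
    rw [← hδmul]
    apply hδα
    rw [C.mul_α, xa_α, xa_α, xa_α]
  · intro x
    show C.β (τ x) = C.β x + δ (xa C (C.α x))
    rw [hδα (xa C (C.α x)) x (xa_α C _)]
    show C.β (τ x) = C.β x + (C.β (τ x) + C.β x)
    linear_combination (-C.β x) * h2

theorem exists_shear [Finite G] (h : F →+ F) :
    ∃ τ : MulAut G, ∀ x, C.α (τ x) = C.α x ∧ C.β (τ x) = C.β x + h (C.α x) := by
  have hex : ∀ x : G, ∃ y, C.α y = C.α x ∧ C.β y = C.β x + h (C.α x) := fun x => C.surj _ _
  choose f hf using hex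
  have hmul : ∀ x y, f (x * y) = f x * f y := by
    intro x y
    apply C.inj
    · rw [(hf _).1, C.mul_α, C.mul_α, (hf x).1, (hf y).1]
    · rw [(hf _).2, C.mul_β, C.mul_β, (hf x).2, (hf y).2, (hf x).1, (hf y).1, C.mul_α, map_add]
      ring
  have hinj : Function.Injective f := by
    intro x y hxy
    have hα : C.α x = C.α y := by rw [← (hf x).1, ← (hf y).1, hxy]
    apply C.inj _ _ hα
    have := (hf x).2
    rw [hxy, (hf y).2, hα] at this
    exact (add_right_cancel this).symm
  exact ⟨MulEquiv.ofBijective (MonoidHom.mk' f hmul) (Finite.injective_iff_bijective.mp hinj), hf⟩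

include h2 hnf hθ hN hP2 hP3 in
theorem ker_comm (τ σ : MulAut G) (hτ : ∀ x, C.α (τ x) = C.α x) (hσ : ∀ x, C.α (σ x) = C.α x) :
    τ * σ = σ * τ := by
  obtain ⟨f, hf⟩ := ker_shear C h2 hnf e hθ hN hP2 hP3 τ hτ
  obtain ⟨g, hg⟩ := ker_shear C h2 hnf e hθ hN hP2 hP3 σ hσ
  apply MulEquiv.ext
  intro x
  show τ (σ x) = σ (τ x)
  apply C.inj
  · rw [hτ, hσ, hσ, hτ]
  · rw [hf, hg, hσ, hg, hf, hτ]
    ring

include h2 hnf hθ hN hP2 hP3 in
theorem ker_sq (τ : MulAut G) (hτ : ∀ x, C.α (τ x) = C.α x) : τ ^ 2 = 1 := by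
  obtain ⟨f, hf⟩ := ker_shear C h2 hnf e hθ hN hP2 hP3 τ hτ
  apply MulEquiv.ext
  intro x
  rw [sq]
  show τ (τ x) = x
  apply C.inj
  · rw [hτ, hτ]
  · rw [hf, hf, hτ]
    linear_combination f (C.α x) * h2

include hθ hN hP2 hP3 in
theorem card_ker [Finite G] {n : ℕ} (hF : Fintype.card F = 2 ^ n) :
    Nat.card (Theta C h2 hnf).ker = 2 ^ (n ^ 2) := by
  classical
  haveI : CharP F 2 := CharTwo.of_one_ne_zero_of_two_eq_zero one_ne_zero h2
  letI : Algebra (ZMod 2) F := ZMod.algebra F 2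
  have hcard2 : Fintype.card (ZMod 2) = 2 := ZMod.card 2
  have hfr : Module.finrank (ZMod 2) F = n := by
    have h := Module.card_eq_pow_finrank (K := ZMod 2) (V := F)
    rw [hF, hcard2] at h
    exact (Nat.pow_right_injective (le_refl 2) h).symm
  let b := Module.finBasis (ZMod 2) F
  have hcount : Nat.card (F →ₗ[ZMod 2] F) = (2 ^ n) ^ n := by
    rw [← Nat.card_congr (b.constr (ZMod 2)).toEquiv, Nat.card_fun, Nat.card_eq_fintype_card, hF,
      Nat.card_fin, hfr]
  have hex : ∀ h : F →ₗ[ZMod 2] F, ∃ τ : MulAut G,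
      ∀ x, C.α (τ x) = C.α x ∧ C.β (τ x) = C.β x + h (C.α x) := fun h =>
    exists_shear C h.toAddMonoidHom
  choose T hT using hex
  let Ξ : (F →ₗ[ZMod 2] F) → (Theta C h2 hnf).ker := fun h =>
    ⟨T h, (mem_ker_iff C h2 hnf _).mpr (fun x => (hT h x).1)⟩
  have hΞ : Function.Bijective Ξ := by
    constructor
    · intro h h' hh
      have h1 : T h = T h' := congrArg Subtype.val hh
      apply LinearMap.ext
      intro a
      have e1 := (hT h (xa C a)).2
      rw [h1, (hT h' (xa C a)).2, xa_α] at e1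
      exact (add_left_cancel e1).symm
    · rintro ⟨τ, hτ⟩
      rw [mem_ker_iff] at hτ
      obtain ⟨g, hg⟩ := ker_shear C h2 hnf e hθ hN hP2 hP3 τ hτ
      refine ⟨g.toZModLinearMap 2, Subtype.ext ?_⟩
      apply MulEquiv.ext
      intro x
      apply C.inj
      · rw [(hT _ x).1, hτ]
      · rw [(hT _ x).2, hg]
        rfl
  rw [← Nat.card_eq_of_bijective Ξ hΞ, hcount, ← pow_mul, sq]

include h2 in
theorem pow_two_pow (w : F) (k : ℕ) (h : w ^ 2 ^ k = 1) : w = 1 := by
  induction k generalizing w with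
  | zero => simpa using h
  | succ k ih =>
    rw [pow_succ, pow_mul'] at h
    have h1 := ih (w ^ 2) h
    have h3 : (w + 1) * (w + 1) = 0 := by linear_combination h1 + (w + 1) * h2
    have := mul_self_eq_zero.mp h3
    linear_combination this - h2

include hθ hN hP2 hP3 in
theorem pCore_le_ker [Finite G] : pCore 2 (MulAut G) ≤ (Theta C h2 hnf).ker := by
  intro τ hτQ
  have hQn := Cfsg.Agent.Lib.Helper47.Basic.pCore_normal 2 (MulAut G)
  have hQp := Cfsg.Agent.Lib.Helper47.Basic.pCore_isPGroup 2 (MulAut G)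
  obtain ⟨l, ρ, hl0, hα, -⟩ := aut_structure C h2 hnf e hθ hN hP2 hP3 τ
  have hΘτ : ∀ a, Theta C h2 hnf τ a = l * ρ a := by
    intro a
    rw [← xa_α C a, Theta_apply, hα]
  have key : ∀ c ∈ pCore 2 (MulAut G), ∀ w : F,
      (∀ a, Theta C h2 hnf c a = w * a) → w = 1 := by
    intro c hc w hw
    obtain ⟨k, hk⟩ := hQp ⟨c, hc⟩
    have hk' : c ^ 2 ^ k = 1 := by
      have := congrArg Subtype.val hk
      simpa using this
    have hpow : ∀ m : ℕ, ∀ a, Theta C h2 hnf (c ^ m) a = w ^ m * a := by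
      intro m
      induction m with
      | zero => intro a; simp
      | succ m ih =>
        intro a
        rw [pow_succ, map_mul, Equiv.Perm.mul_apply, hw, ih]
        ring
    have := hpow (2 ^ k) 1
    rw [hk', (Theta C h2 hnf).map_one] at this
    have h1 : (1 : F) = w ^ 2 ^ k * 1 := this
    rw [mul_one] at h1
    exact pow_two_pow h2 w k h1.symm
  have hρ : ∀ u : Fˣ, ρ u = u := by
    intro u
    have hc : τ * (psiHom C u * τ⁻¹ * (psiHom C u)⁻¹) ∈ pCore 2 (MulAut G) :=
      mul_mem hτQ (hQn.conj_mem _ (inv_mem hτQ) _)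
    have hw := key _ hc (ρ u * (u : F)⁻¹) (fun a => by
      rw [map_mul, map_mul, map_mul, Equiv.Perm.mul_apply, Equiv.Perm.mul_apply,
        Equiv.Perm.mul_apply, map_inv, map_inv]
      obtain ⟨d, hd⟩ : ∃ d, d = (Theta C h2 hnf (psiHom C u))⁻¹ a := ⟨_, rfl⟩
      obtain ⟨b, hb⟩ : ∃ b, b = (Theta C h2 hnf τ)⁻¹ d := ⟨_, rfl⟩
      rw [← hd, ← hb]
      have hb1 : Theta C h2 hnf τ b = d := by
        rw [hb]
        exact Equiv.apply_symm_apply _ _
      have hd1 : (u : F) * d = a := by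
        rw [← Theta_psi C h2 hnf, hd]
        exact Equiv.apply_symm_apply _ _
      rw [hΘτ] at hb1
      rw [Theta_psi, hΘτ, map_mul, ← hd1, ← hb1]
      have hu0 : (u : F) ≠ 0 := u.ne_zero
      field_simp)
    have hu0 : (u : F) ≠ 0 := u.ne_zero
    field_simp at hw
    exact hw
  have hρ' : ∀ a, ρ a = a := by
    intro a
    by_cases ha : a = 0
    · rw [ha, map_zero]
    · exact hρ (Units.mk0 a ha)
  have hl1 : l = 1 := key τ hτQ l (fun a => by rw [hΘτ, hρ'])
  rw [mem_ker_iff]
  intro x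
  rw [hα, hl1, hρ', one_mul]

include C h2 hnf hθ hN hP2 hP3 in
theorem main [Finite G] {n : ℕ} (hF : Fintype.card F = 2 ^ n) :
    IsElementaryAbelian 2 (pCore 2 (MulAut G)) ∧
      Nat.card (pCore 2 (MulAut G)) = 2 ^ (n ^ 2) ∧
      Nat.card (MulAut G) = 2 ^ (n ^ 2) * (n * (2 ^ n - 1)) := by
  have hker := card_ker C h2 hnf e hθ hN hP2 hP3 hF
  have heq : pCore 2 (MulAut G) = (Theta C h2 hnf).ker :=
    le_antisymm (pCore_le_ker C h2 hnf e hθ hN hP2 hP3)
      (Cfsg.Agent.Lib.Helper47.Basic.le_pCore (MonoidHom.normal_ker _) (IsPGroup.of_card hker))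
  have hmem := mem_ker_iff C h2 hnf
  refine ⟨⟨?_, ?_⟩, ?_, ?_⟩
  · rw [heq]
    exact ⟨⟨fun a b => Subtype.ext
      (ker_comm C h2 hnf e hθ hN hP2 hP3 a.1 b.1 ((hmem _).mp a.2) ((hmem _).mp b.2))⟩⟩
  · intro a ha
    rw [heq] at ha
    exact ker_sq C h2 hnf e hθ hN hP2 hP3 a ((hmem _).mp ha)
  · rw [heq, hker]
  · rw [← Subgroup.card_mul_index (Theta C h2 hnf).ker, Subgroup.index_ker, hker,
      card_range C h2 hnf e hθ hN hP2 hP3 hF]
    ring

end Aut

end Cfsg.Agent.Lib.Helper46.SzCoord
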